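import Mathlib
import Cfsg.Agent.Loc.MssSyl
import Cfsg.Prelude.Def_Spor_Mathieu

/-!
# Weakly closed TI-subgroups (Timmesfeld; S1179, S1764, S2978): definitions

`S` is a class of elementary abelian 2-subgroups, TI and weakly closed in their normalizers.
See `stubs/Cfsg/Agent/WTI/PLAN.md`.
-/

set_option autoImplicit false

namespace Cfsg.Agent.WTI

open Cfsg Cfsg.Agent.GT Cfsg.Agent.Loc.Mss Subgroup
open scoped commutatorElement

variable {G : Type*} [Group G]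

/-- A conjugacy class of elementary abelian weakly closed TI 2-subgroups (the points). -/
structure TW (S : Set (Subgroup G)) : Prop where
  sq : ∀ A ∈ S, ∀ a ∈ A, a * a = 1
  conj : ∀ A ∈ S, ∀ g : G, cj(g, A) ∈ S
  tr : ∀ A ∈ S, ∀ B ∈ S, ∃ g : G, cj(g, A) = B
  ti : ∀ A ∈ S, ∀ B ∈ S, ∀ x ∈ A, x ∈ B → x ≠ 1 → A = B
  wc : ∀ A ∈ S, ∀ B ∈ S, B ≤ 𝐍[A] → B = A

/-- The axis `N_A(B)`. -/
def ax (A B : Subgroup G) : Subgroup G := A ⊓ 𝐍[B]

/-- The module `N_A(B) × N_B(A)` of the line through `A` and `B`. -/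
def nn (A B : Subgroup G) : Subgroup G := ax A B ⊔ ax B A

/-- The index `|A : N_A(B)|`. -/
noncomputable def qq (A B : Subgroup G) : ℕ := (ax A B).relIndex A

/-- Adjacent points. -/
structure Adj (S : Set (Subgroup G)) (A B : Subgroup G) : Prop where
  tw : TW S
  left : A ∈ S
  right : B ∈ S
  ne : A ≠ B
  nb : ax A B ≠ ⊥

/-- An edge with an axis of the largest order. -/
structure Mx (S : Set (Subgroup G)) (A B : Subgroup G) : Prop extends Adj S A B where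
  max : ∀ C D, Adj S C D → Nat.card (ax C D) ≤ Nat.card (ax A B)

/-- `H` is an axis of the largest order at `A`. -/
def IsAx (S : Set (Subgroup G)) (A H : Subgroup G) : Prop := ∃ B, Mx S A B ∧ ax A B = H

/-- The points normalizing `E`. -/
def Pt (S : Set (Subgroup G)) (E : Subgroup G) : Set (Subgroup G) := {C | C ∈ S ∧ C ≤ 𝐍[E]}

/-- The module of a line or of a clique. -/
structure Mod (S : Set (Subgroup G)) (E : Subgroup G) : Prop where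
  tw : TW S
  sq : ∀ x ∈ E, x * x = 1
  two : ∃ A ∈ Pt S E, ∃ B ∈ Pt S E, A ≠ B
  ax_eq : ∀ C ∈ Pt S E, ∀ C' ∈ Pt S E, C ≠ C' → ax C C' = C ⊓ E
  nb : ∀ C ∈ Pt S E, C ⊓ E ≠ ⊥
  gen : ∀ X : Subgroup G, (∀ C ∈ Pt S E, C ⊓ E ≤ X) → E ≤ X

/-- Every point is transitive on the other points. -/
def Thin (S : Set (Subgroup G)) (E : Subgroup G) : Prop :=
  ∀ A ∈ Pt S E, ∀ B ∈ Pt S E, ∀ C ∈ Pt S E, B ≠ A → C ≠ A → ∃ a ∈ A, cj(a, B) = C

/-- Two points generate a subline. -/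
def Sub (S : Set (Subgroup G)) (E : Subgroup G) : Prop :=
  ∀ A ∈ Pt S E, ∀ B ∈ Pt S E, A ≠ B → ∀ a ∈ A, a ∉ E → ∃ b ∈ B, cj(b, A) = cj(a, B)

/-- A swapper: an element of a point, outside `E`, carrying `A` to `B`. -/
def Swp (S : Set (Subgroup G)) (E A B : Subgroup G) (e : G) : Prop :=
  (∃ F ∈ Pt S E, e ∈ F ∧ e ∉ E) ∧ cj(e, A) = B

/-- `g` acts trivially on `A / (A ⊓ E)`. -/
def Tv (A E : Subgroup G) (g : G) : Prop := ∀ a ∈ A, ⁅a, g⁆ ∈ E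

/-- A generator of the torus of the line through `A` and `B` (index at least four). -/
structure Tor (S : Set (Subgroup G)) (A B : Subgroup G) (t : G) : Prop where
  mem : t ∈ A ⊔ B
  nA : t ∈ 𝐍[A]
  nB : t ∈ 𝐍[B]
  odd : Odd (orderOf t)
  ord : ∀ i : ℕ, t ^ i ∈ 𝐂[nn A B] ↔ qq A B - 1 ∣ i
  trans : ∀ a ∈ A, ∀ a' ∈ A, a ∉ ax A B → a' ∉ ax A B →
    ∃ i : ℕ, t ^ i * a * (t ^ i)⁻¹ * a' ∈ ax A B
  fpf : ∀ i : ℕ, ∀ a ∈ A, a ∉ ax A B → t ^ i * a * (t ^ i)⁻¹ * a ∈ ax A B → t ^ i ∈ 𝐂[nn A B]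
  semi : ∀ i : ℕ, ∀ n ∈ nn A B, n ≠ 1 → Commute (t ^ i) n → t ^ i ∈ 𝐂[nn A B]
  cen : ∀ τ ∈ 𝐍[A], τ ∈ 𝐍[B] → Tv A (ax A B) τ → ⁅t, τ⁆ ∈ 𝐂[nn A B]
  sw : ∀ e e', Swp S (nn A B) A B e → Swp S (nn A B) A B e' →
    ∃ i : ℕ, e * e' * (t ^ i)⁻¹ ∈ 𝐂[nn A B]

/-- Two different axes of the largest order at a point. -/
def Two (S : Set (Subgroup G)) : Prop :=
  ∀ A B, Mx S A B → ∃ B', Mx S A B' ∧ ax A B' ≠ ax A B

/-- Cliques on a largest axis normalized by a suitable 2-group are thin. -/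
def TT (S : Set (Subgroup G)) : Prop :=
  ∀ A B, Mx S A B → ∃ U : Subgroup G, IsPGroup 2 U ∧ U ≤ 𝐍[A] ⊓ 𝐍[ax A B] ∧
    ∀ E, Mod S E → A ∈ Pt S E → A ⊓ E = ax A B → U ≤ 𝐍[E] → Thin S E

/-- A largest axis lies on a unique line, which is thin, and `C(A) = A × C(A, B)`. -/
structure Uq (S : Set (Subgroup G)) : Prop where
  thin : ∀ A B, Mx S A B → Thin S (nn A B)
  uniq : ∀ A B B', Mx S A B → Adj S A B' → ax A B' = ax A B → nn A B' = nn A B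
  split : ∀ A B, Mx S A B → ∀ c ∈ 𝐂[A], ∃ a ∈ A, ∃ k ∈ 𝐂[A ⊔ B], c = a * k

/-- Two different largest axes generate the point. -/
def Lin (S : Set (Subgroup G)) : Prop :=
  ∀ A B B', Mx S A B → Mx S A B' → ax A B ≠ ax A B' → ax A B ⊔ ax A B' = A

/-- The graph is connected. -/
def Conn (S : Set (Subgroup G)) : Prop :=
  ∀ A ∈ S, ∀ X : Subgroup G, 𝐍[A] ≤ X → (∀ B, Adj S A B → B ≤ X) → X = ⊤

/-- The graph of the edges with a largest axis is connected. -/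
def Conn0 (S : Set (Subgroup G)) : Prop :=
  ∀ A ∈ S, ∀ X : Subgroup G, 𝐍[A] ≤ X → (∀ B, Mx S A B → B ≤ X) → X = ⊤

/-- The components are cliques. -/
def Clq (S : Set (Subgroup G)) : Prop :=
  ∀ A B C, Adj S A B → Adj S A C → B = C ∨ Adj S B C

/-- The largest axes at a point intersect trivially. -/
def NoW (S : Set (Subgroup G)) : Prop :=
  ∀ A ∈ S, ∀ w ∈ A, (∀ B, Mx S A B → w ∈ ax A B) → w = 1

/-- The data of the case `M₂₂`, `M₂₃`. -/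
structure NL (S : Set (Subgroup G)) (A B B' : Subgroup G) (s : G) : Prop where
  mx : Mx S A B
  mx' : Mx S A B'
  card : Nat.card A = 16
  cardH : Nat.card (ax A B) = 4
  cardU : Nat.card (ax A B ⊓ ax A B' : Subgroup G) = 2
  mem : s ∈ ax B' A
  nH : s ∈ 𝐍[ax A B]
  ntv : ¬ Tv A (ax A B) s

/-- The data of the case `L₅(2)`, `M₂₄`: every hyperplane of `A` is an axis. -/
structure K4 (S : Set (Subgroup G)) : Prop where
  tw : TW S
  uq : Uq S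
  card : ∀ A ∈ S, Nat.card A = 16
  cent : ∀ A ∈ S, 𝐂[A] ≤ A
  two : ∀ A B, Mx S A B → qq A B = 2
  all : ∀ A ∈ S, ∀ Y ≤ A, Y.relIndex A = 2 → IsAx S A Y
  eps : ∀ A B B', Mx S A B → Mx S A B' → ∀ r ∈ ax B' A, r ∈ 𝐍[ax A B] → r ∈ 𝐍[B]

/-- The simple groups with an edge. -/
def Out (G : Type*) [Group G] : Prop :=
  (∃ (F : Type) (_ : Field F) (_ : Fintype F) (_ : CharP F 2) (n : ℕ), 3 ≤ n ∧
    Nonempty (G ≃* Matrix.ProjectiveSpecialLinearGroup (Fin n) F)) ∨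
  Nonempty (G ≃* alternatingGroup (Fin 6)) ∨ Nonempty (G ≃* alternatingGroup (Fin 7)) ∨
  Nonempty (G ≃* alternatingGroup (Fin 9)) ∨
  Spor.IsoM22 G ∨ Spor.IsoM23 G ∨ Spor.IsoM24 G

variable {S : Set (Subgroup G)} {A B E : Subgroup G}

theorem mem_ax {a : G} : a ∈ ax A B ↔ a ∈ A ∧ a ∈ 𝐍[B] := Iff.rfl

theorem ax_le : ax A B ≤ A := inf_le_left

theorem ax_le_norm : ax A B ≤ 𝐍[B] := inf_le_right

theorem nn_comm : nn A B = nn B A := sup_comm _ _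

theorem ax_le_nn : ax A B ≤ nn A B := le_sup_left

theorem ax_le_nn' : ax B A ≤ nn A B := le_sup_right

theorem ax_cj (g : G) : cj(g, ax A B) = ax cj(g, A) cj(g, B) := by
  rw [ax, ax, cj_inf, cj_norm]

theorem nn_cj (g : G) : cj(g, nn A B) = nn cj(g, A) cj(g, B) := by
  rw [nn, nn, cj_sup, ax_cj, ax_cj]

theorem mem_Pt {C : Subgroup G} : C ∈ Pt S E ↔ C ∈ S ∧ C ≤ 𝐍[E] := Iff.rfl

theorem Conn0.conn (h : Conn0 S) : Conn S :=
  fun A hA X h1 h2 => h A hA X h1 fun B hB => h2 B hB.toAdj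

theorem Conn.conn0 (h : Conn S) (hm : ∀ A B, Adj S A B → Mx S A B) : Conn0 S :=
  fun A hA X h1 h2 => h A hA X h1 fun B hB => h2 B (hm A B hB)

end Cfsg.Agent.WTI
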