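import Mathlib
import Cfsg.Agent.WTI.Defs

/-!
# WTI: the quotient `N(E) / Z` acting on the points of a module, as abstract data
See `stubs/Cfsg/Agent/WTI/PLAN.md` §4.
-/

set_option autoImplicit false

namespace Cfsg.Agent.WTI

open Cfsg Cfsg.Agent.GT Cfsg.Agent.Loc.Mss Subgroup

variable {G : Type*} [Group G]

/-- The kernel of the action of `N(E)` on the points. -/
def Kr (S : Set (Subgroup G)) (E : Subgroup G) : Subgroup G := 𝐍[E] ⊓ ⨅ C ∈ Pt S E, 𝐍[C]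

theorem mem_Kr {S : Set (Subgroup G)} {E : Subgroup G} {g : G} :
    g ∈ Kr S E ↔ g ∈ 𝐍[E] ∧ ∀ C ∈ Pt S E, g ∈ 𝐍[C] := by
  simp only [Kr, mem_inf, mem_iInf]

/-- `β : N(E) → Γ` is onto with kernel `Z`, `π` identifies `Ω` with the points, `D` is the set of
images of the elements of points outside `E`, and `α` is the point of such an image. -/
structure Bar (S : Set (Subgroup G)) (E Z : Subgroup G) {Γ Ω : Type*} [Group Γ] [MulAction Γ Ω]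
    (β : G → Γ) (π : Ω → Subgroup G) (D : Set Γ) (α : Γ → Ω) : Prop where
  mod : Mod S E
  cent_le : 𝐂[E] ≤ Z
  le_kr : Z ≤ Kr S E
  mul : ∀ g ∈ 𝐍[E], ∀ h ∈ 𝐍[E], β (g * h) = β g * β h
  one_iff : ∀ g ∈ 𝐍[E], β g = 1 ↔ g ∈ Z
  surj : ∀ x, ∃ g ∈ 𝐍[E], β g = x
  inj : Function.Injective π
  range : ∀ C, C ∈ Pt S E ↔ ∃ ω, π ω = C
  smul : ∀ g ∈ 𝐍[E], ∀ ω, π (β g • ω) = cj(g, π ω)
  memD : ∀ x, x ∈ D ↔ ∃ C ∈ Pt S E, ∃ c ∈ C, c ∉ E ∧ β c = x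
  al : ∀ ω, ∀ c ∈ π ω, c ∉ E → α (β c) = ω

end Cfsg.Agent.WTI
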