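import Mathlib
import Cfsg.Agent.WTI.Defs

/-! WTI: points, axes and lines (PLAN §1). -/

set_option autoImplicit false
set_option linter.unusedSectionVars false
set_option linter.unusedVariables false

namespace Cfsg.Agent.WTI

open Cfsg Cfsg.Agent.GT Cfsg.Agent.Loc.Mss Subgroup
open scoped commutatorElement

variable {G : Type*} [Group G] [Finite G] {S : Set (Subgroup G)}
  {A B B' C C' E F H P U X Y : Subgroup G} {a a' b c d e g h k n r s t w x y : G}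

theorem bas_inv_eq (h : x * x = 1) : x⁻¹ = x := inv_eq_of_mul_eq_one_right h

theorem bas_commute (h : ∀ x ∈ U, x * x = 1) (ha : a ∈ U) (hb : b ∈ U) : Commute a b := by
  have h1 := bas_inv_eq (h _ (mul_mem ha hb))
  rw [mul_inv_rev, bas_inv_eq (h a ha), bas_inv_eq (h b hb)] at h1
  exact h1.symm

theorem bas_pg (h : ∀ x ∈ U, x * x = 1) : IsPGroup 2 U :=
  pg_iff.mpr fun x hx => ⟨1, by rw [pow_one, sq]; exact h x hx⟩

theorem bas_le_cent (h : ∀ x ∈ U, x * x = 1) : U ≤ 𝐂[U] :=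
  fun _ ha => mem_cent.mpr fun _ hb => (bas_commute h hb ha).eq

theorem bas_exists_ne (h : U ≠ ⊥) : ∃ a ∈ U, a ≠ 1 := by
  by_contra hc
  push Not at hc
  exact h ((eq_bot_iff_forall U).mpr hc)

theorem bas_comm_mem_left (hg : g ∈ 𝐍[U]) (ha : a ∈ U) : ⁅a, g⁆ ∈ U := by
  have := mul_mem ha (conj_mem_of_norm hg (inv_mem ha))
  rwa [commutatorElement_def, mul_assoc, mul_assoc, ← mul_assoc g]

theorem bas_comm_mem_right (hg : g ∈ 𝐍[U]) (ha : a ∈ U) : ⁅g, a⁆ ∈ U := by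
  rw [commutatorElement_def]; exact mul_mem (conj_mem_of_norm hg ha) (inv_mem ha)

theorem bas_card_le (f : G → G) (h1 : ∀ x ∈ U, f x ∈ X)
    (h2 : ∀ x ∈ U, ∀ y ∈ U, f x = f y → x = y) : Nat.card U ≤ Nat.card X :=
  Nat.card_le_card_of_injective (fun x : U => (⟨f x, h1 x x.2⟩ : X))
    fun x y e => Subtype.ext (h2 x x.2 y y.2 (congrArg Subtype.val e))

theorem bas_surj (f : G → G) (h1 : ∀ x ∈ U, f x ∈ X)
    (h2 : ∀ x ∈ U, ∀ y ∈ U, f x = f y → x = y) (hc : Nat.card X ≤ Nat.card U) (hy : y ∈ X) :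
    ∃ x ∈ U, f x = y := by
  have hi : Function.Injective (fun x : U => (⟨f x, h1 x x.2⟩ : X)) :=
    fun x y e => Subtype.ext (h2 x x.2 y y.2 (congrArg Subtype.val e))
  obtain ⟨x, hx⟩ := (hi.bijective_of_nat_card_le hc).2 ⟨y, hy⟩
  exact ⟨x, x.2, congrArg Subtype.val hx⟩

theorem bas_rel_mul (h : U ≤ X) : U.relIndex X * Nat.card U = Nat.card X := by
  rw [relIndex, ← Nat.card_congr (subgroupOfEquivOfLe h).toEquiv, index_mul_card]

namespace TW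

theorem comm (h : TW S) (hA : A ∈ S) (ha : a ∈ A) (hb : b ∈ A) : Commute a b :=
  bas_commute (h.sq A hA) ha hb

theorem le_cent (h : TW S) (hA : A ∈ S) : A ≤ 𝐂[A] := bas_le_cent (h.sq A hA)

theorem inv_eq (h : TW S) (hA : A ∈ S) (ha : a ∈ A) : a⁻¹ = a := bas_inv_eq (h.sq A hA a ha)

theorem pg (h : TW S) (hA : A ∈ S) : IsPGroup 2 A := bas_pg (h.sq A hA)

theorem card_eq (h : TW S) (hA : A ∈ S) (hB : B ∈ S) : Nat.card A = Nat.card B := by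
  obtain ⟨g, rfl⟩ := h.tr A hA B hB
  exact (card_cj A g).symm

theorem cj_eq_of_mem (h : TW S) (hA : A ∈ S) (hB : B ∈ S) (ha : a ∈ A) (h1 : a ≠ 1)
    (hg : g * a * g⁻¹ ∈ B) : cj(g, A) = B :=
  h.ti _ (h.conj A hA g) B hB _ (conj_mem_cj ha) hg fun e => h1 (by simpa using e)

theorem mem_norm (h : TW S) (hA : A ∈ S) (ha : a ∈ A) (h1 : a ≠ 1) (hg : g * a * g⁻¹ ∈ A) :
    g ∈ 𝐍[A] := cj_eq_iff.mp (h.cj_eq_of_mem hA hA ha h1 hg)

theorem mem_norm_of_commute (h : TW S) (hA : A ∈ S) (ha : a ∈ A) (h1 : a ≠ 1)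
    (hg : Commute g a) : g ∈ 𝐍[A] :=
  h.mem_norm hA ha h1 (by rw [hg.eq, mul_inv_cancel_right]; exact ha)

/-- The normalizer of a nontrivial subgroup of a point normalizes the point. -/
theorem norm_le (h : TW S) (hA : A ∈ S) (hU : U ≤ A) (h1 : U ≠ ⊥) : 𝐍[U] ≤ 𝐍[A] := by
  obtain ⟨a, ha, h1⟩ := bas_exists_ne h1
  exact fun g hg => h.mem_norm hA (hU ha) h1 (hU (conj_mem_of_norm hg ha))

theorem le_norm_of_pg (h : TW S) (hA : A ∈ S) (hP : IsPGroup 2 P) (hAP : A ≤ P) :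
    P ≤ 𝐍[A] := by
  by_contra hc
  have hlt : P ⊓ 𝐍[A] < P := lt_of_le_of_ne inf_le_left fun e => hc (e ▸ inf_le_right)
  have : Group.IsNilpotent P := hP.isNilpotent
  obtain ⟨g, hg, hn, hg'⟩ := PG.exists_mem_normalizer_notMem hlt
  have h1 : cj(g, A) ≤ P ⊓ 𝐍[A] := cj_le_of_norm (le_inf hAP le_normalizer) hg'
  exact hn ⟨hg, cj_eq_iff.mp (h.wc A hA _ (h.conj A hA g) (h1.trans inf_le_right))⟩

theorem eq_of_pg (h : TW S) (hA : A ∈ S) (hB : B ∈ S) (hP : IsPGroup 2 P) (hAP : A ≤ P)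
    (hBP : B ≤ P) : A = B :=
  h.wc B hB A hA (hAP.trans (h.le_norm_of_pg hB hP hBP))

/-- `D ∩ C(A) = A#`. -/
theorem eq_of_cent (h : TW S) (hA : A ∈ S) (hB : B ∈ S) (hd : d ∈ B) (h1 : d ≠ 1)
    (hc : d ∈ 𝐂[A]) : B = A :=
  (h.wc B hB A hA fun a ha => h.mem_norm_of_commute hB hd h1 (mem_cent.mp hc a ha)).symm

theorem eq_one (h : TW S) (hA : A ∈ S) (hB : B ∈ S) (hne : A ≠ B) (ha : x ∈ A) (hb : x ∈ B) :
    x = 1 := by
  by_contra h1
  exact hne (h.ti A hA B hB x ha hb h1)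

theorem adj (h : TW S) (hA : A ∈ S) (hB : B ∈ S) (hne : A ≠ B) (ha : a ∈ A) (h1 : a ≠ 1)
    (hn : a ∈ 𝐍[B]) : Adj S A B :=
  ⟨h, hA, hB, hne, fun e => h1 (mem_bot.mp (e ▸ (mem_ax.mpr ⟨ha, hn⟩)))⟩

/-- A Sylow 2-subgroup of the normalizer of a point is one of `G`. -/
theorem syl_top (h : TW S) (hA : A ∈ S) (hP : Syl 2 P 𝐍[A]) : Syl 2 P ⊤ := by
  have hAP : A ≤ P := hP.le_of_norm (h.pg hA) le_normalizer hP.le
  exact Syl.of_maximal hP.pg le_top fun Q hQ hPQ _ =>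
    hP.ge_of_le hQ hPQ (h.le_norm_of_pg hA hQ (hAP.trans hPQ))

theorem odd_index (h : TW S) (hA : A ∈ S) : Odd (𝐍[A]).index := by
  obtain ⟨P, hP⟩ := Syl.exists 2 𝐍[A]
  have h1 := (h.syl_top hA hP).nd
  rw [relIndex_top_right] at h1
  rw [← Nat.not_even_iff_odd, even_iff_two_dvd]
  exact fun h2 => h1 (h2.trans (index_dvd_of_le hP.le))

end TW

namespace Adj

theorem exists_ne (h : Adj S A B) : ∃ a ∈ ax A B, a ≠ 1 := bas_exists_ne h.nb

theorem symm (h : Adj S A B) : Adj S B A := by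
  obtain ⟨x, hx, h1⟩ := h.exists_ne
  have hB : B ≠ ⊥ := by
    rintro rfl
    have := h.tw.card_eq h.left h.right
    rw [card_bot, card_eq_one] at this
    exact h.ne this
  obtain ⟨b, hb, hb1⟩ := bas_exists_ne hB
  have key : ∀ c ∈ B, c ≠ 1 → Commute c x → Adj S B A := fun c hc hc1 hcx =>
    h.tw.adj h.right h.left h.ne.symm hc hc1 (h.tw.mem_norm_of_commute h.left hx.1 h1 hcx)
  by_cases hc : Commute b x
  · exact key b hb hb1 hc
  have hm : ⁅b, x⁆ ∈ B := bas_comm_mem_left hx.2 hb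
  refine key _ hm (fun e => hc (commutatorElement_eq_one_iff_commute.mp e)) ?_
  have e1 := h.tw.inv_eq h.right hm
  have e2 := h.tw.sq A h.left x hx.1
  have e3 : x * ⁅b, x⁆ * x⁻¹ = ⁅b, x⁆⁻¹ := by
    rw [commutatorElement_inv, commutatorElement_def, commutatorElement_def, bas_inv_eq e2]
    calc x * (b * x * b⁻¹ * x) * x = x * b * x * b⁻¹ * (x * x) := by group
      _ = _ := by rw [e2, mul_one]
  rw [e1, mul_inv_eq_iff_eq_mul] at e3
  exact e3.symm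

theorem conj (h : Adj S A B) (g : G) : Adj S cj(g, A) cj(g, B) :=
  ⟨h.tw, h.tw.conj A h.left g, h.tw.conj B h.right g, fun e => h.ne (cj_eq_cj.mp e),
    fun e => h.nb (cj_eq_bot.mp ((ax_cj g).trans e))⟩

theorem ax_ne (h : Adj S A B) : ax A B ≠ A :=
  fun e => h.ne (h.tw.wc B h.right A h.left (e ▸ ax_le_norm))

theorem exists_out (h : Adj S A B) : ∃ a ∈ A, a ∉ ax A B := by
  by_contra hc
  push Not at hc
  exact h.ax_ne (le_antisymm ax_le hc)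

theorem commute (h : Adj S A B) (ha : a ∈ ax A B) (hr : r ∈ ax B A) : Commute a r :=
  commutatorElement_eq_one_iff_commute.mp (h.tw.eq_one h.left h.right h.ne
    (bas_comm_mem_left hr.2 ha.1) (bas_comm_mem_right ha.2 hr.1))

theorem mem_ax_iff (h : Adj S A B) (hr : r ∈ ax B A) (h1 : r ≠ 1) :
    a ∈ ax A B ↔ a ∈ A ∧ Commute a r :=
  ⟨fun ha => ⟨ha.1, h.commute ha hr⟩,
    fun ha => ⟨ha.1, h.tw.mem_norm_of_commute h.right hr.1 h1 ha.2⟩⟩

theorem comm_mem (h : Adj S A B) (ha : a ∈ A) (hr : r ∈ ax B A) : ⁅a, r⁆ ∈ ax A B := by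
  by_cases h1 : r = 1
  · rw [h1, commutatorElement_one_right]; exact one_mem _
  have hm : ⁅a, r⁆ ∈ A := bas_comm_mem_left hr.2 ha
  refine (h.mem_ax_iff hr h1).mpr ⟨hm, ?_⟩
  have e1 := h.tw.inv_eq h.left hm
  have e2 := h.tw.sq B h.right r hr.1
  have e3 : r * ⁅a, r⁆ * r⁻¹ = ⁅a, r⁆⁻¹ := by
    rw [commutatorElement_inv, commutatorElement_def, commutatorElement_def, bas_inv_eq e2]
    calc r * (a * r * a⁻¹ * r) * r = r * a * r * a⁻¹ * (r * r) := by group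
      _ = _ := by rw [e2, mul_one]
  rw [e1, mul_inv_eq_iff_eq_mul] at e3
  exact e3.symm

theorem comm_mul_right (h : Adj S A B) (ha : a ∈ A) (hr : r ∈ ax B A) (hs : s ∈ ax B A) :
    ⁅a, r * s⁆ = ⁅a, r⁆ * ⁅a, s⁆ := by
  have h1 := (h.commute (h.comm_mem ha hs) hr).eq
  calc ⁅a, r * s⁆ = ⁅a, r⁆ * (r * ⁅a, s⁆) * r⁻¹ := by simp only [commutatorElement_def]; group
    _ = _ := by rw [← h1]; group

theorem comm_mul_left (h : Adj S A B) (ha : a ∈ A) (ha' : a' ∈ A) (hr : r ∈ ax B A) :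
    ⁅a * a', r⁆ = ⁅a, r⁆ * ⁅a', r⁆ := by
  have h1 := (h.tw.comm h.left ha (h.comm_mem ha' hr).1).eq
  have h2 := (h.tw.comm h.left (h.comm_mem ha hr).1 (h.comm_mem ha' hr).1).eq
  calc ⁅a * a', r⁆ = (a * ⁅a', r⁆) * a⁻¹ * ⁅a, r⁆ := by simp only [commutatorElement_def]; group
    _ = _ := by rw [h1, h2]; group

theorem inj (h : Adj S A B) (ha : a ∈ A) (hn : a ∉ ax A B) (hr : r ∈ ax B A) (hs : s ∈ ax B A)
    (e : ⁅a, r⁆ = ⁅a, s⁆) : r = s := by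
  have h1 : ⁅a, r * s⁆ = 1 := by
    rw [h.comm_mul_right ha hr hs, e]; exact h.tw.sq A h.left _ (h.comm_mem ha hs).1
  by_contra hne
  refine hn ((h.mem_ax_iff (mul_mem hr hs) fun e' => hne ?_).mpr
    ⟨ha, commutatorElement_eq_one_iff_commute.mp h1⟩)
  rw [eq_inv_of_mul_eq_one_left e', h.tw.inv_eq h.right hs.1]

theorem bas_card_ax_le (h : Adj S A B) : Nat.card (ax B A) ≤ Nat.card (ax A B) := by
  obtain ⟨a, ha, hn⟩ := h.exists_out
  exact bas_card_le (fun r => ⁅a, r⁆) (fun r hr => h.comm_mem ha hr)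
    fun r hr s hs e => h.inj ha hn hr hs e

theorem card_ax (h : Adj S A B) : Nat.card (ax A B) = Nat.card (ax B A) :=
  le_antisymm h.symm.bas_card_ax_le h.bas_card_ax_le

theorem surj (h : Adj S A B) (ha : a ∈ A) (hn : a ∉ ax A B) (hx : x ∈ ax A B) :
    ∃ r ∈ ax B A, ⁅a, r⁆ = x :=
  bas_surj (fun r => ⁅a, r⁆) (fun _ hr => h.comm_mem ha hr)
    (fun _ hr _ hs e => h.inj ha hn hr hs e) h.card_ax.le hx

theorem qq_mul (h : Adj S A B) : qq A B * Nat.card (ax A B) = Nat.card A := bas_rel_mul ax_le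

theorem qq_symm (h : Adj S A B) : qq B A = qq A B := by
  have h1 := h.qq_mul
  have h2 := h.symm.qq_mul
  rw [← h.card_ax, ← h.tw.card_eq h.left h.right, ← h1] at h2
  exact Nat.eq_of_mul_eq_mul_right Nat.card_pos h2

/-- The homomorphism `a ↦ [a, r]`. -/
def basHom (h : Adj S A B) (hr : r ∈ ax B A) : A →* G :=
  MonoidHom.mk' (fun a => ⁅(a : G), r⁆) fun a a' => h.comm_mul_left a.2 a'.2 hr

theorem bas_range (h : Adj S A B) (hr : r ∈ ax B A) : ⁅A, zpowers r⁆ = (h.basHom hr).range := by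
  apply le_antisymm
  · refine commutator_le.mpr fun a ha y hy => ?_
    obtain ⟨i, rfl⟩ := mem_zpowers_iff.mp hy
    have e2 : r ^ (2 : ℤ) = 1 := by rw [zpow_two]; exact h.tw.sq B h.right r hr.1
    obtain ⟨j, rfl | rfl⟩ := Int.even_or_odd' i
    · rw [zpow_mul, e2, one_zpow, commutatorElement_one_right]; exact one_mem _
    · rw [zpow_add, zpow_mul, e2, one_zpow, one_mul, zpow_one]; exact ⟨⟨a, ha⟩, rfl⟩
  · rintro _ ⟨a, rfl⟩
    exact commutator_mem_commutator a.2 (mem_zpowers r)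

theorem mem_comm_iff (h : Adj S A B) (hr : r ∈ ax B A) :
    x ∈ ⁅A, zpowers r⁆ ↔ ∃ a ∈ A, ⁅a, r⁆ = x := by
  rw [h.bas_range hr]
  exact ⟨fun ⟨a, e⟩ => ⟨a, a.2, e⟩, fun ⟨a, ha, e⟩ => ⟨⟨a, ha⟩, e⟩⟩

theorem card_comm (h : Adj S A B) (hr : r ∈ ax B A) (h1 : r ≠ 1) :
    Nat.card (⁅A, zpowers r⁆ : Subgroup G) = qq A B := by
  rw [h.bas_range hr, ← index_ker, qq, relIndex]
  congr 1
  ext a
  rw [MonoidHom.mem_ker, mem_subgroupOf, h.mem_ax_iff hr h1]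
  exact ⟨fun e => ⟨a.2, commutatorElement_eq_one_iff_commute.mp e⟩,
    fun e => commutatorElement_eq_one_iff_commute.mpr e.2⟩

theorem bas_comm_le (h : Adj S A B) (hr : r ∈ ax B A) : ⁅A, zpowers r⁆ ≤ ax A B := by
  intro x hx
  obtain ⟨a, ha, rfl⟩ := (h.mem_comm_iff hr).mp hx
  exact h.comm_mem ha hr

theorem qq_le (h : Adj S A B) : qq A B ≤ Nat.card (ax A B) := by
  obtain ⟨r, hr, h1⟩ := h.symm.exists_ne
  rw [← h.card_comm hr h1]
  exact card_le_of_le (h.bas_comm_le hr)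

theorem qq_pow (h : Adj S A B) : ∃ m, 1 ≤ m ∧ qq A B = 2 ^ m := by
  obtain ⟨m, hm⟩ := PG.relIndex_eq_pow_of_isPGroup (h.tw.pg h.left) (ax A B)
  refine ⟨m, Nat.one_le_iff_ne_zero.mpr ?_, hm⟩
  rintro rfl
  exact h.ax_ne (le_antisymm ax_le (relIndex_eq_one.mp hm))

theorem qq_cases (h : Adj S A B) : qq A B = 2 ∨ 4 ≤ qq A B := by
  obtain ⟨m, hm, e⟩ := h.qq_pow
  rcases hm.eq_or_lt with rfl | hm
  · exact Or.inl e
  · exact Or.inr (e ▸ Nat.pow_le_pow_right (n := 2) (by norm_num) hm)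

/-- If `|H| = q` then `[A, r] = H`. -/
theorem surj' (h : Adj S A B) (hq : Nat.card (ax A B) = qq A B) (hr : r ∈ ax B A) (h1 : r ≠ 1)
    (hx : x ∈ ax A B) : ∃ a ∈ A, ⁅a, r⁆ = x := by
  have := eq_of_le_of_card_ge (h.bas_comm_le hr) (by rw [h.card_comm hr h1, hq])
  exact (h.mem_comm_iff hr).mp (this ▸ hx)

theorem bas_ax_cent (h : Adj S A B) : ax B A ≤ 𝐂[ax A B] :=
  fun _ hr => mem_cent.mpr fun _ ha => (h.commute ha hr).eq

theorem bas_ax_inf (h : Adj S A B) : ax A B ⊓ ax B A = ⊥ :=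
  (eq_bot_iff_forall _).mpr fun _ hx => h.tw.eq_one h.left h.right h.ne hx.1.1 hx.2.1

theorem mem_nn (h : Adj S A B) : n ∈ nn A B ↔ ∃ x ∈ ax A B, ∃ r ∈ ax B A, n = x * r := by
  rw [nn, mem_sup_norm (norm_of_cent h.bas_ax_cent)]
  simp only [eq_comm]

theorem nn_sq (h : Adj S A B) (hn : n ∈ nn A B) : n * n = 1 := by
  obtain ⟨x, hx, r, hr, rfl⟩ := h.mem_nn.mp hn
  calc x * r * (x * r) = x * (r * x) * r := by group
    _ = (x * x) * (r * r) := by rw [← (h.commute hx hr).eq]; group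
    _ = 1 := by rw [h.tw.sq A h.left x hx.1, h.tw.sq B h.right r hr.1, one_mul]

theorem nn_le_cent (h : Adj S A B) : nn A B ≤ 𝐂[nn A B] := bas_le_cent fun _ => h.nn_sq

theorem nn_pg (h : Adj S A B) : IsPGroup 2 (nn A B) := bas_pg fun _ => h.nn_sq

theorem nn_le_norm (h : Adj S A B) : nn A B ≤ 𝐍[A] := sup_le (norm_of_le ax_le) ax_le_norm

theorem le_norm_nn (h : Adj S A B) : A ≤ 𝐍[nn A B] := by
  refine norm_of_forall_cj_le fun a ha => cj_le_iff.mpr fun n hn => ?_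
  obtain ⟨x, hx, r, hr, rfl⟩ := h.mem_nn.mp hn
  have e : a * (x * r) * a⁻¹ = x * ⁅a, r⁆ * r := by
    rw [← mul_assoc a, (h.tw.comm h.left ha hx.1).eq, commutatorElement_def]; group
  rw [e]
  exact mul_mem (ax_le_nn (mul_mem hx (h.comm_mem ha hr))) (ax_le_nn' hr)

theorem inf_nn (h : Adj S A B) : A ⊓ nn A B = ax A B := by
  refine le_antisymm ?_ (le_inf ax_le ax_le_nn)
  rintro n ⟨hA, hn⟩
  obtain ⟨x, hx, r, hr, rfl⟩ := h.mem_nn.mp hn
  rw [h.tw.eq_one h.left h.right h.ne ((mul_mem_cancel_left (ax_le hx)).mp (show x * r ∈ A from hA)) hr.1, mul_one]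
  exact hx

theorem card_nn (h : Adj S A B) : Nat.card (nn A B) = Nat.card (ax A B) ^ 2 := by
  rw [nn, PG.card_sup_of_inf_eq_bot (norm_of_cent h.symm.bas_ax_cent) h.bas_ax_inf, ← h.card_ax, sq]

theorem left_pt (h : Adj S A B) : A ∈ Pt S (nn A B) := ⟨h.left, h.le_norm_nn⟩

theorem right_pt (h : Adj S A B) : B ∈ Pt S (nn A B) := nn_comm (A := B) ▸ h.symm.left_pt

/-- `C_N(A) = H`. -/
theorem mem_ax_of_cent (h : Adj S A B) (hn : n ∈ nn A B) (ha : a ∈ A) (hna : a ∉ ax A B)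
    (hc : Commute a n) : n ∈ ax A B := by
  obtain ⟨x, hx, r, hr, rfl⟩ := h.mem_nn.mp hn
  by_cases h1 : r = 1
  · rw [h1, mul_one]; exact hx
  refine absurd ((h.mem_ax_iff hr h1).mpr ⟨ha, ?_⟩) hna
  have := (h.tw.comm h.left ha hx.1).inv_right.mul_right hc
  rwa [inv_mul_cancel_left] at this

theorem mem_norm_nn (hA : g ∈ 𝐍[A]) (hB : g ∈ 𝐍[B]) : g ∈ 𝐍[nn A B] :=
  cj_eq_iff.mp (by rw [nn_cj, cj_of_norm hA, cj_of_norm hB])

theorem bas_key (h : Adj S A B) (hC : C ∈ Pt S (nn A B)) (hne : C ≠ A) :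
    Adj S A C ∧ ax A C = ax A B ∧ ax C A = C ⊓ nn A B ∧ nn A C = nn A B := by
  have hN : nn A B ≤ 𝐍[C] := le_sup_right.trans
    (h.tw.le_norm_of_pg hC.1 (pg_sup (h.tw.pg hC.1) h.nn_pg hC.2) le_sup_left)
  have hH : ax A B ≤ ax A C := le_inf ax_le (ax_le_nn.trans hN)
  have hAC : Adj S A C :=
    ⟨h.tw, h.left, hC.1, hne.symm, fun e => h.nb (le_bot_iff.mp (e ▸ hH))⟩
  obtain ⟨c, hc, hcn⟩ := hAC.symm.exists_out
  have h1 : Nat.card (ax A B) ≤ Nat.card (C ⊓ nn A B : Subgroup G) :=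
    bas_card_le (fun x => ⁅c, x⁆)
      (fun x hx => ⟨(hAC.symm.comm_mem hc (hH hx)).1, bas_comm_mem_right (hC.2 hc) (ax_le_nn hx)⟩)
      fun x hx y hy e => hAC.symm.inj hc hcn (hH hx) (hH hy) e
  have h2 : C ⊓ nn A B ≤ ax C A := inf_le_inf le_rfl h.nn_le_norm
  have h3 : ax A B ⊔ C ⊓ nn A B = nn A B := by
    refine eq_of_le_of_card_ge (sup_le ax_le_nn inf_le_right) ?_
    rw [PG.card_sup_of_inf_eq_bot (norm_of_cent (ax_le_nn.trans
      (h.nn_le_cent.trans (cent_anti inf_le_right)))) ((eq_bot_iff_forall _).mpr fun x hx =>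
        h.tw.eq_one h.left hC.1 hne.symm hx.1.1 hx.2.1), h.card_nn, sq]
    exact Nat.mul_le_mul_left _ h1
  have h4 : ax A C = ax A B := by
    refine le_antisymm (fun y hy => ?_) hH
    obtain ⟨r, hr, hr1⟩ := h.symm.exists_ne
    have hy' : y ∈ 𝐂[nn A B] := by
      rw [← h3, cent_sup]
      exact ⟨cent_anti ax_le (h.tw.le_cent h.left hy.1), cent_anti h2 (hAC.symm.bas_ax_cent hy)⟩
    exact (h.mem_ax_iff hr hr1).mpr ⟨hy.1, (mem_cent.mp hy' r (ax_le_nn' hr)).symm⟩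
  have h5 : ax C A = C ⊓ nn A B :=
    (eq_of_le_of_card_ge h2 (by rw [← hAC.card_ax, h4]; exact h1)).symm
  exact ⟨hAC, h4, h5, by rw [nn, h4, h5, h3]⟩

theorem bas_key' (h : Adj S A B) (hC : C ∈ Pt S (nn A B)) (hC' : C' ∈ Pt S (nn A B))
    (hne : C ≠ C') : Adj S C C' ∧ ax C C' = C ⊓ nn A B ∧ nn C C' = nn A B := by
  by_cases e : C = A
  · subst e
    obtain ⟨h1, h2, -, h4⟩ := h.bas_key hC' hne.symm
    exact ⟨h1, h2.trans h.inf_nn.symm, h4⟩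
  obtain ⟨h1, -, h3, h4⟩ := h.bas_key hC e
  have h5 : nn C A = nn A B := nn_comm.trans h4
  obtain ⟨k1, k2, -, k4⟩ := h1.symm.bas_key (h5 ▸ hC') hne.symm
  exact ⟨k1, k2.trans h3, k4.trans h5⟩

/-- The full line. -/
theorem mod (h : Adj S A B) : Mod S (nn A B) where
  tw := h.tw
  sq := fun _ => h.nn_sq
  two := ⟨A, h.left_pt, B, h.right_pt, h.ne⟩
  ax_eq := fun _ hC _ hC' hne => (h.bas_key' hC hC' hne).2.1
  nb := fun C hC => by
    by_cases e : C = A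
    · rw [e, h.inf_nn]; exact h.nb
    · obtain ⟨h1, h2, -⟩ := h.bas_key' hC h.left_pt e
      exact h2 ▸ h1.nb
  gen := fun X hX => sup_le (h.inf_nn ▸ hX A h.left_pt)
    (h.symm.inf_nn ▸ nn_comm (A := A) ▸ hX B h.right_pt)

theorem nn_eq (h : Adj S A B) (hC : C ∈ Pt S (nn A B)) (hC' : C' ∈ Pt S (nn A B))
    (hne : C ≠ C') : nn C C' = nn A B := (h.bas_key' hC hC' hne).2.2

/-- A submodule of `N` is the product of its intersections with the two axes. -/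
theorem submod (h : Adj S A B) (hU : U ≤ nn A B) (ha : a ∈ A) (hna : a ∉ ax A B) (hb : b ∈ B)
    (hnb : b ∉ ax B A) (h1 : a ∈ 𝐍[U]) (h2 : b ∈ 𝐍[U]) (hn : n ∈ U) :
    ∃ x ∈ ax A B, ∃ r ∈ ax B A, x ∈ U ∧ r ∈ U ∧ n = x * r := by
  obtain ⟨x, hx, r, hr, rfl⟩ := h.mem_nn.mp (hU hn)
  have k1 : Nat.card (ax A B ⊓ U : Subgroup G) ≤ Nat.card (ax B A ⊓ U : Subgroup G) :=
    bas_card_le (fun x => ⁅b, x⁆)
      (fun x hx => ⟨h.symm.comm_mem hb hx.1, bas_comm_mem_right h2 hx.2⟩)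
      fun x hx y hy e => h.symm.inj hb hnb hx.1 hy.1 e
  have e : ⁅a, x * r⁆ = ⁅a, r⁆ := by
    have e1 := (h.tw.comm h.left ha hx.1).eq
    have e2 := (h.tw.comm h.left hx.1 (h.comm_mem ha hr).1).eq
    calc ⁅a, x * r⁆ = (a * x) * r * a⁻¹ * r⁻¹ * x⁻¹ := by simp only [commutatorElement_def]; group
      _ = (x * ⁅a, r⁆) * x⁻¹ := by rw [e1]; simp only [commutatorElement_def]; group
      _ = _ := by rw [e2, mul_inv_cancel_right]
  obtain ⟨r', hr', e'⟩ := bas_surj (U := ax B A ⊓ U) (X := ax A B ⊓ U) (fun r => ⁅a, r⁆)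
    (fun r hr => ⟨h.comm_mem ha hr.1, bas_comm_mem_right h1 hr.2⟩)
    (fun r hr s hs e => h.inj ha hna hr.1 hs.1 e) k1
    (⟨h.comm_mem ha hr, e ▸ bas_comm_mem_right h1 hn⟩ : ⁅a, r⁆ ∈ ax A B ⊓ U)
  have hrU : r ∈ U := h.inj ha hna hr'.1 hr e' ▸ hr'.2
  exact ⟨x, hx, r, hr, (mul_mem_cancel_right hrU).mp hn, hrU, rfl⟩

end Adj

namespace Mx

theorem of_card (h : Mx S A B) (h' : Adj S C C')
    (e : Nat.card (ax A B) ≤ Nat.card (ax C C')) : Mx S C C' :=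
  ⟨h', fun D D' hD => (h.max D D' hD).trans e⟩

theorem symm (h : Mx S A B) : Mx S B A := h.of_card h.toAdj.symm h.toAdj.card_ax.le

theorem conj (h : Mx S A B) (g : G) : Mx S cj(g, A) cj(g, B) :=
  h.of_card (h.toAdj.conj g) (by rw [← ax_cj, card_cj])

theorem card_eq (h : Mx S A B) (h' : Mx S C C') : Nat.card (ax A B) = Nat.card (ax C C') :=
  le_antisymm (h'.max _ _ h.toAdj) (h.max _ _ h'.toAdj)

theorem qq_eq (h : Mx S A B) (h' : Mx S C C') : qq A B = qq C C' := by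
  have h1 := h.toAdj.qq_mul
  rw [h.card_eq h', h.tw.card_eq h.left h'.left, ← h'.toAdj.qq_mul] at h1
  exact Nat.eq_of_mul_eq_mul_right Nat.card_pos h1

theorem eq_of_le (h : Mx S A B) (h' : Adj S A C) (e : ax A B ≤ ax A C) : ax A C = ax A B :=
  (eq_of_le_of_card_ge e (h.max _ _ h')).symm

theorem of_pt (h : Mx S A B) (hC : C ∈ Pt S (nn A B)) (hC' : C' ∈ Pt S (nn A B)) (hne : C ≠ C') :
    Mx S C C' := by
  obtain ⟨h1, -, h3⟩ := h.toAdj.bas_key' hC hC' hne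
  refine h.of_card h1 ?_
  have := h1.card_nn
  rw [h3, h.toAdj.card_nn] at this
  exact (Nat.pow_left_injective two_ne_zero this).le

/-- `R` normalizes no other largest axis. -/
theorem eq_of_norm (h : Mx S A B) (h' : Mx S A B') (hn : ax B A ≤ 𝐍[ax A B']) :
    ax A B' = ax A B := by
  by_cases hle : ax A B' ≤ ax A B
  · exact (h'.eq_of_le h.toAdj hle).symm
  obtain ⟨y, hy, hy'⟩ := SetLike.not_le_iff_exists.mp hle
  refine h.eq_of_le h'.toAdj fun x hx => ?_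
  obtain ⟨r, hr, rfl⟩ := h.toAdj.surj hy.1 hy' hx
  exact bas_comm_mem_left (hn hr) hy

end Mx

theorem TW.exists_mx (h : Adj S A B) : ∃ B', Mx S A B' := by
  have hne : {p : Subgroup G × Subgroup G | Adj S p.1 p.2}.Nonempty := ⟨(A, B), h⟩
  obtain ⟨⟨C, D⟩, hCD, hm⟩ := Set.exists_max_image _ (fun p : Subgroup G × Subgroup G =>
    Nat.card (ax p.1 p.2)) (Set.toFinite _) hne
  have h1 : Mx S C D := ⟨hCD, fun C' D' h' => hm (C', D') h'⟩
  obtain ⟨g, rfl⟩ := h.tw.tr C h1.left A h.left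
  exact ⟨_, h1.conj g⟩

theorem IsAx.conj (h : IsAx S A H) (hg : g ∈ 𝐍[A]) : IsAx S A cj(g, H) := by
  obtain ⟨B, hB, rfl⟩ := h
  have h1 := hB.conj g
  rw [cj_of_norm hg] at h1
  exact ⟨_, h1, by rw [ax_cj, cj_of_norm hg]⟩

/-- A 2-group acting on a set of subgroups: the parity is that of the fixed points. -/
theorem bas_modEq (hP : IsPGroup 2 P) (T : Set (Subgroup G))
    (hT : ∀ g ∈ P, ∀ H ∈ T, cj(g, H) ∈ T) :
    T.ncard ≡ {H | H ∈ T ∧ P ≤ 𝐍[H]}.ncard [MOD 2] := by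
  let _ : MulAction P T :=
    { smul := fun g H => ⟨cj((g : G), H.1), hT g g.2 H H.2⟩
      one_smul := fun H => Subtype.ext (cj_one H.1)
      mul_smul := fun g g' H => Subtype.ext (cj_cj H.1 _ _).symm }
  have h1 := hP.card_modEq_card_fixedPoints T
  have e : Nat.card (MulAction.fixedPoints P T) = {H | H ∈ T ∧ P ≤ 𝐍[H]}.ncard := by
    rw [← Nat.card_coe_set_eq]
    refine Nat.card_congr ⟨fun H => ⟨H.1.1, H.1.2, fun g hg => cj_eq_iff.mp
      (congrArg Subtype.val (H.2 ⟨g, hg⟩))⟩, fun H => ⟨⟨H.1, H.2.1⟩, fun g =>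
        Subtype.ext (cj_of_norm (H.2.2 g.2))⟩, fun _ => rfl, fun _ => rfl⟩
  rwa [e, Nat.card_coe_set_eq] at h1

theorem odd_axes (h : Mx S A B) : Odd {H | IsAx S A H}.ncard := by
  have h1 := bas_modEq ((h.tw.pg h.right).to_le (ax_le (A := B) (B := A))) {H | IsAx S A H}
    fun g hg H hH => IsAx.conj hH hg.2
  have e : {H | H ∈ {H | IsAx S A H} ∧ ax B A ≤ 𝐍[H]} = {ax A B} := by
    ext H
    refine ⟨fun ⟨⟨B', hB', e⟩, hn⟩ => ?_, fun e => ?_⟩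
    · subst e; exact h.eq_of_norm hB' hn
    · rw [Set.mem_singleton_iff.mp e]
      exact ⟨⟨B, h, rfl⟩, norm_of_cent h.toAdj.bas_ax_cent⟩
  rw [e, Set.ncard_singleton] at h1
  exact Nat.odd_iff.mpr h1

theorem exists_fixed_ax (h : Adj S A B) (hP : IsPGroup 2 P) (hn : P ≤ 𝐍[A]) :
    ∃ B', Mx S A B' ∧ P ≤ 𝐍[ax A B'] := by
  obtain ⟨B0, h0⟩ := TW.exists_mx h
  have h1 := bas_modEq hP {H | IsAx S A H} fun g hg H hH => IsAx.conj hH (hn hg)
  have h2 := Nat.odd_iff.mp (odd_axes h0)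
  rw [Nat.ModEq, h2] at h1
  obtain ⟨H, ⟨B', hB', rfl⟩, hH⟩ : {H | H ∈ {H | IsAx S A H} ∧ P ≤ 𝐍[H]}.Nonempty :=
    Set.nonempty_of_ncard_ne_zero fun e => by rw [e] at h1; exact absurd h1 (by norm_num)
  exact ⟨B', hB', hH⟩

end Cfsg.Agent.WTI
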