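import Mathlib
import Cfsg.Agent.WTI.Basic

/-! WTI: modules of lines and cliques, odd products, swappers (PLAN §2). -/

set_option autoImplicit false
set_option linter.unusedSectionVars false
set_option linter.unusedVariables false

namespace Cfsg.Agent.WTI

open Cfsg Cfsg.Agent.GT Cfsg.Agent.Loc.Mss Subgroup
open scoped commutatorElement

variable {G : Type*} [Group G] [Finite G] {S : Set (Subgroup G)}
  {A B B' C C' E F H P U X Y : Subgroup G} {a a' b c d e g h k n r s t w x y : G}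

/-- The elements normalizing `U` and commuting with `w` modulo `U`. -/
def maZ (w : G) (U : Subgroup G) : Subgroup G where
  carrier := {g | g ∈ 𝐍[U] ∧ ⁅w, g⁆ ∈ U}
  one_mem' := ⟨one_mem _, by rw [commutatorElement_one_right]; exact one_mem _⟩
  mul_mem' := by
    rintro g k ⟨h1, h2⟩ ⟨h3, h4⟩
    refine ⟨mul_mem h1 h3, ?_⟩
    have e : ⁅w, g * k⁆ = ⁅w, g⁆ * (g * ⁅w, k⁆ * g⁻¹) := by
      simp only [commutatorElement_def]; group
    rw [e]; exact mul_mem h2 (conj_mem_of_norm h1 h4)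
  inv_mem' := by
    rintro g ⟨h1, h2⟩
    refine ⟨inv_mem h1, ?_⟩
    have e : ⁅w, g⁻¹⁆ = g⁻¹ * ⁅w, g⁆⁻¹ * g := by simp only [commutatorElement_def]; group
    rw [e]; exact conj_mem_of_norm' h1 (inv_mem h2)

theorem ma_mem_of_odd (h4 : g ^ 4 ∈ U) {i : ℕ} (hi : Odd i) (h : g ^ i ∈ U) : g ∈ U := by
  obtain ⟨j, rfl⟩ := hi
  have h1 := pow_mem h (2 * j + 1)
  rw [← pow_mul, show (2 * j + 1) * (2 * j + 1) = 4 * (j * j + j) + 1 by ring, pow_succ,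
    pow_mul] at h1
  exact (mul_mem_cancel_left (pow_mem h4 _)).mp h1

theorem ma_inv_left (ha : a * a = 1) (hb : b * b = 1) (m : ℕ) :
    a * (a * b) ^ m * a⁻¹ = ((a * b) ^ m)⁻¹ := by
  rw [← conj_pow, ← inv_pow, mul_inv_rev, bas_inv_eq ha, bas_inv_eq hb, ← mul_assoc, ha, one_mul]

theorem ma_inv_right (ha : a * a = 1) (hb : b * b = 1) (m : ℕ) :
    b * (a * b) ^ m * b⁻¹ = ((a * b) ^ m)⁻¹ := by
  rw [← conj_pow, ← inv_pow, mul_inv_rev, bas_inv_eq ha, ← mul_assoc, mul_inv_cancel_right,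
    bas_inv_eq hb]

theorem ma_conj (h : a * w * a⁻¹ = w⁻¹) : w * a * w⁻¹ = w * w * a := by
  have h' : a * w⁻¹ * a⁻¹ = w := by rw [← conj_inv, h, inv_inv]
  calc w * a * w⁻¹ = w * (a * w⁻¹ * a⁻¹) * a := by group
    _ = _ := by rw [h']

theorem ma_not_mem (hg : g ∈ 𝐍[E]) (ha : a ∉ E) : g * a * g⁻¹ ∉ E :=
  fun h => ha ((mem_normalizer_iff.mp hg a).mpr h)

/-- An element of odd order fixes a point of an invariant coset of a 2-group. -/
theorem exists_commute_coset {N : Subgroup G} (hN : IsPGroup 2 N) (ht : t ∈ 𝐍[N])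
    (ho : Odd (orderOf t)) (hy : t * y * t⁻¹ * y⁻¹ ∈ N) : ∃ n ∈ N, Commute t (n * y) := by
  have h1 : zpowers t ≤ maZ y N := zpowers_le.mpr ⟨ht, by
    rw [← commutatorElement_inv]; exact inv_mem hy⟩
  obtain ⟨x, hx, c, hc, rfl⟩ := CopAct.exists_eq_mul_centralizer (A := zpowers t)
    (zpowers_le.mpr ht) (CopAct.coprime_of_isPGroup_right
      (by rw [Nat.card_zpowers]; exact ho.coprime_two_right) hN)
    (Or.inl (CopAct.isSolvable_zpowers t)) (fun a ha => (h1 ha).2)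
  refine ⟨x⁻¹, inv_mem hx, ?_⟩
  rw [inv_mul_cancel_left]
  exact mem_cent.mp hc t (mem_zpowers t)

theorem ma_pt_cj (h : TW S) (hA : A ∈ Pt S E) (g : G) : cj(g, A) ∈ Pt S cj(g, E) :=
  ⟨h.conj A hA.1 g, by rw [← cj_norm]; exact cj_mono g hA.2⟩

namespace Mod

theorem le_cent (m : Mod S E) : E ≤ 𝐂[E] := bas_le_cent m.sq

theorem pg (m : Mod S E) : IsPGroup 2 E := bas_pg m.sq

theorem conj (m : Mod S E) (g : G) : Mod S cj(g, E) := by
  have key : ∀ C ∈ Pt S cj(g, E), ∃ D ∈ Pt S E, cj(g, D) = C := fun C hC =>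
    ⟨cj(g⁻¹, C), cj_inv_cj E g ▸ ma_pt_cj m.tw hC g⁻¹, cj_cj_inv C g⟩
  refine ⟨m.tw, ?_, ?_, fun C hC C' hC' hne => ?_, fun C hC => ?_, fun X hX => ?_⟩
  · rintro _ ⟨x, hx, rfl⟩
    rw [← map_mul, m.sq x hx, map_one]
  · obtain ⟨A, hA, B, hB, hne⟩ := m.two
    exact ⟨_, ma_pt_cj m.tw hA g, _, ma_pt_cj m.tw hB g, fun e => hne (cj_eq_cj.mp e)⟩
  · obtain ⟨D, hD, rfl⟩ := key C hC
    obtain ⟨D', hD', rfl⟩ := key C' hC'
    rw [← ax_cj, ← cj_inf, m.ax_eq D hD D' hD' fun e => hne (by rw [e])]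
  · obtain ⟨D, hD, rfl⟩ := key C hC
    rw [← cj_inf]
    exact fun e => m.nb D hD (cj_eq_bot.mp e)
  · refine cj_le_iff_le_inv.mpr (m.gen _ fun C hC => cj_le_iff_le_inv.mp ?_)
    rw [cj_inf]
    exact hX _ (ma_pt_cj m.tw hC g)

theorem adj (m : Mod S E) (hA : A ∈ Pt S E) (hB : B ∈ Pt S E) (hne : A ≠ B) : Adj S A B :=
  ⟨m.tw, hA.1, hB.1, hne, m.ax_eq A hA B hB hne ▸ m.nb A hA⟩

theorem exists_ne (m : Mod S E) (hA : A ∈ Pt S E) : ∃ B ∈ Pt S E, B ≠ A := by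
  obtain ⟨C, hC, D, hD, hne⟩ := m.two
  by_cases e : C = A
  · exact ⟨D, hD, fun e' => hne (e.trans e'.symm)⟩
  · exact ⟨C, hC, e⟩

theorem exists_out (m : Mod S E) (hA : A ∈ Pt S E) : ∃ a ∈ A, a ∉ E := by
  obtain ⟨B, hB, hne⟩ := m.exists_ne hA
  obtain ⟨a, ha, hn⟩ := (m.adj hA hB hne.symm).exists_out
  exact ⟨a, ha, fun h => hn (m.ax_eq A hA B hB hne.symm ▸ ⟨ha, h⟩)⟩

theorem le_norm (m : Mod S E) (hA : A ∈ Pt S E) : E ≤ 𝐍[A] :=
  le_sup_right.trans (m.tw.le_norm_of_pg hA.1 (pg_sup (m.tw.pg hA.1) m.pg hA.2) le_sup_left)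

theorem cent_le_norm (m : Mod S E) (hA : A ∈ Pt S E) : 𝐂[E] ≤ 𝐍[A] :=
  (norm_of_cent (cent_anti inf_le_right)).trans (m.tw.norm_le hA.1 inf_le_left (m.nb A hA))

/-- An element of a point outside `E` fixes no other point. -/
theorem fix_unique (m : Mod S E) (hA : A ∈ Pt S E) (hB : B ∈ Pt S E) (ha : a ∈ A) (hn : a ∉ E)
    (hf : a ∈ 𝐍[B]) : B = A := by
  by_contra hne
  have : a ∈ A ⊓ E := m.ax_eq A hA B hB (Ne.symm hne) ▸ mem_ax.mpr ⟨ha, hf⟩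
  exact hn this.2

theorem mem_of_cent (m : Mod S E) (hA : A ∈ Pt S E) (ha : a ∈ A) (hc : a ∈ 𝐂[E]) : a ∈ E := by
  obtain ⟨B, hB, hne⟩ := m.exists_ne hA
  by_contra hn
  exact hne (m.fix_unique hA hB ha hn (m.cent_le_norm hB hc))

theorem comm_mem (m : Mod S E) (hA : A ∈ Pt S E) (ha : a ∈ A) (hx : x ∈ E) :
    ⁅a, x⁆ ∈ A ⊓ E := ⟨bas_comm_mem_left (m.le_norm hA hx) ha, bas_comm_mem_right (hA.2 ha) hx⟩

/-- `[C(E), A] ≤ A ⊓ E`. -/
theorem comm_cent_mem (m : Mod S E) (hA : A ∈ Pt S E) (ha : a ∈ A) (hk : k ∈ 𝐂[E]) :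
    ⁅a, k⁆ ∈ A ⊓ E :=
  have h1 : ⁅a, k⁆ ∈ A := bas_comm_mem_left (m.cent_le_norm hA hk) ha
  ⟨h1, m.mem_of_cent hA h1 (bas_comm_mem_right (norm_cent hA.2 ha) hk)⟩

theorem nn_le (m : Mod S E) (hA : A ∈ Pt S E) (hB : B ∈ Pt S E) (hne : A ≠ B) : nn A B ≤ E :=
  sup_le (m.ax_eq A hA B hB hne ▸ inf_le_right) (m.ax_eq B hB A hA hne.symm ▸ inf_le_right)

theorem qq_eq (m : Mod S E) (hA : A ∈ Pt S E) (hB : B ∈ Pt S E) (hne : A ≠ B) :
    qq A B = E.relIndex A := by rw [qq, m.ax_eq A hA B hB hne, inf_relIndex_left]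

theorem card_inf_eq (m : Mod S E) (hA : A ∈ Pt S E) (hB : B ∈ Pt S E) :
    Nat.card (A ⊓ E : Subgroup G) = Nat.card (B ⊓ E : Subgroup G) := by
  by_cases hne : A = B
  · rw [hne]
  rw [← m.ax_eq A hA B hB hne, ← m.ax_eq B hB A hA (Ne.symm hne)]
  exact (m.adj hA hB hne).card_ax

theorem relIndex_eq (m : Mod S E) (hA : A ∈ Pt S E) (hB : B ∈ Pt S E) :
    E.relIndex A = E.relIndex B := by
  by_cases hne : A = B
  · rw [hne]
  rw [← m.qq_eq hA hB hne, ← m.qq_eq hB hA (Ne.symm hne), (m.adj hA hB hne).qq_symm]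

theorem pt_cj (m : Mod S E) (hA : A ∈ Pt S E) (hg : g ∈ 𝐍[E]) : cj(g, A) ∈ Pt S E :=
  cj_of_norm hg ▸ ma_pt_cj m.tw hA g

/-- A conjugate of `a ∈ A ∖ E` which normalizes `B` determines the image of `A`. -/
theorem ma_cj_eq (m : Mod S E) (hA : A ∈ Pt S E) (hB : B ∈ Pt S E) (hg : g ∈ 𝐍[E]) (ha : a ∈ A)
    (hna : a ∉ E) (hf : g * a * g⁻¹ ∈ 𝐍[B]) : cj(g, A) = B :=
  (m.fix_unique (m.pt_cj hA hg) hB (conj_mem_cj ha) (ma_not_mem hg hna) hf).symm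

/-- The reflections of the dihedral group lie on points. -/
theorem ma_refl (m : Mod S E) (hA : A ∈ Pt S E) (hB : B ∈ Pt S E) (ha : a ∈ A)
    (hna : a ∉ E) (hb : b ∈ B) (hnb : b ∉ E) (i : ℕ) :
    ∃ F ∈ Pt S E, (a * b) ^ i * a ∈ F ∧ (a * b) ^ i * a ∉ E := by
  have ea := m.tw.sq A hA.1 a ha
  have eb := m.tw.sq B hB.1 b hb
  have hw : ∀ j : ℕ, (a * b) ^ j ∈ 𝐍[E] := fun j => pow_mem (mul_mem (hA.2 ha) (hB.2 hb)) j
  obtain ⟨j, rfl | rfl⟩ := Nat.even_or_odd' i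
  · rw [two_mul, pow_add, ← ma_conj (ma_inv_left ea eb j)]
    exact ⟨_, m.pt_cj hA (hw j), conj_mem_cj ha, ma_not_mem (hw j) hna⟩
  · have e : (a * b) ^ (2 * j + 1) * a = (a * b) ^ (j + 1) * (a * b) ^ (j + 1) * b := by
      rw [← pow_add, show j + 1 + (j + 1) = 2 * j + 1 + 1 by ring, pow_succ _ (2 * j + 1),
        mul_assoc, mul_assoc, eb, mul_one]
    rw [e, ← ma_conj (ma_inv_right ea eb (j + 1))]
    exact ⟨_, m.pt_cj hB (hw _), conj_mem_cj hb, ma_not_mem (hw _) hnb⟩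

theorem ma_half (m : Mod S E) (hA : A ∈ Pt S E) (hB : B ∈ Pt S E) (hne : A ≠ B) (ha : a ∈ A)
    (hna : a ∉ E) (hb : b ∈ B) (hnb : b ∉ E) {i : ℕ} (hi : (a * b) ^ (2 * i) ∈ 𝐂[E]) :
    (a * b) ^ i ∈ 𝐂[E] := by
  have ea := m.tw.sq A hA.1 a ha
  have eb := m.tw.sq B hB.1 b hb
  have hw : (a * b) ^ i ∈ 𝐍[E] := pow_mem (mul_mem (hA.2 ha) (hB.2 hb)) i
  rw [two_mul, pow_add] at hi
  have h1 : (a * b) ^ i ∈ 𝐍[A] := cj_eq_iff.mp (m.ma_cj_eq hA hA hw ha hna (by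
    rw [ma_conj (ma_inv_left ea eb i)]
    exact mul_mem (m.cent_le_norm hA hi) (le_normalizer ha)))
  have h2 : (a * b) ^ i ∈ 𝐍[B] := cj_eq_iff.mp (m.ma_cj_eq hB hB hw hb hnb (by
    rw [ma_conj (ma_inv_right ea eb i)]
    exact mul_mem (m.cent_le_norm hB hi) (le_normalizer hb)))
  obtain ⟨F, hF, h3, h4⟩ := m.ma_refl hA hB ha hna hb hnb i
  obtain rfl := m.fix_unique hF hA h3 h4 (mul_mem h1 (le_normalizer ha))
  by_contra hc
  exact hne (m.fix_unique hA hB ((mul_mem_cancel_right ha).mp h3) (fun h => hc (m.le_cent h)) h2).symm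

/-- The product of elements of two different points has odd order on `E`. -/
theorem odd (m : Mod S E) (hA : A ∈ Pt S E) (hB : B ∈ Pt S E) (hne : A ≠ B) (ha : a ∈ A)
    (hna : a ∉ E) (hb : b ∈ B) (hnb : b ∉ E) : ∃ i : ℕ, Odd i ∧ (a * b) ^ i ∈ 𝐂[E] := by
  have key : ∀ n : ℕ, 0 < n → (a * b) ^ n ∈ 𝐂[E] → ∃ i : ℕ, Odd i ∧ (a * b) ^ i ∈ 𝐂[E] := by
    intro n
    induction n using Nat.strong_induction_on with
    | _ n ih =>
      intro h0 hn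
      rcases Nat.even_or_odd' n with ⟨j, rfl | rfl⟩
      · exact ih j (by omega) (by omega) (m.ma_half hA hB hne ha hna hb hnb hn)
      · exact ⟨_, ⟨j, rfl⟩, hn⟩
  exact key _ (orderOf_pos _) (by rw [pow_orderOf_eq_one]; exact one_mem _)

theorem fpf (m : Mod S E) (hA : A ∈ Pt S E) (hB : B ∈ Pt S E) (hne : A ≠ B) (ha : a ∈ A)
    (hna : a ∉ E) (hb : b ∈ B) (hnb : b ∉ E) (hn : n ∈ nn A B) (hc : Commute (a * b) n) :
    n = 1 := by
  have h := m.adj hA hB hne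
  have ea := m.tw.sq A hA.1 a ha
  have eb := m.tw.sq B hB.1 b hb
  have hna' : a ∉ ax A B := fun h' => hna (m.nn_le hA hB hne (ax_le_nn h'))
  have hnb' : b ∉ ax B A := fun h' => hnb (m.nn_le hA hB hne (ax_le_nn' h'))
  have key : ∀ g ∈ 𝐍[nn A B], g * (a * b) * g⁻¹ = (a * b)⁻¹ →
      g ∈ 𝐍[nn A B ⊓ centralizer {a * b}] := by
    intro g hg e
    refine mem_norm_of_cj_le (cj_le_iff.mpr fun u hu => ⟨conj_mem_of_norm hg hu.1, ?_⟩)
    have h1 : Commute u (a * b) := mem_centralizer_singleton_iff.mp hu.2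
    have h2 : Commute (g * u * g⁻¹) (g * (a * b) * g⁻¹) := (Commute.conj_iff g).mpr h1
    rw [e] at h2
    exact mem_centralizer_singleton_iff.mpr (Commute.inv_right_iff.mp h2)
  obtain ⟨x, hx, r, hr, hxU, hrU, rfl⟩ := h.submod inf_le_left ha hna' hb hnb'
    (key a (h.left_pt.2 ha) (by simpa only [pow_one] using ma_inv_left ea eb 1))
    (key b (h.right_pt.2 hb) (by simpa only [pow_one] using ma_inv_right ea eb 1))
    ⟨hn, mem_centralizer_singleton_iff.mpr hc.symm⟩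
  have h1 : Commute b x := by
    have := (h.tw.comm h.left ha hx.1).inv_left.mul_left
      (Commute.symm (mem_centralizer_singleton_iff.mp hxU.2))
    rwa [inv_mul_cancel_left] at this
  have h2 : Commute a r := by
    have := (Commute.symm (mem_centralizer_singleton_iff.mp hrU.2)).mul_left
      (h.tw.comm h.right hb hr.1).inv_left
    rwa [mul_inv_cancel_right] at this
  rw [h.tw.eq_one h.left h.right hne hx.1
      (h.symm.mem_ax_of_cent (ax_le_nn' hx) hb hnb' h1).1,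
    h.tw.eq_one h.left h.right hne (h.mem_ax_of_cent (ax_le_nn' hr) ha hna' h2).1 hr.1, one_mul]

/-- An odd power of `a b` of odd order, acting like a generator of `⟨a b⟩`. -/
theorem exists_odd (m : Mod S E) (hA : A ∈ Pt S E) (hB : B ∈ Pt S E) (hne : A ≠ B) (ha : a ∈ A)
    (hna : a ∉ E) (hb : b ∈ B) (hnb : b ∉ E) : ∃ x ∈ zpowers (a * b), Odd (orderOf x) ∧
      (∃ i : ℕ, x ^ i * (a * b)⁻¹ ∈ 𝐂[E]) ∧ ∀ n ∈ nn A B, Commute x n → n = 1 := by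
  obtain ⟨k, hk⟩ := exists_pow_coprime (p := 2) (a * b)
  obtain ⟨o, ho, hw⟩ := m.odd hA hB hne ha hna hb hnb
  have hi : ∃ i : ℕ, ((a * b) ^ 2 ^ k) ^ i * (a * b)⁻¹ ∈ 𝐂[E] := by
    have h1 : (2 ^ k).Coprime o := ho.coprime_two_left.pow_left k
    have h2 := Nat.ModEq.pow_totient h1
    obtain ⟨l, hl⟩ : ∃ l, o.totient = l + 1 :=
      Nat.exists_eq_succ_of_ne_zero (Nat.totient_pos.mpr ho.pos).ne'
    obtain ⟨j, hj⟩ := (Nat.modEq_iff_dvd' (Nat.one_le_pow _ _ (by positivity))).mp h2.symm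
    refine ⟨(2 ^ k) ^ l, ?_⟩
    have h3 : 2 ^ k * (2 ^ k) ^ l = o * j + 1 := by
      rw [← pow_succ', ← hl, ← hj, Nat.sub_add_cancel (Nat.one_le_pow _ _ (by positivity))]
    rw [← pow_mul, h3, pow_succ, mul_inv_cancel_right, pow_mul]
    exact pow_mem hw j
  refine ⟨_, pow_mem (mem_zpowers _) (2 ^ k), Nat.coprime_two_right.mp hk, hi, fun n hn hc => ?_⟩
  obtain ⟨i, hi⟩ := hi
  have h1 : Commute (((a * b) ^ 2 ^ k) ^ i * (a * b)⁻¹) n :=
    (mem_cent.mp hi n (m.nn_le hA hB hne hn)).symm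
  have h2 := (hc.pow_left i).inv_left.mul_left h1
  rw [inv_mul_cancel_left] at h2
  exact m.fpf hA hB hne ha hna hb hnb hn (Commute.inv_left_iff.mp h2)

theorem exists_swp (m : Mod S E) (hA : A ∈ Pt S E) (hB : B ∈ Pt S E) (hne : A ≠ B) (ha : a ∈ A)
    (hna : a ∉ E) (hb : b ∈ B) (hnb : b ∉ E) : ∃ e ∈ closure ({a, b} : Set G),
      Swp S E A B e ∧ e * a * e⁻¹ * b ∈ 𝐂[E] := by
  obtain ⟨_, ⟨j, rfl⟩, hw⟩ := m.odd hA hB hne ha hna hb hnb
  obtain ⟨F, hF, h1, h2⟩ := m.ma_refl hA hB ha hna hb hnb j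
  have ka : a ∈ closure ({a, b} : Set G) := subset_closure (by simp)
  have kb : b ∈ closure ({a, b} : Set G) := subset_closure (by simp)
  have e : (a * b) ^ j * a * a * ((a * b) ^ j * a)⁻¹ * b = (a * b) ^ (2 * j + 1) := by
    have := ma_conj (ma_inv_left (m.tw.sq A hA.1 a ha) (m.tw.sq B hB.1 b hb) j)
    calc _ = ((a * b) ^ j * a * ((a * b) ^ j)⁻¹) * b := by group
      _ = _ := by rw [this, two_mul, pow_succ, pow_add, mul_assoc _ a b]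
  rw [← e] at hw
  refine ⟨_, mul_mem (pow_mem (mul_mem ka kb) j) ka, ⟨⟨F, hF, h1, h2⟩, ?_⟩, hw⟩
  exact m.ma_cj_eq hA hB (hF.2 h1) ha hna
    ((mul_mem_cancel_right (le_normalizer hb)).mp (m.cent_le_norm hB hw))

theorem swp_sq (m : Mod S E) (he : Swp S E A B e) : e * e = 1 := by
  obtain ⟨⟨F, hF, h1, -⟩, -⟩ := he
  exact m.tw.sq F hF.1 e h1

theorem swp_symm (m : Mod S E) (he : Swp S E A B e) : Swp S E B A e :=
  ⟨he.1, by rw [← he.2, cj_cj, m.swp_sq he, cj_one]⟩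

theorem swp_norm (he : Swp S E A B e) : e ∈ 𝐍[E] := by
  obtain ⟨⟨F, hF, h1, -⟩, -⟩ := he
  exact hF.2 h1

theorem ma_swp_aux (m : Mod S E) (hA : A ∈ Pt S E) (hne : A ≠ B) {e0 : G} (he : Swp S E A B e)
    (he0 : Swp S E A B e0) (ha : a ∈ 𝐍[E]) (hb : b ∈ 𝐍[E]) (hm : e0 ∈ closure ({a, b} : Set G))
    (hc : e * a * e⁻¹ * b ∈ 𝐂[E]) (hc0 : e0 * a * e0⁻¹ * b ∈ 𝐂[E]) : e * e0 ∈ E := by
  have e1 := m.swp_sq he
  have e2 := m.swp_sq he0
  have hN : 𝐍[E] ≤ 𝐍[𝐂[E]] := norm_cent le_rfl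
  have ka : a ∈ maZ (e * e0) 𝐂[E] := by
    refine ⟨hN ha, ?_⟩
    have := conj_mem_of_norm (hN (swp_norm he)) (mul_mem hc0 (inv_mem hc))
    convert this using 1
    rw [commutatorElement_def]
    symm
    calc _ = e * e0 * a * (e * e0)⁻¹ * ((e * e) * a⁻¹ * (e * e)⁻¹) := by group
      _ = _ := by rw [e1, inv_one, one_mul, mul_one]
  have kb : b ∈ maZ (e * e0) 𝐂[E] := by
    refine ⟨hN hb, ?_⟩
    have := conj_mem_of_norm (hN hb) (mul_mem (inv_mem hc)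
      (conj_mem_of_norm (hN (mul_mem (swp_norm he) (swp_norm he0))) hc0))
    convert this using 1
    rw [commutatorElement_def]
    symm
    calc _ = e * (a⁻¹ * ((e0 * e0) * a * (e0 * e0)⁻¹)) * e0 * b * (e * e0)⁻¹ * b⁻¹ := by group
      _ = _ := by rw [e2, inv_one, one_mul, mul_one, inv_mul_cancel, mul_one]
  have h1 : closure ({a, b} : Set G) ≤ maZ (e * e0) 𝐂[E] := by
    rw [closure_le]
    rintro _ (rfl | rfl)
    exacts [ka, kb]
  have h2 : (e * e0) ^ 2 ∈ 𝐂[E] := by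
    have := (h1 hm).2
    convert this using 1
    rw [commutatorElement_def, mul_inv_rev, mul_assoc (e * e0), ← mul_assoc e0, mul_inv_cancel,
      one_mul, bas_inv_eq e1, bas_inv_eq e2, pow_two, mul_assoc (e * e0)]
  obtain ⟨⟨F, hF, k1, k2⟩, k3⟩ := id he
  obtain ⟨⟨F0, hF0, k4, k5⟩, k6⟩ := id he0
  have h3 : F0 = F := by
    by_contra hn
    obtain ⟨i, hi, hw⟩ := m.odd hF hF0 (Ne.symm hn) k1 k2 k4 k5
    have := ma_mem_of_odd (by rw [show 4 = 2 * 2 from rfl, pow_mul]; exact pow_mem h2 2) hi hw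
    exact hn (m.fix_unique hF hF0 k1 k2
      ((mul_mem_cancel_right (le_normalizer k4)).mp (m.cent_le_norm hF0 this)))
  subst h3
  by_contra hn
  have h4 : A = F0 := m.fix_unique hF hA (mul_mem k1 k4) hn
    (cj_eq_iff.mp (by rw [← cj_cj, k6, (m.swp_symm he).2]))
  exact hne (k3 ▸ (cj_of_mem (h4 ▸ k1)).symm)

/-- Two swappers with the same effect on `a` agree modulo `E`. -/
theorem swp_unique (m : Mod S E) (hA : A ∈ Pt S E) (hne : A ≠ B) {e' : G} (he : Swp S E A B e)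
    (he' : Swp S E A B e') (ha : a ∈ A) (hna : a ∉ E)
    (hc : e * a * e⁻¹ * (e' * a * e'⁻¹) ∈ 𝐂[E]) : e * e' ∈ E := by
  have hB : B ∈ Pt S E := he'.2 ▸ m.pt_cj hA (swp_norm he')
  have hb : e' * a * e'⁻¹ ∈ B := he'.2 ▸ conj_mem_cj ha
  obtain ⟨e0, hm, he0, hc0⟩ := m.exists_swp hA hB hne ha hna hb (ma_not_mem (swp_norm he') hna)
  have h1 := m.ma_swp_aux hA hne he he0 (hA.2 ha) (hB.2 hb) hm hc hc0
  have h2 := m.ma_swp_aux hA hne he' he0 (hA.2 ha) (hB.2 hb) hm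
    (by rw [m.tw.sq B hB.1 _ hb]; exact one_mem _) hc0
  have h3 := mul_mem h1 (inv_mem h2)
  rwa [mul_inv_rev, mul_assoc, mul_inv_cancel_left, bas_inv_eq (m.swp_sq he')] at h3

/-- An element of odd order on `E` fixing `A` and inverted by `a` is trivial on `E`. -/
theorem triv (m : Mod S E) (hA : A ∈ Pt S E) (ha : a ∈ A) (hE : g ∈ 𝐍[E]) (hg : g ∈ 𝐍[A])
    (ho : ∃ i : ℕ, Odd i ∧ g ^ i ∈ 𝐂[E]) (hi : a * g * a⁻¹ * g ∈ 𝐂[E]) : g ∈ 𝐂[E] := by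
  obtain ⟨i, h1, h2⟩ := ho
  refine ma_mem_of_odd ?_ h1 h2
  have h3 := m.tw.sq A hA.1 _ (bas_comm_mem_left hg ha)
  have h4 := mul_mem hi (conj_mem_of_norm' (norm_cent le_rfl (mul_mem hE hE)) hi)
  convert h4 using 1
  calc g ^ 4 = (⁅a, g⁆ * ⁅a, g⁆) * (g * g * g * g) := by
        rw [h3, one_mul]; simp only [pow_succ, pow_zero, one_mul]
    _ = _ := by simp only [commutatorElement_def]; group

end Mod

namespace Adj

theorem ma_out (h : Adj S A B) (ha : a ∈ A) (hna : a ∉ ax A B) : a ∉ nn A B :=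
  fun h' => hna (h.inf_nn ▸ ⟨ha, h'⟩)

theorem ma_out' (h : Adj S A B) (hb : b ∈ B) (hnb : b ∉ ax B A) : b ∉ nn A B :=
  nn_comm (A := B) ▸ h.symm.ma_out hb hnb

theorem ma_swp (h : Adj S A B) (ha : a ∈ A) (hna : a ∉ ax A B) (hb : b ∈ B) (hnb : b ∉ ax B A) :
    ∃ e ∈ closure ({a, b} : Set G), e ∈ A ⊔ B ∧ Swp S (nn A B) A B e ∧
      e * a * e⁻¹ * b ∈ 𝐂[nn A B] := by
  obtain ⟨e, hm, he, hc⟩ := h.mod.exists_swp h.left_pt h.right_pt h.ne ha (h.ma_out ha hna) hb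
    (h.ma_out' hb hnb)
  refine ⟨e, hm, (closure_le _).mpr ?_ hm, he, hc⟩
  rintro _ (rfl | rfl)
  · exact mem_sup_left ha
  · exact mem_sup_right hb

/-- The two ends of an edge are conjugate in the group they generate. -/
theorem exists_cj (h : Adj S A B) : ∃ e ∈ A ⊔ B, cj(e, A) = B ∧ cj(e, B) = A := by
  obtain ⟨a, ha, hna⟩ := h.exists_out
  obtain ⟨b, hb, hnb⟩ := h.symm.exists_out
  obtain ⟨e, -, hm, he, -⟩ := h.ma_swp ha hna hb hnb
  exact ⟨e, hm, he.2, (h.mod.swp_symm he).2⟩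

theorem ma_sq (h : Adj S A B) (hk : k ∈ 𝐂[nn A B]) (hs : k * k ∈ nn A B) : k * k ∈ ax A B := by
  obtain ⟨a, ha, hna⟩ := h.exists_out
  have h1 := h.mod.comm_cent_mem h.left_pt ha hk
  refine h.mem_ax_of_cent hs ha hna (commutatorElement_eq_one_iff_commute.mp ?_)
  calc ⁅a, k * k⁆ = ⁅a, k⁆ * (k * ⁅a, k⁆) * k⁻¹ := by simp only [commutatorElement_def]; group
    _ = 1 := by rw [← mem_cent.mp hk _ h1.2, ← mul_assoc, h.nn_sq h1.2, one_mul, mul_inv_cancel]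

/-- Squares in `C(N)` avoid `N`. -/
theorem sq_cent (h : Adj S A B) (hk : k ∈ 𝐂[nn A B]) (hs : k * k ∈ nn A B) : k * k = 1 :=
  h.tw.eq_one h.left h.right h.ne (h.ma_sq hk hs).1
    (h.symm.ma_sq (nn_comm (A := A) ▸ hk) (nn_comm (A := A) ▸ hs)).1

/-- `C(N) ∩ C(A) = H × C(A, B)`. -/
theorem cent_split (h : Adj S A B) (hA : c ∈ 𝐂[A]) (hN : c ∈ 𝐂[nn A B]) :
    ∃ x ∈ ax A B, ∃ k ∈ 𝐂[A ⊔ B], c = x * k := by
  obtain ⟨a, ha, hna⟩ := h.exists_out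
  obtain ⟨b, hb, hnb⟩ := h.symm.exists_out
  have h1 : ⁅b, c⁆ ∈ ax B A := by
    rw [← h.symm.inf_nn, nn_comm]; exact h.mod.comm_cent_mem h.right_pt hb hN
  obtain ⟨x, hx, e⟩ := h.symm.surj hb hnb h1
  have hkA : x * c ∈ 𝐂[A] := mul_mem (h.tw.le_cent h.left hx.1) hA
  have hkb : Commute b (x * c) := by
    refine commutatorElement_eq_one_iff_commute.mp ?_
    calc ⁅b, x * c⁆ = ⁅b, x⁆ * (x * ⁅b, c⁆) * x⁻¹ := by simp only [commutatorElement_def]; group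
      _ = 1 := by
        rw [(h.commute hx h1).eq, e, ← mul_assoc, h.tw.sq B h.right _ h1.1, one_mul, mul_inv_cancel]
  obtain ⟨f, hm, -, hf, -⟩ := h.ma_swp ha hna hb hnb
  have hfk : f ∈ centralizer {x * c} := by
    refine (closure_le _).mpr ?_ hm
    rintro _ (rfl | rfl)
    · exact mem_centralizer_singleton_iff.mpr (mem_cent.mp hkA _ ha)
    · exact mem_centralizer_singleton_iff.mpr hkb
  refine ⟨x, hx, x * c, ?_, by rw [← mul_assoc, h.tw.sq A h.left x hx.1, one_mul]⟩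
  rw [cent_sup, mem_inf]
  refine ⟨hkA, ?_⟩
  rw [← hf.2, ← cj_cent, mem_cj, mul_assoc,
    ← mem_centralizer_singleton_iff.mp hfk, inv_mul_cancel_left]
  exact hkA

/-- `A ∖ H` is one orbit. -/
theorem conj_out (h : Adj S A B) (ha : a ∈ A) (hna : a ∉ ax A B) (ha' : a' ∈ A)
    (hna' : a' ∉ ax A B) : ∃ g ∈ A ⊔ B, g ∈ 𝐍[A] ∧ g * a * g⁻¹ = a' := by
  obtain ⟨b, hb, hnb⟩ := h.symm.exists_out
  obtain ⟨e, -, hm, he, hc⟩ := h.ma_swp ha hna hb hnb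
  obtain ⟨e', -, hm', he', hc'⟩ := h.ma_swp ha' hna' hb hnb
  have hg : e' * e ∈ 𝐍[A] := cj_eq_iff.mp (by rw [← cj_cj, he.2, (h.mod.swp_symm he').2])
  have h1 : e' * e * a * (e' * e)⁻¹ * a'⁻¹ ∈ A := mul_mem (conj_mem_of_norm hg ha) (inv_mem ha')
  have h2 : e' * e * a * (e' * e)⁻¹ * a'⁻¹ ∈ 𝐂[nn A B] := by
    have := conj_mem_of_norm (norm_cent le_rfl (Mod.swp_norm he')) (mul_mem hc (inv_mem hc'))
    convert this using 1
    calc _ = e' * e * a * (e' * e)⁻¹ * ((e' * e') * a'⁻¹ * (e' * e')⁻¹) := by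
          rw [h.mod.swp_sq he', inv_one, one_mul, mul_one]
      _ = _ := by group
  have h3 : e' * e * a * (e' * e)⁻¹ * a'⁻¹ ∈ ax A B :=
    h.inf_nn ▸ ⟨h1, h.mod.mem_of_cent h.left_pt h1 h2⟩
  obtain ⟨r, hr, e1⟩ := h.surj ha' hna' h3
  refine ⟨r * (e' * e), mul_mem (mem_sup_right hr.1) (mul_mem hm' hm), mul_mem hr.2 hg, ?_⟩
  have e2 := h.tw.sq B h.right r hr.1
  have e3 := h.tw.inv_eq h.left ha'
  have e4 := (h.tw.comm h.left ha' (conj_mem_of_norm hr.2 ha')).eq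
  calc _ = r * (e' * e * a * (e' * e)⁻¹ * a'⁻¹) * a' * r⁻¹ := by group
    _ = r * (a' * (r * a' * r⁻¹)) * a' * r⁻¹ := by rw [← e1, commutatorElement_def, e3]; group
    _ = (r * r) * a' * r⁻¹ * (a' * a') * r⁻¹ := by rw [e4]; group
    _ = a' := by
      rw [e2, h.tw.sq A h.left a' ha', one_mul, mul_one, mul_assoc, ← mul_inv_rev, e2, inv_one,
        mul_one]

/-- An invariant subgroup of `A` lies in every axis or is `A`. -/
theorem le_ax_of_norm (h : Adj S A B) (hU : U ≤ A) (hn : 𝐍[A] ⊓ (A ⊔ B) ≤ 𝐍[U]) :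
    U ≤ ax A B ∨ U = A := by
  by_cases hle : U ≤ ax A B
  · exact Or.inl hle
  obtain ⟨u, hu, hu'⟩ := SetLike.not_le_iff_exists.mp hle
  have key : ∀ a ∈ A, a ∉ ax A B → a ∈ U := fun a ha hna => by
    obtain ⟨g, h1, h2, rfl⟩ := h.conj_out (hU hu) hu' ha hna
    exact conj_mem_of_norm (hn ⟨h2, h1⟩) hu
  refine Or.inr (le_antisymm hU fun a ha => ?_)
  by_cases hna : a ∈ ax A B
  · exact (mul_mem_cancel_right hu).mp
      (key _ (mul_mem ha (hU hu)) fun h' => hu' ((mul_mem_cancel_left hna).mp h'))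
  · exact key a ha hna

/-- An element fixing `A`, `B`, trivial on `H` and on `A / H`, centralizes `N`. -/
theorem mem_cent_nn (h : Adj S A B) (hA : y ∈ 𝐍[A]) (hB : y ∈ 𝐍[B]) (hH : y ∈ 𝐂[ax A B])
    (hv : Tv A (ax A B) y) : y ∈ 𝐂[nn A B] := by
  obtain ⟨a, ha, hna⟩ := h.exists_out
  rw [nn, cent_sup]
  refine ⟨hH, mem_cent.mpr fun r hr => ?_⟩
  have hr' : y * r * y⁻¹ ∈ ax B A :=
    conj_mem_of_norm (cj_eq_iff.mp (by rw [ax_cj, cj_of_norm hA, cj_of_norm hB])) hr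
  have h1 := inv_mem (hv a ha)
  have e : ⁅a, r⁆ = ⁅a, y * r * y⁻¹⁆ := by
    calc ⁅a, r⁆ = y * ⁅a, r⁆ * y⁻¹ := by
          rw [← mem_cent.mp hH _ (h.comm_mem ha hr), mul_inv_cancel_right]
      _ = ⁅a * (a⁻¹ * ⁅a, y⁆⁻¹ * a), y * r * y⁻¹⁆ := by
          simp only [commutatorElement_def]; group
      _ = ⁅a * ⁅a, y⁆⁻¹, y * r * y⁻¹⁆ := by
          rw [mul_assoc a⁻¹, ← (h.tw.comm h.left ha h1.1).eq, inv_mul_cancel_left]
      _ = _ := by
          rw [h.comm_mul_left ha h1.1 hr',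
            commutatorElement_eq_one_iff_commute.mpr (h.commute h1 hr'), mul_one]
  exact eq_mul_inv_iff_mul_eq.mp (h.inj ha hna hr hr' e)

/-- Two elements with the same axis commute modulo `C(A)`. -/
theorem comm_mem_cent (h : Adj S A B) (h' : Adj S A B') (e : ax A B' = ax A B) (hr : r ∈ ax B A)
    (hs : s ∈ ax B' A) : ⁅r, s⁆ ∈ 𝐂[A] := by
  have key : ∀ a ∈ A, r * s * a * (r * s)⁻¹ = s * r * a * (s * r)⁻¹ := by
    intro a ha
    have h1 := inv_mem (h.comm_mem ha hr)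
    have h2 := inv_mem (h'.comm_mem ha hs)
    have e1 := (h.commute (e ▸ h2) hr).eq
    have e2 := (h'.commute (e ▸ h1) hs).eq
    have e3 := (h.tw.comm h.left h1.1 h2.1).eq
    calc _ = (r * ⁅a, s⁆⁻¹) * a * r⁻¹ := by simp only [commutatorElement_def]; group
      _ = ⁅a, s⁆⁻¹ * ⁅a, r⁆⁻¹ * a := by rw [← e1]; simp only [commutatorElement_def]; group
      _ = (s * ⁅a, r⁆⁻¹) * a * s⁻¹ := by rw [← e3, ← e2]; simp only [commutatorElement_def]; group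
      _ = _ := by simp only [commutatorElement_def]; group
  refine mem_cent.mpr fun a ha => ?_
  have := key _ (conj_mem_of_norm' (mul_mem hs.2 hr.2) ha)
  calc a * ⁅r, s⁆ = (s * r * ((s * r)⁻¹ * a * (s * r)) * (s * r)⁻¹) * ⁅r, s⁆ := by group
    _ = _ := by rw [← this]; simp only [commutatorElement_def]; group

/-- Triangles: an element of a line centralizing another line with the same axis. -/
theorem tri (h : Adj S A B) (h' : Adj S A B') (e : ax A B' = ax A B) (hr : r ∈ ax B' A)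
    (h1 : r ≠ 1) (hc : r ∈ 𝐂[nn A B]) : nn A B' ≤ 𝐂[nn A B] := by
  refine sup_le (e ▸ ax_le_nn.trans h.nn_le_cent) ?_
  rw [nn, cent_sup]
  refine le_inf (e ▸ h'.bas_ax_cent) fun s hs => mem_cent.mpr fun ρ hρ => ?_
  have h2 : ρ ∈ 𝐍[B'] :=
    h.tw.mem_norm_of_commute h'.right hr.1 h1 (mem_cent.mp hc ρ (ax_le_nn' hρ))
  by_contra hn
  exact h'.ne (h.tw.eq_of_cent h.left h'.right (bas_comm_mem_right h2 hs.1)
    (fun e' => hn (commutatorElement_eq_one_iff_commute.mp e')) (h.comm_mem_cent h' e hρ hs)).symm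

end Adj

end Cfsg.Agent.WTI
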