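import Mathlib
import Cfsg.Agent.WTI.ModA

/-! WTI: the parity and swapper lemmas, thin modules. -/

set_option autoImplicit false
set_option linter.unusedSectionVars false

namespace Cfsg.Agent.WTI

open Cfsg Cfsg.Agent.GT Cfsg.Agent.Loc.Mss Subgroup
open scoped commutatorElement Pointwise

variable {G : Type*} [Group G] [Finite G] {S : Set (Subgroup G)}
  {A B B' C C' E F H P U X Y : Subgroup G} {a a' b c d e g h k n r s t w x y : G}

/-- The elements normalizing `K` and commuting with `y` modulo `K`. -/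
def MB.cs (K : Subgroup G) (y : G) : Subgroup G where
  carrier := {g | g ∈ 𝐍[K] ∧ ⁅g, y⁆ ∈ K}
  one_mem' := ⟨one_mem _, by simp [one_mem]⟩
  mul_mem' := fun {g g'} h h' => ⟨mul_mem h.1 h'.1, by
    have := mul_mem (conj_mem_of_norm h.1 h'.2) h.2
    rwa [show g * ⁅g', y⁆ * g⁻¹ * ⁅g, y⁆ = ⁅g * g', y⁆ by
      simp only [commutatorElement_def]; group] at this⟩
  inv_mem' := fun {g} h => ⟨inv_mem h.1, by
    have := conj_mem_of_norm (inv_mem h.1) (inv_mem h.2)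
    rwa [show g⁻¹ * ⁅g, y⁆⁻¹ * g⁻¹⁻¹ = ⁅g⁻¹, y⁆ by
      simp only [commutatorElement_def]; group] at this⟩

theorem MB.not_mem_conj (hy : y ∈ 𝐍[E]) (hb : b ∉ E) : y * b * y⁻¹ ∉ E := fun h =>
  hb (by simpa [mul_assoc] using conj_mem_of_norm (inv_mem hy) h)

theorem MB.kc (hg : g ∈ 𝐍[E]) (hk : k ∈ 𝐂[E]) : g * k * g⁻¹ ∈ 𝐂[E] :=
  conj_mem_of_norm (norm_cent le_rfl hg) hk

theorem MB.fix (hk : k ∈ 𝐂[E]) (hx : x ∈ E) : k * x * k⁻¹ = x := by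
  rw [← mem_cent.1 hk x hx, mul_inv_cancel_right]

theorem MB.comm_self (hy : y ∈ 𝐍[A]) (ha : a ∈ A) : ⁅a, y⁆ ∈ A := by
  simpa only [commutatorElement_def, mul_assoc] using
    mul_mem ha (conj_mem_of_norm hy (inv_mem ha))

theorem MB.eq_of_cj (ha : a ∈ A) (e : cj(a, B) = A) : B = A := by
  rw [← cj_inv_cj B a, e, cj_of_mem (inv_mem ha)]

/-- An element trivial on `A / H` which fixes `B` fixes `B ^ A`. -/
theorem Adj.norm_cj (h : Adj S A B) (hyB : y ∈ 𝐍[B]) (hv : Tv A (ax A B) y) (ha : a ∈ A) :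
    y ∈ 𝐍[cj(a, B)] := by
  have _ := h
  rw [← cj_eq_iff, cj_cj, show y * a = a * (⁅a⁻¹, y⁆ * y) by
    simp only [commutatorElement_def]; group, ← cj_cj,
    cj_of_norm (mul_mem (ax_le_norm (hv _ (inv_mem ha))) hyB)]

/-- An element of `D` in the module of a line with `|H| = q` lies on a point of the line. -/
theorem Adj.exists_pt (h : Adj S A B) (hq : Nat.card (ax A B) = qq A B) (hn : n ∈ nn A B)
    (hH : n ∉ ax A B) : ∃ a ∈ A, n ∈ ax cj(a, B) A := by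
  obtain ⟨x, hx, r, hr, rfl⟩ := h.mem_nn.1 hn
  obtain ⟨a, ha, rfl⟩ := h.surj' hq hr (fun e => hH (by rw [e, mul_one]; exact hx)) hx
  refine ⟨a, ha, ?_⟩
  have := conj_mem_cj (g := a) hr
  rw [ax_cj, cj_of_mem ha] at this
  rwa [commutatorElement_def, inv_mul_cancel_right]

namespace Mod

open MB

/-- Parity: an involution on `E` moving `B` centralizes a swapper of `B` and its image. -/
theorem par (m : Mod S E) (hy : y ∈ 𝐍[E]) (h2 : y * y ∈ 𝐂[E]) (hB : B ∈ Pt S E)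
    (hn : y ∉ 𝐍[B]) : ∃ F ∈ Pt S E, y ∈ 𝐍[F] ∧ ∃ e ∈ F, e ∉ E ∧ ⁅e, y⁆ ∈ E ∧ y * e ∈ 𝐍[B] := by
  obtain ⟨b, hb, nb⟩ := m.exists_out hB
  have hB' := m.pt_cj hB hy
  have ne : B ≠ cj(y, B) := fun e => hn (cj_eq_iff.1 e.symm)
  obtain ⟨e, -, se, k1⟩ := m.exists_swp hB hB' ne hb nb (conj_mem_cj hb) (not_mem_conj hy nb)
  have ee := m.swp_sq se
  have ie : e⁻¹ = e := inv_eq_of_mul_eq_one_right ee
  have ne' := swp_norm se
  obtain ⟨⟨F, hF, eF, nE⟩, ce⟩ := id se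
  have yy : cj(y, cj(y, B)) = B := by rw [cj_cj, cj_of_norm (m.cent_le_norm hB h2)]
  have ye : cj(y * e, B) = B := by rw [← cj_cj, ce, yy]
  have se' : Swp S E B cj(y, B) (y * e * y⁻¹) :=
    m.swp_symm ⟨⟨_, m.pt_cj hF hy, conj_mem_cj eF, not_mem_conj hy nE⟩, by
      rw [cj_cj, inv_mul_cancel_right, ye]⟩
  have bb := m.tw.sq B hB.1 b hb
  have bN := hB.2 hb
  have key : e * b * e⁻¹ * (y * e * y⁻¹ * b * (y * e * y⁻¹)⁻¹) ∈ 𝐂[E] := by
    have k3 := mul_mem (kc (inv_mem bN) h2) (inv_mem h2)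
    have k4 := mul_mem (kc hy k1) (inv_mem k3)
    have k5 := mul_mem k1 (kc (mul_mem (mul_mem hy ne') (inv_mem hy)) k4)
    convert k5 using 1
    have e1 : y * e * y⁻¹ * (y * (e * b * e⁻¹ * (y * b * y⁻¹)) * y⁻¹ *
        (b⁻¹ * (y * y) * b⁻¹⁻¹ * (y * y)⁻¹)⁻¹) * (y * e * y⁻¹)⁻¹ =
        y * (e * e) * b * e⁻¹ * y * b * y⁻¹ * y⁻¹ * y * y * b⁻¹ * y⁻¹ * y⁻¹ * b *
          (y * e * y⁻¹)⁻¹ := by group
    rw [e1, ee]
    calc _ = e * b * e⁻¹ * (y * (b * b) * e * y⁻¹ * b * (y * e * y⁻¹)⁻¹) := by rw [bb]; group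
      _ = e * b * e⁻¹ * (y * (b * b) * e⁻¹ * y⁻¹ * b * (y * e * y⁻¹)⁻¹) := by rw [ie]
      _ = _ := by group
  have u := m.swp_unique hB ne se se' hb nb key
  refine ⟨F, hF, ?_, e, eF, nE, ?_, cj_eq_iff.1 ye⟩
  · refine cj_eq_iff.1 (m.fix_unique (m.pt_cj hF hy) hF (conj_mem_cj eF) (not_mem_conj hy nE)
      ?_).symm
    have := mul_mem (inv_mem (le_normalizer eF)) (m.le_norm hF u)
    rwa [inv_mul_cancel_left] at this
  · rw [commutatorElement_def, ie]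
    simpa only [mul_assoc] using u

theorem exists_fix (m : Mod S E) (hA : A ∈ Pt S E) (hy : y ∈ 𝐍[E]) (hyA : y ∈ 𝐍[A])
    (h2 : y * y ∈ 𝐂[E]) : ∃ a ∈ A, ∃ B ∈ Pt S E, B ≠ A ∧ y * a ∈ 𝐍[B] := by
  have _ := hyA
  obtain ⟨B, hB, ne⟩ := m.exists_ne hA
  by_cases hn : y ∈ 𝐍[B]
  · exact ⟨1, one_mem _, B, hB, ne, by rwa [mul_one]⟩
  obtain ⟨F, hF, hyF, e, he, -, -, h⟩ := m.par hy h2 hB hn
  by_cases e' : F = A
  · exact ⟨e, e' ▸ he, B, hB, ne, h⟩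
  · exact ⟨1, one_mem _, F, hF, e', by rwa [mul_one]⟩

/-- `y` fixes `F` and is trivial on `F ⊓ E` and on the quotient. -/
structure Gd (E F : Subgroup G) (y : G) : Prop where
  n : y ∈ 𝐍[F]
  c : y ∈ 𝐂[F ⊓ E]
  v : Tv F E y

theorem gd_mul (m : Mod S E) (hA : A ∈ Pt S E) (h : Gd E A y) (ha : a ∈ A) : Gd E A (y * a) := by
  refine ⟨mul_mem h.n (le_normalizer ha),
    mul_mem h.c (cent_anti inf_le_left (m.tw.le_cent hA.1 ha)), fun a' ha' => ?_⟩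
  have := h.v a' ha'
  rwa [commutatorElement_def, ← (m.tw.comm hA.1 ha ha').inv_right.mul_inv_cancel,
    show a' * y * (a * a'⁻¹ * a⁻¹) * y⁻¹ = ⁅a', y * a⁆ by
      simp only [commutatorElement_def]; group] at this

theorem gd_nn (m : Mod S E) (hA : A ∈ Pt S E) (hF : F ∈ Pt S E) (ne : A ≠ F) (h : Gd E A y)
    (hy : y ∈ 𝐍[F]) : y ∈ 𝐂[nn A F] := by
  have e := m.ax_eq A hA F hF ne
  refine (m.adj hA hF ne).mem_cent_nn h.n hy (e ▸ h.c) fun a ha => ?_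
  rw [e]
  exact ⟨comm_self h.n ha, h.v a ha⟩

theorem gd_trans (m : Mod S E) (hA : A ∈ Pt S E) (hF : F ∈ Pt S E) (h : Gd E A y)
    (hy : y ∈ 𝐍[F]) : Gd E F y := by
  by_cases ne : A = F
  · exact ne ▸ h
  have hc := m.gd_nn hA hF ne h hy
  have ad := m.adj hA hF ne
  have e := m.ax_eq F hF A hA (Ne.symm ne)
  refine ⟨hy, e ▸ cent_anti ax_le_nn' hc, fun f hf => ?_⟩
  obtain ⟨x, hx, x1⟩ := ad.exists_ne
  have hf' := conj_mem_of_norm hy hf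
  have c1 := ad.symm.comm_mem hf hx
  have e1 : ⁅y * f * y⁻¹, x⁆ = ⁅f, x⁆ := by
    rw [← fix hc (ax_le_nn' c1), ← fix hc (ax_le_nn hx), conjugate_commutatorElement,
      fix hc (ax_le_nn hx), fix hc (ax_le_nn hx)]
  have e2 := ad.symm.comm_mul_left hf hf' hx
  rw [e1, m.tw.sq F hF.1 _ (ax_le c1), commutatorElement_eq_one_iff_commute] at e2
  have := (ad.symm.mem_ax_iff hx x1).2 ⟨mul_mem hf hf', e2⟩
  rw [e] at this
  rw [commutatorElement_def, m.tw.inv_eq hF.1 hf]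
  simpa only [mul_assoc] using (mem_inf.1 this).2

theorem comm_nn (m : Mod S E) (hA : A ∈ Pt S E) (hB : B ∈ Pt S E) (hne : A ≠ B) (ha : a ∈ A)
    (hb : b ∈ B) (hx : x ∈ zpowers (a * b)) (hc : c ∈ E) : x ∈ cs (nn A B) c := by
  have ad := m.adj hA hB hne
  refine zpowers_le.2 (mul_mem ?_ ?_) hx
  · exact ⟨ad.le_norm_nn ha, ax_le_nn (m.ax_eq A hA B hB hne ▸ m.comm_mem hA ha hc)⟩
  · exact ⟨nn_comm (A := B) ▸ ad.symm.le_norm_nn hb,
      ax_le_nn' (m.ax_eq B hB A hA hne.symm ▸ m.comm_mem hB hb hc)⟩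

theorem sw0 (m : Mod S E) (hA : A ∈ Pt S E) (hB : B ∈ Pt S E) (hne : B ≠ A) (hy : y ∈ 𝐍[E])
    (h : Gd E A y) (hyB : y ∈ 𝐍[B]) (h2 : y * y ∈ 𝐂[E]) : y ∈ 𝐂[E] := by
  have all : ∀ C ∈ Pt S E, y ∈ 𝐍[C] := by
    intro C hC
    by_contra hn
    obtain ⟨F, hF, hyF, e, he, nE, ey, hye⟩ := m.par hy h2 hC hn
    have gF := m.gd_trans hA hF h hyF
    have gC := m.gd_trans hF hC (m.gd_mul hF gF he) hye
    have FC : F ≠ C := fun e => hn (e ▸ hyF)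
    obtain ⟨F', hF', ne', hyF'⟩ : ∃ F' ∈ Pt S E, F ≠ F' ∧ y ∈ 𝐍[F'] := by
      by_cases e : F = A
      · exact ⟨B, hB, e ▸ hne.symm, hyB⟩
      · exact ⟨A, hA, e, h.n⟩
    have gF' := m.gd_trans hA hF' h hyF'
    obtain ⟨f, hf, nf⟩ := m.exists_out hF'
    obtain ⟨x, hx, ox, -, fp⟩ := m.exists_odd hF hF' ne' he nE hf nf
    have yN := m.gd_nn hF hF' ne' gF hyF'
    have xy : x ∈ cs 𝐂[E] y := zpowers_le.2 ((cs 𝐂[E] y).mul_mem
      ⟨norm_cent le_rfl (hF.2 he), m.le_cent ey⟩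
      ⟨norm_cent le_rfl (hF'.2 hf), m.le_cent (gF'.v f hf)⟩) hx
    have ad := m.adj hF hC FC
    obtain ⟨c, hc, c1⟩ := ad.symm.exists_ne
    have hc' : c ∈ C ⊓ E := m.ax_eq C hC F hF FC.symm ▸ hc
    have xc := m.comm_nn hF hF' ne' he hf hx hc'.2
    obtain ⟨n, hn', cm⟩ := exists_commute_coset (m.adj hF hF' ne').nn_pg xc.1 ox xc.2
    have nE' := m.nn_le hF hF' ne' hn'
    have zE : n * c ∈ E := mul_mem nE' hc'.2
    have e1 : y * c * y⁻¹ = e * c * e⁻¹ := by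
      have a1 := fix gC.c hc'
      have a2 := fix h2 (conj_mem_of_norm (hF.2 he) hc'.2)
      calc y * c * y⁻¹ = y * (y * e * c * (y * e)⁻¹) * y⁻¹ := by rw [a1]
        _ = y * y * (e * c * e⁻¹) * (y * y)⁻¹ := by group
        _ = _ := a2
    have w1 := m.comm_mem hF he hc'.2
    have e2 : ⁅y, n * c⁆ = ⁅e, c⁆ := by
      rw [← fix (m.le_cent nE') w1.2, commutatorElement_def, commutatorElement_def, ← e1]
      calc y * (n * c) * y⁻¹ * (n * c)⁻¹ = y * n * y⁻¹ * (y * c * y⁻¹ * c⁻¹) * n⁻¹ := by group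
        _ = _ := by rw [fix yN hn']
    have e3 : x * ⁅e, c⁆ * x⁻¹ = ⁅e, c⁆ := by
      have a1 := fix xy.2 (conj_mem_of_norm hy zE)
      rw [← e2, conjugate_commutatorElement, cm.mul_inv_cancel, commutatorElement_def,
        commutatorElement_def]
      congr 1
      rw [← a1, commutatorElement_def]
      group
    have := fp _ (ax_le_nn (m.ax_eq F hF F' hF' ne' ▸ w1)) (mul_inv_eq_iff_eq_mul.1 e3)
    have := (ad.mem_ax_iff hc c1).2 ⟨he, commutatorElement_eq_one_iff_commute.1 this⟩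
    rw [m.ax_eq F hF C hC FC] at this
    exact nE this.2
  refine zpowers_le.1 (cent_comm (m.gen _ fun C hC => cent_comm (zpowers_le.2 ?_)))
  exact (m.gd_trans hA hC h (all C hC)).c

/-- The swapper lemma. -/
theorem sw (m : Mod S E) (hA : A ∈ Pt S E) (hy : y ∈ 𝐍[E]) (hyA : y ∈ 𝐍[A])
    (hH : y ∈ 𝐂[A ⊓ E]) (hv : Tv A E y) (h2 : y * y ∈ 𝐂[E]) : ∃ a ∈ A, y * a ∈ 𝐂[E] := by
  obtain ⟨a, ha, B, hB, ne, h⟩ := m.exists_fix hA hy hyA h2
  refine ⟨a, ha, m.sw0 hA hB ne (mul_mem hy (hA.2 ha)) (m.gd_mul hA ⟨hyA, hH, hv⟩ ha) h ?_⟩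
  have := mul_mem h2 (m.le_cent (conj_mem_of_norm (inv_mem hy) (hv a ha)))
  rw [commutatorElement_def, m.tw.inv_eq hA.1 ha] at this
  convert this using 1
  group

/-- An element of a line through `A` with axis `A ⊓ E` normalizing `E` centralizes it. -/
theorem cent_of_norm (m : Mod S E) (hA : A ∈ Pt S E) (h : Adj S A B) (e : ax A B = A ⊓ E)
    (hr : r ∈ ax B A) (hn : r ∈ 𝐍[E]) : r ∈ 𝐂[E] := by
  by_cases r1 : r = 1
  · exact r1 ▸ one_mem _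
  have rr := m.tw.sq B h.right r hr.1
  obtain ⟨a, ha, hk⟩ := m.sw hA hn hr.2
    (mem_cent.2 fun x hx => (h.commute (e ▸ hx) hr).eq)
    (fun a ha => (e ▸ h.comm_mem ha hr : _ ∈ A ⊓ E).2) (rr ▸ one_mem _)
  obtain ⟨C, hC, ne⟩ := m.exists_ne hA
  have e1 : r * a * (r * a) = ⁅a, r⁆⁻¹ := by
    rw [commutatorElement_inv, commutatorElement_def, m.tw.inv_eq hA.1 ha,
      inv_eq_of_mul_eq_one_right rr, mul_assoc (r * a)]
  have := (m.adj hA hC ne.symm).sq_cent (cent_anti (m.nn_le hA hC ne.symm) hk) (by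
    rw [e1]
    exact inv_mem (ax_le_nn (m.ax_eq A hA C hC ne.symm ▸ e ▸ h.comm_mem ha hr)))
  rw [e1, inv_eq_one, commutatorElement_eq_one_iff_commute] at this
  have a2 : a ∈ A ⊓ E := e ▸ (h.mem_ax_iff hr r1).2 ⟨ha, this⟩
  exact (mul_mem_cancel_right (m.le_cent a2.2)).1 hk

/-- The number of points of the orbit `B ^ A` is the index. -/
theorem ncard_orbit (m : Mod S E) (hA : A ∈ Pt S E) (hB : B ∈ Pt S E) (hne : B ≠ A) :
    {C | ∃ a ∈ A, cj(a, B) = C}.ncard = E.relIndex A := by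
  let : MulAction G (Subgroup G) := MulAction.compHom _ (MulAut.conj (G := G))
  have e1 : {C | ∃ a ∈ A, cj(a, B) = C} = MulAction.orbit A B := by
    ext C
    exact ⟨fun ⟨a, ha, e⟩ => ⟨⟨a, ha⟩, e⟩, fun ⟨a, e⟩ => ⟨a, a.2, e⟩⟩
  rw [e1, ← MulAction.index_stabilizer, relIndex]
  congr 1
  ext a
  have : a ∈ MulAction.stabilizer A B ↔ (a : G) ∈ 𝐍[B] := cj_eq_iff
  rw [this, mem_subgroupOf]
  have e := m.ax_eq A hA B hB hne.symm
  exact ⟨fun h => (e ▸ (⟨a.2, h⟩ : (a : G) ∈ ax A B) : _ ∈ A ⊓ E).2,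
    fun h => m.le_norm hB h⟩

theorem orbit_sub (m : Mod S E) (hA : A ∈ Pt S E) (hB : B ∈ Pt S E) (hne : B ≠ A) :
    {C | ∃ a ∈ A, cj(a, B) = C} ⊆ Pt S E \ {A} := by
  rintro _ ⟨a, ha, rfl⟩
  exact ⟨m.pt_cj hB (hA.2 ha), fun e => hne (eq_of_cj ha e)⟩

theorem ncard_of_pt (m : Mod S E) (hA : A ∈ Pt S E) (hB : B ∈ Pt S E) (hne : B ≠ A)
    (h : ∀ C ∈ Pt S E, C ≠ A → ∃ a ∈ A, cj(a, B) = C) :
    (Pt S E).ncard = E.relIndex A + 1 := by
  rw [← m.ncard_orbit hA hB hne, ← Set.ncard_sdiff_singleton_add_one hA,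
    (m.orbit_sub hA hB hne).antisymm fun C hC => h C hC.1 hC.2]

theorem thin_of_pt (m : Mod S E) (hA : A ∈ Pt S E) (hB : B ∈ Pt S E) (hne : B ≠ A)
    (h : ∀ C ∈ Pt S E, C ≠ A → ∃ a ∈ A, cj(a, B) = C) : Thin S E := by
  intro A' hA' B' hB' C hC n1 n2
  have e1 := m.ncard_of_pt hA hB hne h
  have e2 := Set.ncard_sdiff_singleton_add_one hA'
  have e3 := m.ncard_orbit hA' hB' n1
  have e4 := m.relIndex_eq hA hA'
  have := Set.eq_of_subset_of_ncard_le (m.orbit_sub hA' hB' n1) (by omega)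
  exact (this.ge ⟨hC, n2⟩ :)

theorem ncard_thin (m : Mod S E) (ht : Thin S E) (hA : A ∈ Pt S E) :
    (Pt S E).ncard = E.relIndex A + 1 := by
  obtain ⟨B, hB, ne⟩ := m.exists_ne hA
  exact m.ncard_of_pt hA hB ne fun C hC n => ht A hA B hB C hC ne n

theorem on_pt (m : Mod S E) (hA : A ∈ Pt S E)
    (h : Nat.card (A ⊓ E : Subgroup G) = E.relIndex A) (hC : C ∈ Pt S E) (hC' : C' ∈ Pt S E)
    (ne : C ≠ C') (hn : n ∈ nn C C') : n ∈ C ∨ ∃ c ∈ C, n ∈ cj(c, C') := by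
  by_cases hH : n ∈ ax C C'
  · exact Or.inl hH.1
  obtain ⟨c, hc, e⟩ := (m.adj hC hC' ne).exists_pt (by
    rw [m.ax_eq C hC C' hC' ne, m.qq_eq hC hC' ne, m.card_inf_eq hC hA, h,
      m.relIndex_eq hA hC]) hn hH
  exact Or.inr ⟨c, hc, e.1⟩

theorem thin_of_card (m : Mod S E) (hA : A ∈ Pt S E)
    (h : Nat.card (A ⊓ E : Subgroup G) = E.relIndex A) : Thin S E := by
  obtain ⟨B, hB, ne⟩ := m.exists_ne hA
  refine m.thin_of_pt hA hB ne fun C hC nA => ?_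
  obtain ⟨a, ha, na⟩ := m.exists_out hA
  obtain ⟨b, hb, nb⟩ := m.exists_out hB
  obtain ⟨x, hx, ox, ⟨i, hi⟩, -⟩ := m.exists_odd hA hB ne.symm ha na hb nb
  obtain ⟨s, hs, s1⟩ := (m.adj hC hA nA).exists_ne
  have hs' : s ∈ C ⊓ E := m.ax_eq C hC A hA nA ▸ hs
  have xs := m.comm_nn hA hB ne.symm ha hb hx hs'.2
  obtain ⟨n, hn, cm⟩ := exists_commute_coset (m.adj hA hB ne.symm).nn_pg xs.1 ox xs.2
  have nE := m.nn_le hA hB ne.symm hn
  have zE : n * s ∈ E := mul_mem nE hs'.2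
  have e1 : ⁅a, n * s⁆ = ⁅b, n * s⁆ := by
    have a1 := fix (inv_mem hi) zE
    have a2 := (cm.pow_left i).inv_left.mul_inv_cancel
    have a3 : a * b * (n * s) * (a * b)⁻¹ = n * s := by
      calc _ = a * b * ((x ^ i)⁻¹ * (n * s) * (x ^ i)⁻¹⁻¹) * (a * b)⁻¹ := by rw [a2]
        _ = (x ^ i * (a * b)⁻¹)⁻¹ * (n * s) * (x ^ i * (a * b)⁻¹)⁻¹⁻¹ := by group
        _ = _ := a1
    rw [commutatorElement_def, commutatorElement_def]
    congr 1
    conv_lhs => rw [← a3]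
    calc _ = a * a * (b * (n * s) * b⁻¹) * (a * a)⁻¹ := by group
      _ = _ := by rw [m.tw.sq A hA.1 a ha]; group
  have e2 : ⁅a, n * s⁆ = 1 := m.tw.eq_one hA.1 hB.1 ne.symm (m.comm_mem hA ha zE).1
    (e1 ▸ (m.comm_mem hB hb zE).1)
  have ca := commutatorElement_eq_one_iff_commute.1 e2
  have cb := commutatorElement_eq_one_iff_commute.1 (e1 ▸ e2)
  have z1 : ∀ F ∈ Pt S E, n * s ∈ F → n * s = 1 := fun F hF hz => by
    by_contra z1
    exact ne ((m.fix_unique hB hF hb nb (m.tw.mem_norm_of_commute hF.1 hz z1 cb)).symm.trans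
      (m.fix_unique hA hF ha na (m.tw.mem_norm_of_commute hF.1 hz z1 ca)))
  have key : ∀ F ∈ Pt S E, n ∈ F → F = C := fun F hF hnF => by
    by_contra nF
    have zz : n * s = 1 := by
      have : n * s ∈ nn F C := mul_mem (ax_le_nn (m.ax_eq F hF C hC nF ▸ ⟨hnF, nE⟩))
        (ax_le_nn' (m.ax_eq C hC F hF (Ne.symm nF) ▸ hs'))
      rcases m.on_pt hA h hF hC nF this with e | ⟨f, hf, e⟩
      exacts [z1 F hF e, z1 _ (m.pt_cj hC (hF.2 hf)) e]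
    exact s1 (m.tw.eq_one hF.1 hC.1 nF (eq_inv_of_mul_eq_one_right zz ▸ inv_mem hnF) hs'.1)
  rcases m.on_pt hA h hA hB ne.symm hn with e | ⟨a', ha', e⟩
  · exact absurd (key A hA e).symm nA
  · exact ⟨a', ha', key _ (m.pt_cj hB (hA.2 ha')) e⟩

theorem eq_nn (m : Mod S E) (ht : Thin S E) (hA : A ∈ Pt S E) (hB : B ∈ Pt S E) (hne : A ≠ B) :
    E = nn A B := by
  refine le_antisymm (m.gen _ fun C hC => ?_) (m.nn_le hA hB hne)
  by_cases e : C = A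
  · rw [e, ← m.ax_eq A hA B hB hne]; exact ax_le_nn
  obtain ⟨a, ha, rfl⟩ := ht A hA B hB C hC hne.symm e
  have : cj(a, B) ⊓ E = cj(a, B ⊓ E) := by rw [cj_inf, cj_of_norm (hA.2 ha)]
  rw [this, ← m.ax_eq B hB A hA hne.symm]
  exact cj_le_of_norm ax_le_nn' ((m.adj hA hB hne).le_norm_nn ha)

theorem sub_of_thin (m : Mod S E) (ht : Thin S E) : Sub S E := fun A hA B hB ne _ ha na =>
  ht B hB A hA _ (m.pt_cj hB (hA.2 ha)) ne fun e =>
    ne (m.fix_unique hA hB ha na (cj_eq_iff.1 e)).symm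

/-- The partner of `a`: `a b a` and `b a b` are swappers and `(a b) ^ 3` is trivial on `E`. -/
theorem cube (m : Mod S E) (hA : A ∈ Pt S E) (hB : B ∈ Pt S E) (hne : A ≠ B) (ha : a ∈ A)
    (hna : a ∉ E) (hb : b ∈ B) (e : cj(b, A) = cj(a, B)) :
    b ∉ E ∧ (a * b) ^ 3 ∈ 𝐂[E] ∧ Swp S E A B (a * b * a) ∧ Swp S E A B (b * a * b) := by
  have aa := m.tw.sq A hA.1 a ha
  have bb := m.tw.sq B hB.1 b hb
  have ia := m.tw.inv_eq hA.1 ha
  have ib := m.tw.inv_eq hB.1 hb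
  have nb : b ∉ E := fun h =>
    hne (eq_of_cj ha (e.symm.trans (cj_of_norm (m.le_norm hA h)))).symm
  have c1 : cj(a * b, A) = B := by rw [← cj_cj, e, cj_cj, aa, cj_one]
  have c2 : cj(a * b, B) = cj(b, A) := by rw [← cj_cj, cj_of_mem hb, e]
  have c3 : cj(a * b, cj(b, A)) = A := by rw [cj_cj, mul_assoc, bb, mul_one, cj_of_mem ha]
  have wN := mul_mem (hA.2 ha) (hB.2 hb)
  refine ⟨nb, m.triv hA ha (pow_mem wN 3) (cj_eq_iff.1 ?_) ?_ ?_, ⟨⟨_, m.pt_cj hB (hA.2 ha), ?_,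
    ?_⟩, ?_⟩, ⟨_, m.pt_cj hA (hB.2 hb), ?_, ?_⟩, ?_⟩
  · rw [pow_three', ← cj_cj, ← cj_cj, c1, c2, c3]
  · obtain ⟨i, oi, hi⟩ := m.odd hA hB hne ha hna hb nb
    exact ⟨i, oi, by rw [← pow_mul, mul_comm, pow_mul]; exact pow_mem hi 3⟩
  · have : a * (a * b) ^ 3 * a⁻¹ * (a * b) ^ 3 = 1 := by
      calc _ = a * a * b * a * b * a * (b * b) * a * b * a * b := by
            simp only [pow_three', mul_assoc, inv_mul_cancel_left]
        _ = b * a * b * (a * a) * b * a * b := by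
            nth_rw 1 [aa]; rw [bb]; simp only [mul_one, one_mul, mul_assoc]
        _ = b * a * (b * b) * a * b := by rw [aa]; simp only [mul_one, mul_assoc]
        _ = b * (a * a) * b := by rw [bb]; simp only [mul_one, mul_assoc]
        _ = 1 := by rw [aa, mul_one, bb]
    exact this ▸ one_mem _
  · have := conj_mem_cj (g := a) hb
    rwa [ia] at this
  · have := not_mem_conj (hA.2 ha) nb
    rwa [ia] at this
  · rw [← cj_cj, cj_of_mem ha, c1]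
  · have := conj_mem_cj (g := b) ha
    rwa [ib] at this
  · have := not_mem_conj (hB.2 hb) hna
    rwa [ib] at this
  · rw [← cj_cj, e, cj_cj, mul_assoc, aa, mul_one, cj_of_mem hb]

/-- `[a, r]` is the image of `r` under the swapper of `a`. -/
theorem comm_eq (m : Mod S E) (hA : A ∈ Pt S E) (hB : B ∈ Pt S E) (hne : A ≠ B) (ha : a ∈ A)
    (hna : a ∉ E) (hb : b ∈ B) (e : cj(b, A) = cj(a, B)) (hr : r ∈ B ⊓ E) :
    ⁅a, r⁆ = a * b * a * r * (a * b * a)⁻¹ := by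
  obtain ⟨nb, h3, -⟩ := m.cube hA hB hne ha hna hb e
  have ad := m.adj hA hB hne
  have wN : a * b ∈ 𝐍[nn A B] :=
    mul_mem (ad.le_norm_nn ha) (nn_comm (A := B) ▸ ad.symm.le_norm_nn hb)
  have r0 : r ∈ nn A B := ax_le_nn' (m.ax_eq B hB A hA hne.symm ▸ hr)
  have r1 := conj_mem_of_norm wN r0
  have r2 := conj_mem_of_norm wN r1
  have e1 : a * b * r * (a * b)⁻¹ = a * r * a⁻¹ := by
    conv_rhs => rw [← (m.tw.comm hB.1 hb hr.1).mul_inv_cancel]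
    group
  have p := m.fpf hA hB hne ha hna hb nb (mul_mem r0 (mul_mem r1 r2)) (by
    refine mul_inv_eq_iff_eq_mul.1 ?_
    rw [mem_cent.1 (ad.nn_le_cent (mul_mem r1 r2)) r r0, ← mem_cent.1 (ad.nn_le_cent
      (mul_mem r1 r2)) r r0]
    generalize a * b = w at h3 r1 r2 ⊢
    calc _ = w * r * w⁻¹ * (w * (w * r * w⁻¹) * w⁻¹) * (w ^ 3 * r * (w ^ 3)⁻¹) := by group
      _ = _ := by rw [fix h3 hr.2, ← mem_cent.1 (ad.nn_le_cent (mul_mem r1 r2)) r r0])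
  rw [e1] at p
  have ir := m.tw.inv_eq hB.1 hr.1
  have := eq_inv_of_mul_eq_one_right (mul_assoc r _ _ ▸ p)
  calc ⁅a, r⁆ = (r * (a * r⁻¹ * a⁻¹))⁻¹ := by rw [commutatorElement_def]; group
    _ = (r * (a * r * a⁻¹))⁻¹ := by rw [ir]
    _ = _ := by rw [← this]; group

/-- On a subline every commutator `[a, r]` is the image of `r` under a swapper. -/
theorem exists_swp_comm (m : Mod S E) (hs : Sub S E) (hA : A ∈ Pt S E) (hB : B ∈ Pt S E)
    (hne : A ≠ B) (ha : a ∈ A) (hna : a ∉ E) : ∃ e ∈ A ⊔ B, Swp S E A B e ∧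
      ∀ r ∈ B ⊓ E, ⁅a, r⁆ = e * r * e⁻¹ := by
  obtain ⟨b, hb, e⟩ := hs A hA B hB hne a ha hna
  exact ⟨_, mul_mem (mul_mem (mem_sup_left ha) (mem_sup_right hb)) (mem_sup_left ha),
    (m.cube hA hB hne ha hna hb e).2.2.1, fun r hr => m.comm_eq hA hB hne ha hna hb e hr⟩

theorem tv_of_sub (m : Mod S E) (hs : Sub S E) (hA : A ∈ Pt S E) (hB : B ∈ Pt S E) (hne : A ≠ B)
    (hE : y ∈ 𝐍[E]) (hyA : y ∈ 𝐍[A]) (hyB : y ∈ 𝐍[B]) (hv : Tv A E y) : Tv B E y := by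
  intro b hb
  by_cases hbE : b ∈ E
  · exact comm_self hE hbE
  obtain ⟨a, ha, e⟩ := hs B hB A hA hne.symm b hb hbE
  have n1 := (m.adj hA hB hne).norm_cj hyB 
    (fun a ha => m.ax_eq A hA B hB hne ▸ ⟨comm_self hyA ha, hv a ha⟩) ha
  have n2 : b⁻¹ * y * b * y⁻¹ ∈ 𝐍[A] := by
    rw [← cj_eq_iff, ← cj_cj, cj_of_norm (inv_mem hyA), ← cj_cj, ← cj_cj, ← e, cj_of_norm n1, e,
      cj_inv_cj]
  have n3 : b⁻¹ * y * b * y⁻¹ ∈ B := by
    simpa only [mul_assoc] using mul_mem (inv_mem hb) (conj_mem_of_norm hyB hb)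
  have := mem_ax.2 ⟨n3, n2⟩
  rw [m.ax_eq B hB A hA hne.symm, m.tw.inv_eq hB.1 hb] at this
  rw [commutatorElement_def, m.tw.inv_eq hB.1 hb]
  exact this.2

/-- An element fixing two points of a subline and trivial on `A / H` commutes with the swappers. -/
theorem swc (m : Mod S E) (hs : Sub S E) (hA : A ∈ Pt S E) (hB : B ∈ Pt S E) (hne : A ≠ B)
    (hE : y ∈ 𝐍[E]) (hyA : y ∈ 𝐍[A]) (hyB : y ∈ 𝐍[B]) (hv : Tv A E y) (he : Swp S E A B e) :
    ⁅e, y⁆ ∈ E := by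
  have hv' := m.tv_of_sub hs hA hB hne hE hyA hyB hv
  have ie : e⁻¹ = e := inv_eq_of_mul_eq_one_right (m.swp_sq he)
  obtain ⟨⟨F, hF, eF, nE⟩, ce⟩ := id he
  have he' : Swp S E A B (y * e * y⁻¹) :=
    ⟨⟨_, m.pt_cj hF hE, conj_mem_cj eF, not_mem_conj hE nE⟩, by
      rw [← cj_cj, cj_of_norm (inv_mem hyA), ← cj_cj, ce, cj_of_norm hyB]⟩
  obtain ⟨a, ha, na⟩ := m.exists_out hA
  have hb : e * a * e⁻¹ ∈ B := ce ▸ conj_mem_cj ha
  have u := m.swp_unique hA hne he he' ha na (m.le_cent (by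
    have a1 := conj_mem_of_norm (hB.2 hb) (conj_mem_of_norm hE (conj_mem_of_norm (swp_norm he)
      (conj_mem_of_norm (inv_mem hE) (hv a ha))))
    have a2 := mul_mem a1 (hv' _ hb)
    rw [commutatorElement_def (e * a * e⁻¹)] at a2
    nth_rw 2 [m.tw.inv_eq hB.1 hb] at a2
    rw [commutatorElement_def] at a2
    convert a2 using 1
    group))
  rw [commutatorElement_def, ie]
  simpa only [mul_assoc] using u

end Mod

theorem Thin.conj (h : TW S) (ht : Thin S E) (g : G) : Thin S cj(g, E) := by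
  have p : ∀ C ∈ Pt S cj(g, E), cj(g⁻¹, C) ∈ Pt S E := fun C hC =>
    ⟨h.conj C hC.1 _, le_cj_iff_inv_le.1 (cj_norm E g ▸ hC.2)⟩
  intro A hA B hB C hC n1 n2
  obtain ⟨a, ha, e⟩ := ht _ (p A hA) _ (p B hB) _ (p C hC) (fun e => n1 (cj_eq_cj.1 e))
    fun e => n2 (cj_eq_cj.1 e)
  refine ⟨g * a * g⁻¹, by simpa using mem_cj.1 ha, ?_⟩
  rw [← cj_cj, ← cj_cj, e, cj_cj_inv]

/-- On a thin line an element normalizing the line and `A` acts like an element of `A` on one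
further point. -/
theorem Thin.exists_fix (ht : Thin S (nn A B)) (h : Adj S A B) (hy : y ∈ 𝐍[nn A B])
    (hyA : y ∈ 𝐍[A]) : ∃ a ∈ A, y * a ∈ 𝐍[B] := by
  obtain ⟨a, ha, e⟩ := ht A h.left_pt B h.right_pt _ (h.mod.pt_cj h.right_pt (inv_mem hy))
    h.ne.symm fun e => h.ne (by rw [← cj_cj_inv B y, e, cj_of_norm hyA])
  exact ⟨a, ha, cj_eq_iff.1 (by rw [← cj_cj, e, cj_cj_inv])⟩

end Cfsg.Agent.WTI
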