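import Mathlib
import Cfsg.Agent.WTI.ModB
import Cfsg.Agent.Blk.ZStar
import Cfsg.Agent.GT.FourGroup

/-! WTI: maximal modules on a largest axis, uniqueness of lines (PLAN §7). -/

set_option autoImplicit false
set_option linter.unusedSectionVars false
set_option linter.unusedVariables false

namespace Cfsg.Agent.WTI

open Cfsg Cfsg.Agent.GT Cfsg.Agent.Loc.Mss Subgroup
open scoped commutatorElement

variable {G : Type*} [Group G] [Finite G] {S : Set (Subgroup G)}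
  {A B B' C C' E F H P U X Y : Subgroup G} {a a' b c d e g h k n r s t w x y : G}

/-- `B` spans a line with `A` whose axis at `A` is `H`. -/
def UqL (S : Set (Subgroup G)) (A H B : Subgroup G) : Prop := Adj S A B ∧ ax A B = H

/-- An abelian product of lines with the axis `H`. -/
structure UqP (S : Set (Subgroup G)) (A H E : Subgroup G) : Prop where
  ex : ∃ B, UqL S A H B ∧ nn A B ≤ E
  gen : ∀ X : Subgroup G, (∀ B, UqL S A H B → nn A B ≤ E → nn A B ≤ X) → E ≤ X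
  ab : E ≤ 𝐂[E]

theorem UqL.conj (h : UqL S A H B) (hg : g ∈ 𝐍[A] ⊓ 𝐍[H]) :
    UqL S A H cj(g, B) ∧ cj(g, nn A B) = nn A cj(g, B) := by
  have h1 := h.1.conj g
  have h2 := ax_cj (A := A) (B := B) g
  have h3 := nn_cj (A := A) (B := B) g
  rw [cj_of_norm hg.1] at h1 h2 h3
  rw [h.2, cj_of_norm hg.2] at h2
  exact ⟨⟨h1, h2.symm⟩, h3⟩

theorem UqL.le (h : UqL S A H B) : nn A B ≤ 𝐍[A] ⊓ 𝐍[H] :=
  le_inf h.1.nn_le_norm (norm_of_cent (h.1.nn_le_cent.trans (cent_anti (h.2 ▸ ax_le_nn))))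

theorem UqL.mx (h : Mx S A B) (h' : UqL S A (ax A B) B') : Mx S A B' :=
  h.of_card h'.1 (by rw [h'.2])

theorem uq_norm_of_comm (h : ∀ x ∈ E, ⁅g, x⁆ ∈ E) : g ∈ 𝐍[E] := by
  refine mem_norm_of_cj_le (cj_le_iff.mpr fun x hx => ?_)
  have := mul_mem (h x hx) hx
  rwa [show ⁅g, x⁆ * x = g * x * g⁻¹ by simp only [commutatorElement_def]; group] at this

namespace UqP

theorem single (h : UqL S A H B) : UqP S A H (nn A B) :=
  ⟨⟨B, h, le_rfl⟩, fun _ hX => hX B h le_rfl, h.1.nn_le_cent⟩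

theorem sup (u : UqP S A H E) (h : UqL S A H B) (hc : nn A B ≤ 𝐂[E]) :
    UqP S A H (E ⊔ nn A B) :=
  ⟨⟨B, h, le_sup_right⟩, fun X hX => sup_le
    (u.gen X fun C hC e => hX C hC (e.trans le_sup_left)) (hX B h le_sup_right),
    le_cent_sup (sup_le u.ab hc) (sup_le (cent_comm hc) h.1.nn_le_cent)⟩

theorem le (u : UqP S A H E) : E ≤ 𝐍[A] ⊓ 𝐍[H] := u.gen _ fun _ h _ => h.le

theorem ax_le (u : UqP S A H E) : H ≤ E := by
  obtain ⟨B, h, e⟩ := u.ex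
  exact h.2 ▸ ax_le_nn.trans e

theorem sq (u : UqP S A H E) : ∀ x ∈ E, x * x = 1 := by
  let Y : Subgroup G :=
    { carrier := {x | x ∈ E ∧ x * x = 1}
      one_mem' := ⟨one_mem _, mul_one _⟩
      mul_mem' := fun {x y} hx hy => ⟨mul_mem hx.1 hy.1, by
        have e := mem_cent.mp (u.ab hx.1) y hy.1
        calc x * y * (x * y) = x * (y * x) * y := by group
          _ = (x * x) * (y * y) := by rw [e]; group
          _ = 1 := by rw [hx.2, hy.2, mul_one]⟩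
      inv_mem' := fun {x} hx => by rw [bas_inv_eq hx.2]; exact hx }
  exact fun x hx => (u.gen Y (fun B h e y hy => ⟨e hy, h.1.nn_sq hy⟩) hx).2

theorem pg (u : UqP S A H E) : IsPGroup 2 E := bas_pg u.sq

theorem pt_aux (u : UqP S A H E) (h : Adj S A B) (e : nn A B ≤ E) (hC : C ∈ Pt S (nn A B)) :
    C ∈ Pt S E :=
  ⟨hC.1, fun c hc => uq_norm_of_comm fun x hx =>
    e (h.mod.comm_cent_mem hC hc (cent_anti e (u.ab hx))).2⟩

theorem left_pt (u : UqP S A H E) : A ∈ Pt S E := by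
  obtain ⟨B, h, e⟩ := u.ex
  exact u.pt_aux h.1 e h.1.left_pt

theorem right_pt (u : UqP S A H E) (h : Adj S A B) (e : nn A B ≤ E) : B ∈ Pt S E :=
  u.pt_aux h e h.right_pt

theorem inf_eq (u : UqP S A H E) : A ⊓ E = H := by
  obtain ⟨B, h, e⟩ := u.ex
  refine le_antisymm (fun a ha => ?_) (le_inf (h.2 ▸ WTI.ax_le) u.ax_le)
  obtain ⟨r, hr, h1⟩ := h.1.symm.exists_ne
  exact h.2 ▸ (h.1.mem_ax_iff hr h1).mpr
    ⟨ha.1, (mem_cent.mp (u.ab ha.2) r (e (ax_le_nn' hr))).symm⟩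

theorem le_norm (u : UqP S A H E) (tw : TW S) (hC : C ∈ Pt S E) : E ≤ 𝐍[C] :=
  le_sup_right.trans (tw.le_norm_of_pg hC.1 (pg_sup (tw.pg hC.1) u.pg hC.2) le_sup_left)

theorem card_inf (h : Mx S A B) (u : UqP S A (ax A B) E) (hC : C ∈ Pt S E) :
    Nat.card (ax A B) ≤ Nat.card (C ⊓ E : Subgroup G) := by
  by_cases e : C = A
  · rw [e, u.inf_eq]
  have h1 : ax A B ≤ ax A C := le_inf WTI.ax_le (u.ax_le.trans (u.le_norm h.tw hC))
  have h2 : Adj S A C := ⟨h.tw, h.left, hC.1, Ne.symm e, fun e0 => h.nb (eq_bot_iff.mpr (e0 ▸ h1))⟩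
  obtain ⟨c, hc, hn⟩ := h2.symm.exists_out
  exact bas_card_le (fun x => ⁅c, x⁆)
    (fun x hx => ⟨bas_comm_mem_left (h1 hx).2 hc, bas_comm_mem_right (hC.2 hc) (u.ax_le hx)⟩)
    fun x hx y hy e => h2.symm.inj hc hn (h1 hx) (h1 hy) e

theorem nb (h : Mx S A B) (u : UqP S A (ax A B) E) (hC : C ∈ Pt S E) : C ⊓ E ≠ ⊥ := fun e => by
  have := u.card_inf h hC
  rw [e, card_bot] at this
  exact h.nb (eq_bot_of_card_le _ this)

theorem ax_eq (h : Mx S A B) (u : UqP S A (ax A B) E) (hC : C ∈ Pt S E) (hC' : C' ∈ Pt S E)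
    (hne : C ≠ C') : ax C C' = C ⊓ E := by
  have h1 : C ⊓ E ≤ ax C C' := inf_le_inf_left _ (u.le_norm h.tw hC')
  have h2 : Adj S C C' := ⟨h.tw, hC.1, hC'.1, hne, fun e0 => u.nb h hC (eq_bot_iff.mpr (e0 ▸ h1))⟩
  exact (PG.eq_of_le_of_card_le h1 ((h.max C C' h2).trans (u.card_inf h hC))).symm

theorem mod (h : Mx S A B) (u : UqP S A (ax A B) E) : Mod S E where
  tw := h.tw
  sq := u.sq
  two := by
    obtain ⟨B', h', e⟩ := u.ex
    exact ⟨A, u.left_pt, B', u.right_pt h'.1 e, h'.1.ne⟩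
  ax_eq := fun _ hC _ hC' => u.ax_eq h hC hC'
  nb := fun _ => u.nb h
  gen := fun X hX => u.gen X fun B' h' e => sup_le
    (by rw [h'.2, ← u.inf_eq]; exact hX A u.left_pt)
    (by rw [u.ax_eq h (u.right_pt h'.1 e) u.left_pt h'.1.ne.symm]; exact hX B' (u.right_pt h'.1 e))

theorem cj_le (u : UqP S A H E) (hg : g ∈ 𝐍[A] ⊓ 𝐍[H])
    (hX : ∀ B, UqL S A H B → nn A B ≤ cj(g, E) → nn A B ≤ X) : cj(g, E) ≤ X := by
  refine cj_le_iff_le_inv.mpr (u.gen _ fun B h e => cj_le_iff_le_inv.mp ?_)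
  obtain ⟨h1, h2⟩ := h.conj hg
  exact h2 ▸ hX _ h1 (h2 ▸ cj_mono g e)

end UqP

theorem uq_exists_max (h : Mx S A B) (hP : Syl 2 P (𝐍[A] ⊓ 𝐍[ax A B])) :
    ∃ E, UqP S A (ax A B) E ∧ P ≤ 𝐍[E] ∧
      ∀ B', UqL S A (ax A B) B' → nn A B' ≤ P → nn A B' ≤ E := by
  have h0 : UqL S A (ax A B) B := ⟨h.toAdj, rfl⟩
  obtain ⟨g, hg, hle⟩ := hP.conj_le h.nn_pg h0.le
  obtain ⟨h1, h2⟩ := h0.conj hg
  obtain ⟨E, ⟨u, hE⟩, hmax⟩ := (wellFounded_gt (α := Subgroup G)).has_min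
    {E | UqP S A (ax A B) E ∧ E ≤ P} ⟨_, UqP.single h1, h2 ▸ hle⟩
  have k1 : ∀ B', UqL S A (ax A B) B' → nn A B' ≤ P ⊓ 𝐍[E] → nn A B' ≤ E := by
    intro B' h' e
    have hc : nn A B' ≤ 𝐂[E] := sup_le (h'.2 ▸ u.ax_le.trans u.ab) fun r hr =>
      (u.mod h).cent_of_norm u.left_pt h'.1 (h'.2.trans u.inf_eq.symm) hr (e (ax_le_nn' hr)).2
    by_contra hn
    exact hmax _ ⟨u.sup h' hc, sup_le hE (e.trans inf_le_left)⟩
      (lt_of_le_of_ne le_sup_left fun e' => hn (e' ▸ le_sup_right))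
  have k2 : P ≤ 𝐍[E] := by
    by_contra hc
    have hlt : P ⊓ 𝐍[E] < P := lt_of_le_of_ne inf_le_left fun e => hc (e ▸ inf_le_right)
    have : Group.IsNilpotent P := hP.pg.isNilpotent
    obtain ⟨g, hg, hn, hg'⟩ := PG.exists_mem_normalizer_notMem hlt
    have h3 : cj(g, E) ≤ P ⊓ 𝐍[E] := cj_le_of_norm (le_inf hE le_normalizer) hg'
    exact hn ⟨hg, mem_norm_of_cj_le (u.cj_le (hP.le hg) fun B' h' e => k1 B' h' (e.trans h3))⟩
  exact ⟨E, u, k2, fun B' h' e => k1 B' h' (le_inf e (e.trans k2))⟩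

/-- A maximal abelian product of lines with a largest axis, normalized by a given 2-group. -/
theorem Mx.exists_mod (h : Mx S A B) (hU : IsPGroup 2 U) (hn : U ≤ 𝐍[A] ⊓ 𝐍[ax A B]) :
    ∃ E, Mod S E ∧ A ∈ Pt S E ∧ A ⊓ E = ax A B ∧ U ≤ 𝐍[E] ∧
      ∀ B', Adj S A B' → ax A B' = ax A B → ∀ r ∈ ax B' A, r ≠ 1 → r ∈ 𝐍[E] →
        nn A B' ≤ E ∧ B' ∈ Pt S E := by
  obtain ⟨P, hUP, hP⟩ := Syl.exists_ge hU hn
  obtain ⟨E, u, h1, h2⟩ := uq_exists_max h hP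
  refine ⟨E, u.mod h, u.left_pt, u.inf_eq, hUP.trans h1, fun B' h' e r hr hr1 hrE => ?_⟩
  have hc := (u.mod h).cent_of_norm u.left_pt h' (e.trans u.inf_eq.symm) hr hrE
  have h3 : nn A B' ≤ 𝐂[E] := cent_comm (u.gen _ fun C hC eC =>
    cent_comm (hC.1.tri h' (e.trans hC.2.symm) hr hr1 (cent_anti eC hc)))
  have u' := u.sup ⟨h', e⟩ h3
  obtain ⟨g, hg, hle⟩ := hP.conj_le u'.pg u'.le
  have h4 := u'.cj_le hg fun C hC eC => h2 C hC (eC.trans hle)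
  have h5 : E = E ⊔ nn A B' :=
    PG.eq_of_le_of_card_le le_sup_left ((card_cj _ g).symm.le.trans (card_le_of_le h4))
  have h6 : nn A B' ≤ E := h5 ▸ le_sup_right
  exact ⟨h6, u.right_pt h' h6⟩

theorem uq_zstar {Q : Type*} [Group Q] [Finite Q] {Y : Subgroup Q} {s t : Q}
    (hs : IsIsolatedInvolution s) (ht : orderOf t = 2) (hne : s ≠ t) (hc : Commute s t)
    (h1 : ∀ x, Commute x s → x ∈ Y) (h2 : ∀ x, Commute x t → x ∈ Y)
    (h3 : ∀ x, Commute x (s * t) → x ∈ Y) (x : Q) : x ∈ Y := by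
  obtain ⟨k, hk, c, hc', rfl⟩ := hs.exists_oddCore_mul_commute x
  refine mul_mem (le_of_four_group hs.1 ht hne hc (le_normalizer_of_normal (mem_top _))
    (le_normalizer_of_normal (mem_top _)) (Nat.two_dvd_ne_zero.mpr (Nat.odd_iff.mp odd_card_oddCore))
    (fun y hy => h1 y ?_) (fun y hy => h2 y ?_) (fun y hy => h3 y ?_) hk) (h1 c hc')
  all_goals exact mem_centralizer_singleton_iff.mp hy.2

namespace TT

/-- Every 2-subgroup fixing `A` and a largest axis normalizes a thin line with this axis. -/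
theorem exists_line (ht : TT S) (h : Mx S A B) (hU : IsPGroup 2 U) (hn : U ≤ 𝐍[A] ⊓ 𝐍[ax A B]) :
    ∃ B₁, Mx S A B₁ ∧ ax A B₁ = ax A B ∧ Thin S (nn A B₁) ∧ U ≤ 𝐍[nn A B₁] ∧
      ∀ B', Adj S A B' → ax A B' = ax A B → ∀ r ∈ ax B' A, r ≠ 1 → r ∈ U →
        nn A B' = nn A B₁ := by
  obtain ⟨U₀, h0, h0', hU₀⟩ := ht A B h
  obtain ⟨P, hUP, hP⟩ := Syl.exists_ge hU hn
  obtain ⟨E, m, hA, e, hPE, hl⟩ := h.exists_mod hP.pg hP.le
  obtain ⟨g, hg, hle⟩ := hP.conj_le h0 h0'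
  have hg' := inv_mem hg
  have h1 : Thin S cj(g⁻¹, E) := by
    refine hU₀ _ (m.conj _) ?_ ?_ ?_
    · have := ma_pt_cj h.tw hA g⁻¹
      rwa [cj_of_norm hg'.1] at this
    · have := congrArg (fun X => cj(g⁻¹, X)) e
      simpa only [cj_inf, cj_of_norm hg'.1, cj_of_norm hg'.2] using this
    · rw [← cj_norm]; exact cj_le_iff_le_inv.mp (hle.trans hPE)
  have h2 : Thin S E := by
    have := h1.conj h.tw g
    rwa [cj_cj_inv] at this
  obtain ⟨B₁, hB, hne⟩ := m.exists_ne hA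
  have e1 := m.eq_nn h2 hA hB hne.symm
  have e2 : ax A B₁ = ax A B := (m.ax_eq A hA B₁ hB hne.symm).trans e
  refine ⟨B₁, UqL.mx h ⟨m.adj hA hB hne.symm, e2⟩, e2, e1 ▸ h2, e1 ▸ hUP.trans hPE,
    fun B' h' e' r hr h1 hrU => ?_⟩
  exact (m.eq_nn h2 hA (hl B' h' e' r hr h1 (hPE (hUP hrU))).2 h'.ne).symm.trans e1

theorem thin (ht : TT S) (h : Mx S A B) : Thin S (nn A B) := by
  obtain ⟨B₁, -, -, h1, -, h2⟩ := ht.exists_line h h.nn_pg (UqL.le ⟨h.toAdj, rfl⟩)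
  obtain ⟨r, hr, hr1⟩ := h.toAdj.symm.exists_ne
  exact h2 B h.toAdj rfl r hr hr1 (ax_le_nn' hr) ▸ h1

theorem nn_eq_of_norm (ht : TT S) (h : Mx S A B) (h' : Adj S A B') (e : ax A B' = ax A B)
    (hr : r ∈ ax B' A) (h1 : r ≠ 1) (hn : r ∈ 𝐍[nn A B]) : nn A B' = nn A B := by
  have hz : zpowers r ≤ nn A B' := zpowers_le.mpr (ax_le_nn' hr)
  obtain ⟨B₁, -, -, -, -, h2⟩ := ht.exists_line h
    (pg_sup' h.nn_pg (h'.nn_pg.to_le hz) (zpowers_le.mpr hn))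
    (sup_le (UqL.le ⟨h.toAdj, rfl⟩) (hz.trans (UqL.le ⟨h', e⟩)))
  obtain ⟨s, hs, hs1⟩ := h.toAdj.symm.exists_ne
  exact (h2 B' h' e r hr h1 (mem_sup_right (mem_zpowers r))).trans
    (h2 B h.toAdj rfl s hs hs1 (mem_sup_left (ax_le_nn' hs))).symm

/-- If `r` and `r ^ x` commute modulo `A` then `x` normalizes the line. -/
theorem uq_norm (ht : TT S) (h : Mx S A B) (hx : x ∈ 𝐍[A] ⊓ 𝐍[ax A B]) (hr : r ∈ ax B A)
    (h1 : r ≠ 1) (hc : ⁅x * r * x⁻¹, r⁆ ∈ A) : x ∈ 𝐍[nn A B] := by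
  have h0 : UqL S A (ax A B) B := ⟨h.toAdj, rfl⟩
  obtain ⟨h2, h3⟩ := h0.conj hx
  have hs : x * r * x⁻¹ ∈ ax cj(x, B) A := by
    have := conj_mem_cj (g := x) hr
    rwa [ax_cj, cj_of_norm hx.1] at this
  have hz : zpowers r ≤ nn A B := zpowers_le.mpr (ax_le_nn' hr)
  have hz' : zpowers (x * r * x⁻¹) ≤ nn A cj(x, B) := zpowers_le.mpr (ax_le_nn' hs)
  have hA : A ≤ 𝐍[A] ⊓ 𝐍[ax A B] :=
    le_inf le_normalizer (norm_of_cent ((h.tw.le_cent h.left).trans (cent_anti ax_le)))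
  have p1 : IsPGroup 2 (A ⊔ zpowers r : Subgroup G) :=
    pg_sup' (h.tw.pg h.left) (h.nn_pg.to_le hz) (zpowers_le.mpr hr.2)
  have p2 : x * r * x⁻¹ ∈ 𝐍[A ⊔ zpowers r] := by
    refine mem_norm_of_cj_le ?_
    rw [cj_sup, cj_of_norm hs.2, MonoidHom.map_zpowers]
    refine sup_le le_sup_left (zpowers_le.mpr ?_)
    have := mul_mem (mem_sup_left (T := zpowers r) hc) (mem_sup_right (S := A) (mem_zpowers r))
    rwa [show ⁅x * r * x⁻¹, r⁆ * r = (x * r * x⁻¹) * r * (x * r * x⁻¹)⁻¹ by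
      simp only [commutatorElement_def]; group] at this
  obtain ⟨B₁, -, -, -, -, h4⟩ := ht.exists_line h
    (pg_sup' p1 (h2.1.nn_pg.to_le hz') (zpowers_le.mpr p2))
    (sup_le (sup_le hA (hz.trans h0.le)) (hz'.trans h2.le))
  have e1 := h4 B h.toAdj rfl r hr h1 (mem_sup_left (mem_sup_right (mem_zpowers r)))
  have e2 := h4 _ h2.1 h2.2 _ hs (fun e => h1 (by simpa using e)) (mem_sup_right (mem_zpowers _))
  exact cj_eq_iff.mp (h3.trans (e2.trans e1.symm))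

theorem cent_le (ht : TT S) (h : Mx S A B) (h4 : 4 ≤ Nat.card (ax A B)) : 𝐂[A] ≤ 𝐍[nn A B] := by
  set X : Subgroup G := 𝐂[A] ⊔ ax B A with hX
  have hXA : X ≤ 𝐍[A] := sup_le (cent_le_norm A) ax_le_norm
  have hXH : X ≤ 𝐍[A] ⊓ 𝐍[ax A B] := le_inf hXA (sup_le (norm_of_cent (cent_anti ax_le))
    (norm_of_cent h.toAdj.bas_ax_cent))
  have hAX : A ≤ X := (h.tw.le_cent h.left).trans le_sup_left
  have : (A.subgroupOf X).Normal := (normal_subgroupOf_iff_le_normalizer hAX).mpr hXA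
  let f := QuotientGroup.mk' (A.subgroupOf X)
  have hf : ∀ x : X, f x = 1 ↔ (x : G) ∈ A := fun x => QuotientGroup.eq_one_iff x
  have hcm : ∀ x y : X, Commute (f x) (f y) → ⁅(x : G), (y : G)⁆ ∈ A := fun x y hc => by
    have : f ⁅x, y⁆ = 1 := by rw [map_commutatorElement]; exact hc.commutator_eq
    exact (hf _).mp this
  have hRX : ax B A ≤ X := le_sup_right
  have hne : ∀ r (hr : r ∈ ax B A), r ≠ 1 → f ⟨r, hRX hr⟩ ≠ 1 := fun r hr h1 e =>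
    h1 (h.tw.eq_one h.left h.right h.ne ((hf _).mp e) hr.1)
  have hord : ∀ r (hr : r ∈ ax B A), r ≠ 1 → orderOf (f ⟨r, hRX hr⟩) = 2 := fun r hr h1 =>
    orderOf_eq_prime (by
      rw [← map_pow, show (⟨r, hRX hr⟩ : X) ^ 2 = 1 from
        Subtype.ext (by simpa [sq] using h.tw.sq B h.right r hr.1), map_one]) (hne r hr h1)
  let Y := ((𝐍[nn A B]).subgroupOf X).map f
  have hY : ∀ r (hr : r ∈ ax B A), r ≠ 1 → ∀ q, Commute q (f ⟨r, hRX hr⟩) → q ∈ Y := by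
    intro r hr h1 q hq
    obtain ⟨x, rfl⟩ := QuotientGroup.mk'_surjective _ q
    refine mem_map_of_mem f (ht.uq_norm h (hXH x.2) hr h1 ?_)
    have := hcm (x * ⟨r, hRX hr⟩ * x⁻¹) ⟨r, hRX hr⟩ (by
      rw [map_mul, map_mul, map_inv, hq.eq, mul_inv_cancel_right])
    simpa using this
  have hiso : ∀ r (hr : r ∈ ax B A), r ≠ 1 → IsIsolatedInvolution (f ⟨r, hRX hr⟩) := by
    intro r hr h1
    refine ⟨hord r hr h1, fun q hq => ?_⟩
    obtain ⟨x, rfl⟩ := QuotientGroup.mk'_surjective _ q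
    have hx : (x : G) ∈ 𝐍[nn A B] := by
      refine ht.uq_norm h (hXH x.2) hr h1 ?_
      have := hcm (x * ⟨r, hRX hr⟩ * x⁻¹) ⟨r, hRX hr⟩ (by
        rw [map_mul, map_mul, map_inv]; exact hq.symm)
      simpa using this
    obtain ⟨c, hc, ρ, hρ, e⟩ := (mem_sup_norm (norm_cent ax_le_norm)).mp x.2
    have e1 : (x : G) * r * (x : G)⁻¹ * r⁻¹ = c * (r * c⁻¹ * r⁻¹) := by
      have := (h.tw.comm h.right hρ.1 hr.1).eq
      rw [← e, show c * ρ * r * (c * ρ)⁻¹ = c * (ρ * r) * ρ⁻¹ * c⁻¹ by group, this]; group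
    have e2 : (x : G) * r * (x : G)⁻¹ * r⁻¹ ∈ 𝐂[A] :=
      e1 ▸ mul_mem hc (conj_mem_of_norm (norm_cent ax_le_norm hr) (inv_mem hc))
    obtain ⟨a, ha, hna⟩ := h.toAdj.exists_out
    have e3 := h.toAdj.mem_ax_of_cent (mul_mem (conj_mem_of_norm hx (ax_le_nn' hr))
      (inv_mem (ax_le_nn' hr))) ha hna (mem_cent.mp e2 a ha)
    have e4 := (hf (x * ⟨r, hRX hr⟩ * x⁻¹ * (⟨r, hRX hr⟩ : X)⁻¹)).mpr (by simpa using e3.1)
    rw [map_mul, map_mul, map_mul, map_inv, map_inv] at e4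
    exact mul_inv_eq_one.mp e4
  obtain ⟨r, hr, h1⟩ := h.toAdj.symm.exists_ne
  obtain ⟨s, hs, hs'⟩ : ∃ s ∈ ax B A, s ∉ zpowers r := by
    by_contra hc
    push Not at hc
    have := card_le_of_le (show ax B A ≤ zpowers r from hc)
    rw [Nat.card_zpowers,
      orderOf_eq_prime (p := 2) (by simpa [sq] using h.tw.sq B h.right r hr.1) h1,
      ← h.toAdj.card_ax] at this
    omega
  have s1 : s ≠ 1 := fun e => hs' (e ▸ one_mem _)
  have rs : r * s ≠ 1 := fun e => hs' (eq_inv_of_mul_eq_one_right e ▸ inv_mem (mem_zpowers r))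
  have e0 : f ⟨r, hRX hr⟩ * f ⟨s, hRX hs⟩ = f ⟨r * s, hRX (mul_mem hr hs)⟩ := (map_mul f _ _).symm
  intro c hc
  have key := uq_zstar (Y := Y) (hiso r hr h1) (hord s hs s1) (fun e => hne _ (mul_mem hr hs) rs (by
      rw [← e0, e, ← sq, ← hord s hs s1, pow_orderOf_eq_one]))
    (Commute.map (Subtype.ext (h.tw.comm h.right hr.1 hs.1).eq) f) (hY r hr h1) (hY s hs s1)
    (e0 ▸ hY _ (mul_mem hr hs) rs) (f ⟨c, mem_sup_left hc⟩)
  obtain ⟨y, hy, e⟩ := key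
  have e5 := (hf (y⁻¹ * ⟨c, mem_sup_left hc⟩)).mp (by rw [map_mul, map_inv, e, inv_mul_cancel])
  have := mul_mem (show (y : G) ∈ 𝐍[nn A B] from hy) (h.toAdj.le_norm_nn e5)
  simpa using this

theorem uq (ht : TT S) (h : Mx S A B) (h4 : 4 ≤ Nat.card (ax A B)) : Uq S where
  thin := fun _ _ => ht.thin
  uniq := fun A₁ B₁ B₂ h1 h2 e => by
    have hc := ht.cent_le h1 (h.card_eq h1 ▸ h4)
    obtain ⟨r, hr, hr1⟩ := h2.symm.exists_ne
    obtain ⟨ρ, hρ, hρ1⟩ := h1.toAdj.symm.exists_ne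
    have h0 : UqL S A₁ (ax A₁ B₁) B₁ := ⟨h1.toAdj, rfl⟩
    obtain ⟨h3, h5⟩ := h0.conj (UqL.le ⟨h2, e⟩ (ax_le_nn' hr))
    have hs : r * ρ * r⁻¹ ∈ ax cj(r, B₁) A₁ := by
      have := conj_mem_cj (g := r) hρ
      rwa [ax_cj, cj_of_norm hr.2] at this
    have h6 : r * ρ * r⁻¹ ∈ 𝐍[nn A₁ B₁] := by
      have := mul_mem (hc (h2.comm_mem_cent h1.toAdj e.symm hr hρ))
        (le_normalizer (ax_le_nn' (A := A₁) hρ))
      rwa [show ⁅r, ρ⁆ * ρ = r * ρ * r⁻¹ by simp only [commutatorElement_def]; group] at this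
    have h7 := ht.nn_eq_of_norm h1 h3.1 h3.2 hs (fun e => hρ1 (by simpa using e)) h6
    exact ht.nn_eq_of_norm h1 h2 e hr hr1 (cj_eq_iff.mp (h5.trans h7))
  split := fun A₁ B₁ h1 c hc => by
    obtain ⟨a, ha, hB⟩ := (ht.thin h1).exists_fix h1.toAdj
      (ht.cent_le h1 (h.card_eq h1 ▸ h4) hc) (cent_le_norm _ hc)
    have h2 : c * a ∈ 𝐂[A₁] := mul_mem hc (h1.tw.le_cent h1.left ha)
    obtain ⟨x, hx, k, hk, e⟩ := h1.toAdj.cent_split h2 (h1.toAdj.mem_cent_nn (cent_le_norm _ h2) hB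
      (cent_anti ax_le h2) fun b hb => by
        rw [commutatorElement_eq_one_iff_mul_comm.mpr (mem_cent.mp h2 b hb)]; exact one_mem _)
    refine ⟨a⁻¹ * x, mul_mem (inv_mem ha) hx.1, k, hk, ?_⟩
    rw [mul_assoc, ← e, ← mem_cent.mp hc a ha]; group

end TT

namespace Uq

theorem mem_norm (hu : Uq S) (h : Mx S A B) (hA : g ∈ 𝐍[A]) (hH : g ∈ 𝐍[ax A B]) :
    g ∈ 𝐍[nn A B] := by
  obtain ⟨h1, h2⟩ := UqL.conj (S := S) ⟨h.toAdj, rfl⟩ ⟨hA, hH⟩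
  exact cj_eq_iff.mp (h2.trans (hu.uniq A B _ h h1.1 h1.2))

theorem pt (hu : Uq S) (h : Mx S A B) (h' : Adj S A B') (e : ax A B' = ax A B) :
    B' ∈ Pt S (nn A B) := hu.uniq A B B' h h' e ▸ h'.right_pt

theorem exists_cj (hu : Uq S) (h : Mx S A B) (h' : Adj S A B') (e : ax A B' = ax A B) :
    ∃ a ∈ A, cj(a, B) = B' :=
  hu.thin A B h A h.toAdj.left_pt B h.toAdj.right_pt B' (hu.pt h h' e) h.ne.symm h'.ne.symm

theorem adj (hu : Uq S) (h : Mx S A B) (h' : Adj S A B') (e : ax A B' = ax A B) :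
    B' = B ∨ Mx S B B' :=
  (em (B' = B)).imp_right fun hne => h.of_pt h.toAdj.right_pt (hu.pt h h' e) (Ne.symm hne)

theorem sub (hu : Uq S) (h : Mx S A B) : Sub S (nn A B) :=
  h.toAdj.mod.sub_of_thin (hu.thin A B h)

theorem exists_fix (hu : Uq S) (h : Mx S A B) (hA : g ∈ 𝐍[A]) (hH : g ∈ 𝐍[ax A B]) :
    ∃ a ∈ A, g * a ∈ 𝐍[B] :=
  (hu.thin A B h).exists_fix h.toAdj (hu.mem_norm h hA hH) hA

end Uq

end Cfsg.Agent.WTI
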