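import Mathlib
import Cfsg.Agent.WTI.Uq

/-! WTI: largest axes of index two (PLAN §9). See `stubs/Cfsg/Agent/WTI/PLAN.md`. -/

set_option autoImplicit false

namespace Cfsg.Agent.WTI

open Cfsg Cfsg.Agent.GT Cfsg.Agent.Loc.Mss Subgroup
open scoped commutatorElement

variable {G : Type*} [Group G] [Finite G] {S : Set (Subgroup G)}
  {A B B' C C' E F H P U X Y : Subgroup G} {a a' b c d e g h k n p p' r s t w x y : G}

omit [Finite G] in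
theorem tw_mul_mem (hq : U.relIndex X = 2) (ha : a ∈ X) (hb : b ∈ X) (h1 : a ∉ U) (h2 : b ∉ U) :
    a * b ∈ U :=
  (mul_mem_iff_of_index_two hq (a := ⟨a, ha⟩) (b := ⟨b, hb⟩)).2 (iff_of_false h1 h2)

set_option linter.unusedVariables false in
/-- For index two the stabilizer of `H` in `R'` corresponds to `H ⊓ H'`. -/
theorem Mx.norm_iff_two (h : Mx S A B) (h' : Mx S A B') (hq : qq A B = 2) (hr : r ∈ ax B' A) :
    r ∈ 𝐍[ax A B] ↔ ∀ a ∈ ax A B, ⁅a, r⁆ ∈ ax A B := by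
  refine ⟨fun hn a ha => bas_comm_mem_left hn ha, fun hn => mem_norm_of_cj_le (cj_le_iff.2
    fun a ha => ?_)⟩
  have := mul_mem ha (hn _ (inv_mem ha))
  rwa [show a * ⁅a⁻¹, r⁆ = r * a * r⁻¹ by simp only [commutatorElement_def]; group] at this

theorem Mx.exists_norm_two (h : Mx S A B) (h' : Mx S A B') (hq : qq A B = 2)
    (hne : ax A B' ≠ ax A B) (hx : x ∈ ax A B) (hx' : x ∈ ax A B') (ha : a ∈ A)
    (hna : a ∉ ax A B') : ∃ r ∈ ax B' A, r ∈ 𝐍[ax A B] ∧ ⁅a, r⁆ = x := by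
  have _ := hne
  obtain ⟨r, hr, e⟩ := h'.toAdj.surj ha hna hx'
  refine ⟨r, hr, (h.norm_iff_two h' hq hr).2 fun y hy => ?_, e⟩
  by_cases hy' : y ∈ ax A B'
  · rw [(h'.toAdj.commute hy' hr).commutator_eq]
    exact one_mem _
  · have k := tw_mul_mem ((h.qq_eq h').symm.trans hq) hy.1 ha hy' hna
    rw [show y = y * a * a by rw [mul_assoc, h.tw.sq A h.left a ha, mul_one],
      h'.toAdj.comm_mul_left k.1 ha hr, (h'.toAdj.commute k hr).commutator_eq, one_mul, e]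
    exact hx

theorem Mx.exists_norm_ne (h : Mx S A B) (h' : Mx S A B') (hq : qq A B = 2)
    (h8 : 8 ≤ Nat.card A) : ∃ r ∈ ax B' A, r ≠ 1 ∧ r ∈ 𝐍[ax A B] := by
  by_cases hne : ax A B' = ax A B
  · obtain ⟨r, hr, r1⟩ := h'.toAdj.symm.exists_ne
    exact ⟨r, hr, r1, hne ▸ cent_le_norm _ (h'.toAdj.bas_ax_cent hr)⟩
  obtain ⟨x, hx, hx', x1⟩ : ∃ x ∈ ax A B, x ∈ ax A B' ∧ x ≠ 1 := by
    have h4 := h.toAdj.qq_mul
    obtain ⟨u, v, z, hu, hv, hz, uv, uz, vz⟩ := (Set.two_lt_ncard_iff (s := (ax A B : Set G))).1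
      (show 2 < Nat.card (ax A B) by rw [hq] at h4; omega)
    have k : ∀ {u v : G}, u ∈ ax A B → v ∈ ax A B → u ≠ v → (u ∈ ax A B' ↔ v ∈ ax A B') →
        ∃ x ∈ ax A B, x ∈ ax A B' ∧ x ≠ 1 := fun {u v} hu hv uv e =>
      ⟨u * v, mul_mem hu hv, (mul_mem_iff_of_index_two ((h.qq_eq h').symm.trans hq)
        (a := ⟨u, hu.1⟩) (b := ⟨v, hv.1⟩)).2 e, fun e => uv
        ((eq_inv_of_mul_eq_one_left e).trans (h.tw.inv_eq h.left hv.1))⟩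
    by_cases e1 : u ∈ ax A B' ↔ v ∈ ax A B'
    · exact k hu hv uv e1
    by_cases e2 : u ∈ ax A B' ↔ z ∈ ax A B'
    · exact k hu hz uz e2
    · exact k hv hz vz (by tauto)
  obtain ⟨a, ha, hna⟩ := h'.toAdj.exists_out
  obtain ⟨r, hr, hn, e⟩ := h.exists_norm_two h' hq hne hx hx' ha hna
  exact ⟨r, hr, by rintro rfl; exact x1 (by simpa using e.symm), hn⟩

/-- An involution centralizing `A` in a 2-group with `ρ` acts on `ρ` like an element of `A`. -/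
theorem Mx.comm_key (h : Mx S A B) (hr : r ∈ ax B A) (hc : c ∈ 𝐂[A]) (h2 : c * c = 1)
    (hP : IsPGroup 2 P) (hrP : r ∈ P) (hcP : c ∈ P) : ∃ a ∈ A, ⁅c, r⁆ = ⁅a, r⁆ := by
  by_cases r1 : r = 1
  · exact ⟨1, one_mem _, by simp [r1]⟩
  obtain ⟨E, m, hA, e, hU, hl⟩ := h.exists_mod (U := P ⊓ (𝐍[A] ⊓ 𝐍[ax A B]))
    (hP.to_le inf_le_left) inf_le_right
  have hrE := (hl B h.toAdj rfl r hr r1
    (hU ⟨hrP, hr.2, cent_le_norm _ (h.toAdj.bas_ax_cent hr)⟩)).1 (ax_le_nn' hr)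
  obtain ⟨a, ha, hk⟩ := m.sw hA (hU ⟨hcP, cent_le_norm _ hc, cent_le_norm _ (cent_anti ax_le hc)⟩)
    (cent_le_norm _ hc) (cent_anti inf_le_left hc) (fun a ha => by
      rw [commutatorElement_eq_one_iff_mul_comm.2 (mem_cent.1 hc a ha)]; exact one_mem _)
    (h2 ▸ one_mem _)
  refine ⟨a, ha, ?_⟩
  have e1 := mem_cent.1 hk r hrE
  calc ⁅c, r⁆ = c * (r * (c * a)) * a⁻¹ * (c * c)⁻¹ * r⁻¹ * 1 := by
        rw [commutatorElement_def]; group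
    _ = (c * c) * (a * r * a⁻¹) * (c * c)⁻¹ * r⁻¹ := by rw [e1]; group
    _ = _ := by rw [h2, commutatorElement_def]; group

theorem Mod.tw_cm (m : Mod S E) (hx : x ∈ E) (hy : y ∈ E) : Commute x y := bas_commute m.sq hx hy

theorem Mod.tw_mul (m : Mod S E) (ht : t ∈ 𝐍[E]) (hx : x ∈ E) (hy : y ∈ E) :
    ⁅x * y, t⁆ = ⁅x, t⁆ * ⁅y, t⁆ := by
  rw [commutatorElement_mul_left_eq_conj_mul, (m.tw_cm hx (bas_comm_mem_left ht hy)).mul_inv_cancel,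
    m.tw_cm (bas_comm_mem_left ht hy) (bas_comm_mem_left ht hx)]

theorem Mod.tw_mul' (m : Mod S E) (hg : g ∈ 𝐍[E]) (hx : x ∈ E) (hy : y ∈ E) :
    ⁅g, x * y⁆ = ⁅g, x⁆ * ⁅g, y⁆ := by
  rw [commutatorElement_mul_right_eq_mul_conj, mul_assoc, mul_assoc, ← mul_assoc x,
    (m.tw_cm hx (bas_comm_mem_right hg hy)).mul_inv_cancel]

theorem Mod.tw_conj (m : Mod S E) (hg : g ∈ 𝐍[E]) (ht : t ∈ 𝐍[E]) (hk : ⁅g, t⁆ ∈ E) (hx : x ∈ E) :
    ⁅g * x * g⁻¹, t⁆ = g * ⁅x, t⁆ * g⁻¹ := by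
  have e := (m.tw_cm (inv_mem hk) (conj_mem_of_norm (mul_mem hg ht) (inv_mem hx))).mul_inv_cancel
  calc _ = g * x * g⁻¹ * (⁅g, t⁆⁻¹ * (g * t * x⁻¹ * (g * t)⁻¹) * ⁅g, t⁆⁻¹⁻¹) := by
        simp only [commutatorElement_def]; group
    _ = _ := by rw [e, commutatorElement_def]; group

theorem Mod.tw_jac (m : Mod S E) (hg : g ∈ 𝐍[E]) (ht : t ∈ 𝐍[E]) (hk : ⁅g, t⁆ ∈ E) (hx : x ∈ E) :
    ⁅g, ⁅x, t⁆⁆ = ⁅⁅g, x⁆, t⁆ := by
  rw [commutatorElement_def g, ← m.tw_conj hg ht hk hx, show g * x * g⁻¹ = ⁅g, x⁆ * x by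
    rw [commutatorElement_def]; group, m.tw_mul ht (bas_comm_mem_right hg hx) hx,
    mul_inv_cancel_right]

/-- A module of index two. -/
structure TwM (S : Set (Subgroup G)) (E : Subgroup G) : Prop extends Mod S E where
  idx : ∀ C ∈ Pt S E, E.relIndex C = 2

namespace TwM

theorem mul (m : TwM S E) (hC : C ∈ Pt S E) (ha : a ∈ C) (hb : b ∈ C) (h1 : a ∉ E) (h2 : b ∉ E) :
    a * b ∈ E := tw_mul_mem (m.idx C hC) ha hb h1 h2

theorem cm (m : TwM S E) (hC : C ∈ Pt S E) (hc : c ∈ C) (ht : t ∈ 𝐍[E]) (htC : t ∈ 𝐍[C]) :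
    ⁅c, t⁆ ∈ E := by
  by_cases h : c ∈ E
  · exact bas_comm_mem_left ht h
  · have := m.mul hC hc (conj_mem_of_norm htC (inv_mem hc)) h
      (MB.not_mem_conj ht fun e => h (inv_mem_iff.1 e))
    simpa only [commutatorElement_def, mul_assoc] using this

theorem swp (m : TwM S E) (hA : A ∈ Pt S E) (hne : A ≠ B) {e' : G} (he : Swp S E A B e)
    (he' : Swp S E A B e') : e * e' ∈ E := by
  obtain ⟨a, ha, hna⟩ := m.exists_out hA
  exact m.swp_unique hA hne he he' ha hna (m.le_cent (m.mul (he.2 ▸ m.pt_cj hA (Mod.swp_norm he))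
    (he.2 ▸ conj_mem_cj ha) (he'.2 ▸ conj_mem_cj ha) (MB.not_mem_conj (Mod.swp_norm he) hna)
    (MB.not_mem_conj (Mod.swp_norm he') hna)))

theorem exists_swp2 (m : TwM S E) (hA : A ∈ Pt S E) (hB : B ∈ Pt S E) (hne : A ≠ B)
    (ht : t ∈ 𝐍[E]) (htA : t ∈ 𝐍[A]) (htB : t ∈ 𝐍[B]) : ∃ e, Swp S E A B e ∧ ⁅e, t⁆ ∈ E := by
  obtain ⟨a, ha, hna⟩ := m.exists_out hA
  obtain ⟨b, hb, hnb⟩ := m.exists_out hB
  obtain ⟨e, -, he, -⟩ := m.exists_swp hA hB hne ha hna hb hnb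
  obtain ⟨⟨F, hF, eF, nE⟩, e1⟩ := id he
  have := m.swp hA hne he (e' := t * e * t⁻¹) ⟨⟨_, m.pt_cj hF ht, conj_mem_cj eF,
    MB.not_mem_conj ht nE⟩, by rw [← cj_cj, ← cj_cj, cj_of_norm (inv_mem htA), e1, cj_of_norm htB]⟩
  exact ⟨e, he, by
    simpa only [commutatorElement_def, bas_inv_eq (m.swp_sq he), mul_assoc] using this⟩

end TwM

/-- `t` fixes the point `C` and `[C ⊓ E, t] = {1, p}`. -/
structure TwP (S : Set (Subgroup G)) (E : Subgroup G) (t : G) (C : Subgroup G) (p : G) : Prop where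
  pt : C ∈ Pt S E
  nE : t ∈ 𝐍[E]
  fix : t ∈ 𝐍[C]
  ne : p ≠ 1
  all : ∀ x ∈ C ⊓ E, ⁅x, t⁆ = 1 ∨ ⁅x, t⁆ = p
  ex : ∃ x ∈ C ⊓ E, ⁅x, t⁆ = p

namespace TwP

theorem mem (h : TwP S E t C p) : p ∈ C ⊓ E := by
  obtain ⟨x, hx, rfl⟩ := h.ex
  exact ⟨bas_comm_mem_left h.fix hx.1, bas_comm_mem_left h.nE hx.2⟩

omit [Finite G] in
theorem uniq (h : TwP S E t C p) (h' : TwP S E t C p') : p = p' := by
  obtain ⟨x, hx, rfl⟩ := h.ex
  exact (h'.all x hx).resolve_left h.ne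

theorem conj (h : TwP S E t C p) (m : TwM S E) (hg : g ∈ 𝐍[E]) (hk : ⁅g, t⁆ ∈ E) :
    TwP S E t cj(g, C) (g * p * g⁻¹) := by
  refine ⟨m.pt_cj h.pt hg, h.nE, cj_eq_iff.1 ?_, by simpa using h.ne, fun x hx => ?_, ?_⟩
  · rw [cj_cj, show t * g = ⁅g, t⁆⁻¹ * (g * t) by rw [commutatorElement_def]; group, ← cj_cj,
      ← cj_cj, cj_of_norm h.fix, cj_of_norm (m.le_norm (m.pt_cj h.pt hg) (inv_mem hk))]
  · have h1 := conj_mem_of_norm' hg hx.2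
    rw [show x = g * (g⁻¹ * x * g) * g⁻¹ by group, m.tw_conj hg h.nE hk h1]
    rcases h.all _ ⟨mem_cj.1 hx.1, h1⟩ with e | e <;> simp [e]
  · obtain ⟨x, hx, rfl⟩ := h.ex
    exact ⟨_, ⟨conj_mem_cj hx.1, conj_mem_of_norm hg hx.2⟩, m.tw_conj hg h.nE hk hx.2⟩

theorem of_fix (h : TwP S E t A p) (m : TwM S E) (hB : B ∈ Pt S E) (ht : t ∈ 𝐍[B]) :
    ∃ p', TwP S E t B p' := by
  by_cases hne : A = B
  · exact ⟨p, hne ▸ h⟩
  obtain ⟨e, he, hk⟩ := m.exists_swp2 h.pt hB hne h.nE h.fix ht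
  exact ⟨_, he.2 ▸ h.conj m (Mod.swp_norm he) hk⟩

theorem key (h : TwP S E t C p) (h' : TwP S E t B p') (m : TwM S E) (hne : B ≠ C) (hc : c ∈ C)
    (hn : c ∉ E) : c * p' * c⁻¹ = p * p' := by
  have k : ⁅c, p'⁆ ≠ 1 := fun e => hne (m.fix_unique h.pt h'.pt hc hn (m.tw.mem_norm_of_commute
    h'.pt.1 h'.mem.1 h'.ne (commutatorElement_eq_one_iff_commute.1 e)))
  obtain ⟨x, hx, rfl⟩ := h'.ex
  have e := m.tw_jac (h.pt.2 hc) h.nE (m.cm h.pt hc h.nE h.fix) hx.2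
  rw [← mul_inv_eq_iff_eq_mul, ← commutatorElement_def, e]
  exact (h.all _ (m.comm_mem h.pt hc hx.2)).resolve_left (e ▸ k)

theorem three (h : TwP S E t A p) (m : TwM S E) (ha : a ∈ A) (hn : a ∉ E) (hB : B ∈ Pt S E)
    (hne : B ≠ A) (ht : t ∈ 𝐍[B]) (hC : C ∈ Pt S E) (ht' : t ∈ 𝐍[C]) :
    C = A ∨ C = B ∨ C = cj(a, B) := by
  by_contra hc
  simp only [not_or] at hc
  obtain ⟨u, hu⟩ := h.of_fix m hB ht
  obtain ⟨v, hv⟩ := h.of_fix m hC ht'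
  obtain ⟨b, hb, hnb⟩ := m.exists_out hB
  have hF := hv.conj m (hB.2 hb) (m.cm hB hb h.nE ht)
  rw [hu.key hv m hc.2.1 hb hnb] at hF
  have e1 := h.key hu m hne ha hn
  have e2 := h.key hv m hc.1 ha hn
  by_cases e : cj(b, C) = A
  · rw [e] at hF
    refine hc.2.2 (m.tw.ti _ hC.1 _ (m.pt_cj hB (h.pt.2 ha)).1 v hv.mem.1 ?_ hv.ne)
    have : v = a * u * a⁻¹ := by
      rw [e1, h.uniq hF, (m.tw_cm (mul_mem hu.mem.2 hv.mem.2) hu.mem.2).eq, ← mul_assoc,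
        m.sq u hu.mem.2, one_mul]
    exact this ▸ conj_mem_cj hu.mem.1
  · have e3 := h.key hF m e ha hn
    rw [show a * (u * v) * a⁻¹ = a * u * a⁻¹ * (a * v * a⁻¹) by group, e1, e2,
      (m.tw_cm hu.mem.2 h.mem.2).mul_mul_mul_comm, m.sq p h.mem.2] at e3
    exact h.ne (mul_right_cancel e3).symm

/-- If the module is not thin both `t` and `t a` fix a second point. -/
theorem other (h : TwP S E t A p) (m : TwM S E) (hn : ¬ Thin S E) (t2 : t * t = 1) (ha : a ∈ A)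
    (hna : a ∉ E) (hB : B ∈ Pt S E) (hne : B ≠ A) (ht : t ∈ 𝐍[B]) :
    ∃ C ∈ Pt S E, C ≠ A ∧ t * a ∈ 𝐍[C] := by
  obtain ⟨C, hC, h1, h2⟩ : ∃ C ∈ Pt S E, C ≠ A ∧ ∀ a ∈ A, cj(a, B) ≠ C := by
    by_contra hc
    push Not at hc
    exact hn (m.thin_of_pt h.pt hB hne hc)
  have h3 : t ∉ 𝐍[C] := fun e => by
    rcases h.three m ha hna hB hne ht hC e with e | e | e
    exacts [h1 e, h2 1 (one_mem _) ((cj_one B).trans e.symm), h2 a ha e.symm]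
  obtain ⟨F, hF, tF, e, eF, nE, -, te⟩ := m.par h.nE (t2 ▸ one_mem _) hC h3
  obtain ⟨g, hg, gF, hk⟩ : ∃ g ∈ 𝐍[E], cj(g, F) = A ∧ ⁅g, t⁆ ∈ E := by
    by_cases e : F = A
    · exact ⟨1, one_mem _, (cj_one F).trans e, by simp⟩
    · obtain ⟨g, hg, hk⟩ := m.exists_swp2 hF h.pt e h.nE tF h.fix
      exact ⟨g, Mod.swp_norm hg, hg.2, hk⟩
  have hD := m.pt_cj hC hg
  refine ⟨_, hD, fun e => h3 (cj_eq_cj.1 (e.trans gF.symm) ▸ tF), ?_⟩
  have k1 : g * (t * e) * g⁻¹ ∈ 𝐍[cj(g, C)] := cj_norm C g ▸ conj_mem_cj te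
  have k2 := m.mul h.pt (gF ▸ conj_mem_cj eF) ha (MB.not_mem_conj hg nE) hna
  have := mul_mem (mul_mem (m.le_norm hD (inv_mem hk)) k1) (m.le_norm hD k2)
  rw [show ⁅g, t⁆⁻¹ * (g * (t * e) * g⁻¹) * (g * e * g⁻¹ * a) = t * (g * (e * e) * g⁻¹) * a by
    rw [commutatorElement_def]; group, m.tw.sq F hF.1 e eF] at this
  simpa using this

end TwP

theorem tw_thin (h : Mx S A B) (h' : Mx S A B') (hq : qq A B = 2) (hne : ax A B' ≠ ax A B)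
    (hr : r ∈ ax B' A) (r1 : r ≠ 1) (rH : r ∈ 𝐍[ax A B]) (m0 : Mod S E) (hA : A ∈ Pt S E)
    (eA : A ⊓ E = ax A B) (rE : r ∈ 𝐍[E]) : Thin S E := by
  by_contra hn
  have m : TwM S E := ⟨m0, fun C hC => by
    rw [m0.relIndex_eq hC hA, ← inf_relIndex_left, eA]; exact hq⟩
  have hq' := (h.qq_eq h').symm.trans hq
  obtain ⟨a, ha', hna'⟩ : ∃ a ∈ ax A B', a ∉ ax A B := by
    by_contra hc
    push Not at hc
    exact hne (eq_of_le_of_card_ge hc (h.card_eq h').le)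
  obtain ⟨z, hz, hnz⟩ : ∃ z ∈ ax A B, z ∉ ax A B' := by
    by_contra hc
    push Not at hc
    exact hne (eq_of_le_of_card_ge hc (h'.card_eq h).le).symm
  have ha : a ∈ A := ha'.1
  have hna : a ∉ E := fun e => hna' (eA ▸ ⟨ha, e⟩)
  have aE := hA.2 ha
  have a2 := m.tw.sq A hA.1 a ha
  have ar : Commute a r := h'.toAdj.commute ha' hr
  have mH : ∀ {x : G}, x ∈ ax A B → x ∈ E := fun hx => (eA.ge hx).2
  have c1 : ∀ x ∈ ax A B', ⁅x, r⁆ = 1 := fun x hx => (h'.toAdj.commute hx hr).commutator_eq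
  have c2 : ∀ x ∈ A, x ∉ ax A B' → ⁅x, r⁆ = ⁅z, r⁆ := fun x hx hx' => by
    have k := tw_mul_mem hq' hx hz.1 hx' hnz
    rw [show x = x * z * z by rw [mul_assoc, m.tw.sq A hA.1 z hz.1, mul_one],
      h'.toAdj.comm_mul_left k.1 hz.1 hr, c1 _ k, one_mul]
  have p1 : ⁅z, r⁆ ≠ 1 := fun e => hnz ((h'.toAdj.mem_ax_iff hr r1).2
    ⟨hz.1, commutatorElement_eq_one_iff_commute.1 e⟩)
  have pH : ⁅z, r⁆ ∈ ax A B := bas_comm_mem_left rH hz
  have pH' : ⁅z, r⁆ ∈ ax A B' := h'.toAdj.comm_mem hz.1 hr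
  have c3 : ∀ x ∈ A, ⁅x, r⁆ = 1 ∨ ⁅x, r⁆ = ⁅z, r⁆ := fun x hx => by
    by_cases e : x ∈ ax A B'
    exacts [Or.inl (c1 x e), Or.inr (c2 x hx e)]
  have c4 : ∀ x ∈ A, ⁅x, r * a⁆ = ⁅x, r⁆ := fun x hx => by
    rw [commutatorElement_mul_right_eq_mul_conj, (m.tw.comm hA.1 hx ha).commutator_eq]
    group
  generalize ez : ⁅z, r⁆ = p at *
  have r2 := m.tw.sq _ h'.right r hr.1
  have P1 : TwP S E r A p := ⟨hA, rE, hr.2, p1, fun x hx => c3 x hx.1, z, eA.ge hz, ez⟩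
  have P2 : TwP S E (r * a) A p := ⟨hA, mul_mem rE aE, mul_mem hr.2 (le_normalizer ha), p1,
    fun x hx => c4 x hx.1 ▸ c3 x hx.1, z, eA.ge hz, (c4 z hz.1).trans ez⟩
  obtain ⟨B₁, h1, n1, f1, B₂, h2, n2, f2⟩ : ∃ B₁ ∈ Pt S E, B₁ ≠ A ∧ r ∈ 𝐍[B₁] ∧
      ∃ B₂ ∈ Pt S E, B₂ ≠ A ∧ r * a ∈ 𝐍[B₂] := by
    obtain ⟨a0, ha0, C, hC, n, f⟩ := m.exists_fix hA rE hr.2 (r2 ▸ one_mem _)
    by_cases e : a0 ∈ E
    · have f' : r ∈ 𝐍[C] := by simpa using mul_mem f (inv_mem (m.le_norm hC e))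
      exact ⟨C, hC, n, f', P1.other m hn r2 ha hna hC n f'⟩
    · have f' : r * a ∈ 𝐍[C] := by
        have := mul_mem f (m.le_norm hC (m.mul hA ha0 ha e hna))
        rwa [mul_assoc, ← mul_assoc a0, m.tw.sq A hA.1 a0 ha0, one_mul] at this
      obtain ⟨D, hD, n', f''⟩ := P2.other m hn (by
        rw [ar.mul_mul_mul_comm, r2, a2, one_mul]) ha hna hC n f'
      exact ⟨D, hD, n', by rwa [mul_assoc, a2, mul_one] at f'', C, hC, n, f'⟩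
  have nf : r ∉ 𝐍[B₂] := fun e => n2 (m.fix_unique hA h2 ha hna
    (by simpa using mul_mem (inv_mem e) f2))
  have sj : ∀ C ∈ Pt S E, C ≠ A → ∀ x ∈ ax A B, ∃ u ∈ C ⊓ E, ⁅a, u⁆ = x := fun C hC n x hx => by
    have e := (m.ax_eq A hA C hC n.symm).trans eA
    rw [← m.ax_eq C hC A hA n]
    exact (m.adj hA hC n.symm).surj ha (e ▸ hna') (e ▸ hx)
  have ij : ∀ C ∈ Pt S E, C ≠ A → ∀ u ∈ C, ⁅a, u⁆ = 1 → u = 1 := fun C hC n u hu e =>
    by_contra fun u1 => n (m.fix_unique hA hC ha hna (m.tw.mem_norm_of_commute hC.1 hu u1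
      (commutatorElement_eq_one_iff_commute.1 e)))
  have k1 : ⁅a, r⁆ ∈ E := by rw [ar.commutator_eq]; exact one_mem _
  have k2 : ⁅a, r * a⁆ ∈ E := by rw [c4 a ha]; exact k1
  -- the computation with `c_x = u v`
  have main : ∀ x ∈ ax A B, ∃ u ∈ B₁ ⊓ E, ∃ v ∈ B₂ ⊓ E, ⁅a, u⁆ = ⁅x, r⁆ ∧ ⁅a, v⁆ = ⁅x, r⁆ ∧
      ∃ y ∈ A, u * v * (x * ⁅x, r⁆) = ⁅y, r⁆ := fun x hx => by
    obtain ⟨u, hu, eu⟩ := sj B₁ h1 n1 x hx
    obtain ⟨v, hv, ev⟩ := sj B₂ h2 n2 x hx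
    have huv := mul_mem hu.2 hv.2
    have x2 := m.sq x (mH hx)
    have ac : Commute a (u * v) := commutatorElement_eq_one_iff_commute.1 (by
      rw [m.tw_mul' aE hu.2 hv.2, eu, ev, x2])
    obtain ⟨y, hy, e⟩ := h'.comm_key hr (c := u * v) (mem_cent.2 fun y hy => by
        by_cases e : y ∈ E
        · exact m.tw_cm e huv
        · rw [show y = y * a * a by rw [mul_assoc, a2, mul_one]]
          exact (m.tw_cm (m.mul hA hy ha e hna) huv).mul_left ac) (m.sq _ huv)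
      (pg_sup' m.pg ((m.tw.pg h'.right).to_le (zpowers_le_of_mem hr.1))
        (zpowers_le_of_mem rE)) (mem_sup_right (mem_zpowers r))
      (mem_sup_left huv)
    refine ⟨_, ⟨bas_comm_mem_left f1 hu.1, bas_comm_mem_left rE hu.2⟩, _,
      ⟨bas_comm_mem_left f2 hv.1, bas_comm_mem_left P2.nE hv.2⟩,
      by rw [m.tw_jac aE rE k1 hu.2, eu], by rw [m.tw_jac aE P2.nE k2 hv.2, ev, c4 x hx.1],
      y, hy, ?_⟩
    rw [← e, m.tw_mul rE hu.2 hv.2, mul_assoc, commutatorElement_mul_right_eq_mul_conj,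
      ← commutatorElement_inv a v, ev, show x * ⁅x, r⁆ = (x * x) * (r * x⁻¹ * r⁻¹) by
        rw [commutatorElement_def]; group, x2, bas_inv_eq x2]
    calc _ = ⁅u, r⁆ * (⁅v, r⁆ * (r * (x * x) * r⁻¹)) := by group
      _ = _ := by rw [x2]; group
  have U0 : ∀ x ∈ ax A B, x ∈ ax A B' → x = 1 ∨ x = p := fun x hx hx' => by
    obtain ⟨u, hu, v, hv, e1, e2, y, hy, e⟩ := main x hx
    rw [c1 x hx'] at e1 e2 e
    rw [ij _ h1 n1 u hu.1 e1, ij _ h2 n2 v hv.1 e2] at e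
    simpa only [← e, one_mul, mul_one] using c3 y hy
  obtain ⟨u, hu, v, hv, e1, e2, y, hy, e⟩ := main z hz
  rw [ez] at e1 e2 e
  have yH := h'.toAdj.comm_mem hy hr
  have yH' : ⁅y, r⁆ ∈ ax A B := by rcases c3 y hy with e | e <;> rw [e] <;> simp [pH]
  obtain ⟨s, sH, ns, ev⟩ : ∃ s ∈ ax A B, s ∉ ax A B' ∧ v = u * s :=
    ⟨⁅y, r⁆ * (z * p)⁻¹, mul_mem yH' (inv_mem (mul_mem hz pH)), fun e => hnz (by
      have := mul_mem (inv_mem (mul_mem (inv_mem yH) e)) (inv_mem pH')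
      rwa [inv_mul_cancel_left, inv_inv, mul_inv_cancel_right] at this), by
      rw [← e, mul_inv_cancel_right, ← mul_assoc, m.sq u hu.2, one_mul]⟩
  obtain ⟨b, hb, hnb⟩ := m.exists_out h1
  have bE := h1.2 hb
  have b2 := m.tw.sq _ h1.1 b hb
  have eb : cj(b, A) = cj(a, B₁) := by
    have := P1.conj m bE (m.cm h1 hb rE f1)
    rcases P1.three m ha hna h1 n1 f1 this.pt this.fix with e | e | e
    · exact absurd (m.fix_unique h1 hA hb hnb (cj_eq_iff.1 e)) n1.symm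
    · exact absurd (MB.eq_of_cj hb e) n1.symm
    · exact e
  have Bc : ∀ w ∈ B₁ ⊓ E, b * ⁅a, w⁆ * b⁻¹ = ⁅a, w⁆ * w := fun w hw => by
    have k := mem_cent.1 (inv_mem (m.cube hA h1 n1.symm ha hna hb eb).2.1) w hw.2
    have ia := bas_inv_eq a2
    have ib := bas_inv_eq b2
    have k' : ((a * b) ^ 3)⁻¹ = (a * b)⁻¹ * (b * (a * b * a)) := by
      rw [show ((a * b) ^ 3)⁻¹ = (a * b)⁻¹ * (b⁻¹ * (a⁻¹ * b⁻¹ * a⁻¹)) by
        rw [pow_three]; group, ia, ib]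
    rw [k'] at k
    calc _ = a * b * ((a * b)⁻¹ * (b * (a * b * a)) * w) * (b * (a * b * a))⁻¹ := by
          rw [m.comm_eq hA h1 n1.symm ha hna hb eb hw]; group
      _ = a * (b * w * b⁻¹) * a⁻¹ := by rw [← k]; group
      _ = _ := by rw [(m.tw.comm h1.1 hb hw.1).mul_inv_cancel, commutatorElement_def]; group
  obtain ⟨w, hw, ew⟩ := sj B₁ h1 n1 s sH
  obtain ⟨f, hf, hnf⟩ := m.exists_out h2
  have fE := h2.2 hf
  obtain ⟨x, hx, ex⟩ := (m.adj h2 hA n2).surj hf (fun e => hnf ((m.ax_eq _ h2 _ hA n2).le e).2)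
    ((m.ax_eq _ h2 _ hA n2).ge (m.comm_mem h2 hf hw.2))
  rw [m.ax_eq _ hA _ h2 n2.symm, eA] at hx
  have fx : Commute f (x * w) := commutatorElement_eq_one_iff_commute.1 (by
    rw [m.tw_mul' fE (mH hx) hw.2, ex, m.sq _ (m.comm_mem h2 hf hw.2).2])
  have nc : ∀ C ∈ Pt S E, ∀ y ∈ C, y ≠ 1 → Commute f y → C = B₂ := fun C hC y hy y1 e =>
    m.fix_unique h2 hC hf hnf (m.tw.mem_norm_of_commute hC.1 hy y1 e)
  have Pa : r ∈ 𝐍[cj(a, B₁)] := by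
    obtain ⟨_, hP⟩ := P1.of_fix m h1 f1
    exact (hP.conj m aE k1).fix
  have nc' : ∀ y ∈ B₁ ⊓ E, ⁅a, y⁆ ∉ ax A B' → ¬ Commute f (⁅a, y⁆ * y) := fun y hy y1 e =>
    nf (nc _ (m.pt_cj h1 aE) _ (by
      rw [show ⁅a, y⁆ * y = a * y * a⁻¹ by rw [commutatorElement_def]; group]
      exact conj_mem_cj hy.1) (fun e => y1 (by
        have : y = 1 := by simpa [commutatorElement_def] using e
        simp [this])) e ▸ Pa)
  have w1 : w ≠ 1 := by rintro rfl; exact ns (by simp [← ew])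
  have sE := mH sH
  have pE := mH pH
  by_cases hx' : x ∈ ax A B'
  · rcases U0 x hx hx' with rfl | rfl
    · exact nf (nc _ h1 w hw.1 w1 (by simpa using fx) ▸ f1)
    · refine nc' _ (mul_mem hw hu) ?_ ?_ <;> rw [m.tw_mul' aE hw.2 hu.2, ew, e1]
      · exact fun e => ns (by simpa using mul_mem e (inv_mem pH'))
      · have := fx.mul_right (m.tw.comm h2.1 hf hv.1)
        rwa [ev, ← mul_assoc, m.tw_cm (mul_mem (mul_mem pE hw.2) hu.2) sE, mul_assoc x,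
          ← mul_assoc s] at this
  · have s2 := m.sq s sE
    rcases U0 _ (mul_mem hx sH) (tw_mul_mem hq' hx.1 sH.1 hx' ns) with e | e
    · refine nc' w hw (ew ▸ ns) ?_
      rwa [ew, ← bas_inv_eq s2, ← eq_inv_of_mul_eq_one_left e]
    · have ex' : x = p * s := by rw [← e, mul_assoc, s2, mul_one]
      have k : b * a * v * (b * a)⁻¹ = x * w := by
        have k1 := Bc u hu
        have k2 := Bc w hw
        rw [e1] at k1
        rw [ew] at k2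
        calc _ = b * ⁅a, v⁆ * b⁻¹ * (b * v * b⁻¹) := by rw [commutatorElement_def]; group
          _ = b * p * b⁻¹ * (b * u * b⁻¹) * (b * s * b⁻¹) := by rw [e2, ev]; group
          _ = _ := by
            rw [k1, k2, (m.tw.comm h1.1 hb hu.1).mul_inv_cancel, mul_assoc p, m.sq u hu.2, ex']
            group
      have v1 : v ≠ 1 := by rintro rfl; exact p1 (by simpa using e2.symm)
      have k3 := nc _ (m.pt_cj h2 (mul_mem bE aE)) _ (conj_mem_cj hv.1)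
        (fun e => v1 (conj_eq_one_iff.1 e)) (k ▸ fx)
      have k4 : cj(b, B₂) = cj(a, B₂) := by
        rw [← cj_eq_cj (g := b), cj_cj, cj_cj, b2, cj_one, k3]
      have k5 := m.swp h2 (fun e => n2 (m.fix_unique hA h2 ha hna (cj_eq_iff.1 e.symm)))
        ⟨⟨A, hA, ha, hna⟩, rfl⟩ ⟨⟨B₁, h1, hb, hnb⟩, k4⟩
      exact n1 (m.fix_unique h1 hA hb hnb (by
        simpa using mul_mem (inv_mem (le_normalizer ha)) (m.le_norm hA k5))).symm

theorem tt_two (h2 : Two S) (h : Mx S A B) (hq : qq A B = 2) (h8 : 8 ≤ Nat.card A) : TT S := by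
  intro C D hC
  have hq' := (hC.qq_eq h).trans hq
  obtain ⟨D', h', hne⟩ := h2 C D hC
  obtain ⟨r, hr, r1, rH⟩ := hC.exists_norm_ne h' hq' (h.tw.card_eq h.left hC.left ▸ h8)
  refine ⟨zpowers r, (h.tw.pg h'.right).to_le (zpowers_le_of_mem hr.1),
    zpowers_le_of_mem ⟨hr.2, rH⟩, fun E m hA eA hU => ?_⟩
  exact tw_thin hC h' hq' hne hr r1 rH m hA eA (hU (mem_zpowers r))

end Cfsg.Agent.WTI
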